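import Cfsg.Agent.H74.Zsigmondy
import Mathlib

/-!
Size of the primitive part of `q ^ e - 1`.
-/

namespace Cfsg.Agent.H91.PrimitivePart

open Polynomial

/-- `∏_{d ∣ n} (1 - x ^ (-d))`. -/
noncomputable def low (n : ℕ) (x : ℝ) : ℝ := ∏ d ∈ n.divisors, (1 - (x⁻¹) ^ d)

theorem factor_pos {x : ℝ} (hx : 2 ≤ x) {d : ℕ} (hd : 0 < d) : 0 < 1 - (x⁻¹) ^ d := by
  have h0 : (0 : ℝ) ≤ x⁻¹ := by positivity
  have h1 : x⁻¹ < 1 := inv_lt_one_of_one_lt₀ (by linarith)
  have := pow_lt_one₀ h0 h1 hd.ne'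
  linarith

theorem factor_le_one {x : ℝ} (hx : 2 ≤ x) (d : ℕ) : 1 - (x⁻¹) ^ d ≤ 1 := by
  have : (0 : ℝ) ≤ (x⁻¹) ^ d := pow_nonneg (by positivity) d
  linarith

theorem low_pos {x : ℝ} (hx : 2 ≤ x) (n : ℕ) : 0 < low n x :=
  Finset.prod_pos fun d hd => factor_pos hx (Nat.pos_of_mem_divisors hd)

theorem low_mul_le {x : ℝ} (hx : 2 ≤ x) {n p : ℕ} (hn : n ≠ 0) (hp : 0 < p) :
    low (n * p) x ≤ low n (x ^ p) := by
  have e : low n (x ^ p) = ∏ d ∈ n.divisors.image (· * p), (1 - (x⁻¹) ^ d) := by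
    rw [Finset.prod_image (fun a _ b _ h => Nat.eq_of_mul_eq_mul_right hp h), low]
    refine Finset.prod_congr rfl fun d _ => ?_
    rw [← inv_pow, ← pow_mul, mul_comm p d]
  rw [e, low]
  refine Finset.prod_le_prod_of_subset_of_le_one ?_ (fun d hd => (factor_pos hx (Nat.pos_of_mem_divisors hd)).le)
    (fun d _ _ => factor_le_one hx d)
  intro d hd
  obtain ⟨a, ha, rfl⟩ := Finset.mem_image.1 hd
  exact Nat.mem_divisors.2 ⟨Nat.mul_dvd_mul_right (Nat.dvd_of_mem_divisors ha) p, mul_ne_zero hn hp.ne'⟩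

theorem low_mul_eq {x : ℝ} {n p : ℕ} (hn : n ≠ 0) (hp : p.Prime) (hpn : ¬ p ∣ n) :
    low (n * p) x = low n (x ^ p) * low n x := by
  have e : (n * p).divisors = n.divisors.image (· * p) ∪ n.divisors := by
    ext d
    simp only [Nat.mem_divisors, Finset.mem_union, Finset.mem_image]
    constructor
    · rintro ⟨hd, -⟩
      by_cases hpd : p ∣ d
      · obtain ⟨c, rfl⟩ := hpd
        refine Or.inl ⟨c, ⟨?_, hn⟩, mul_comm c p⟩
        exact Nat.dvd_of_mul_dvd_mul_left hp.pos (mul_comm n p ▸ hd)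
      · exact Or.inr ⟨(Nat.Coprime.dvd_of_dvd_mul_right (hp.coprime_iff_not_dvd.2 hpd).symm hd), hn⟩
    · rintro (⟨c, ⟨hc, -⟩, rfl⟩ | ⟨hd, -⟩)
      · exact ⟨Nat.mul_dvd_mul_right hc p, mul_ne_zero hn hp.ne_zero⟩
      · exact ⟨hd.mul_right p, mul_ne_zero hn hp.ne_zero⟩
  have hdis : Disjoint (n.divisors.image (· * p)) n.divisors := by
    rw [Finset.disjoint_left]
    intro d hd hd'
    obtain ⟨c, -, rfl⟩ := Finset.mem_image.1 hd
    exact hpn ((dvd_mul_left p c).trans (Nat.dvd_of_mem_divisors hd'))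
  rw [low, e, Finset.prod_union hdis, Finset.prod_image (fun a _ b _ h => Nat.eq_of_mul_eq_mul_right hp.pos h),
    low, low]
  congr 1
  refine Finset.prod_congr rfl fun d _ => ?_
  rw [← inv_pow, ← pow_mul, mul_comm p d]

theorem cyclotomic_bounds : ∀ (n : ℕ), 0 < n → ∀ x : ℝ, 2 ≤ x →
    x ^ n.totient * low n x ≤ (cyclotomic n ℝ).eval x ∧
      (cyclotomic n ℝ).eval x * low n x ≤ x ^ n.totient := by
  intro n
  induction n using Nat.strong_induction_on with
  | _ n ih =>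
  intro hn x hx
  rcases Nat.eq_or_lt_of_le (Nat.succ_le_of_lt hn) with h1 | h1
  · obtain rfl : n = 1 := h1.symm
    rw [cyclotomic_one, eval_sub, eval_X, eval_one, Nat.totient_one, pow_one, low, Nat.divisors_one,
      Finset.prod_singleton, pow_one, mul_sub, mul_one, mul_inv_cancel₀ (by linarith)]
    refine ⟨le_rfl, ?_⟩
    have : x⁻¹ ≥ 0 := by positivity
    nlinarith [mul_inv_cancel₀ (show x ≠ 0 by linarith)]
  have hp : n.minFac.Prime := Nat.minFac_prime (by omega)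
  have hd := Nat.minFac_dvd n
  generalize n.minFac = p at hp hd
  obtain ⟨m, rfl⟩ : ∃ m, n = m * p := exists_eq_mul_left_of_dvd hd
  have hm0 : 0 < m := Nat.pos_of_mul_pos_right hn
  have hmn : m < m * p := lt_mul_of_one_lt_right hm0 hp.one_lt
  have hxp : 2 ≤ x ^ p := le_trans hx (le_self_pow₀ (by linarith) hp.ne_zero)
  obtain ⟨a1, a2⟩ := ih m hmn hm0 (x ^ p) hxp
  obtain ⟨b1, b2⟩ := ih m hmn hm0 x hx
  by_cases hpm : p ∣ m
  · have he : (cyclotomic (m * p) ℝ).eval x = (cyclotomic m ℝ).eval (x ^ p) := by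
      rw [← cyclotomic_expand_eq_cyclotomic hp hpm ℝ, expand_eval]
    have ht : (m * p).totient = p * m.totient := by
      rw [mul_comm m p, Nat.totient_mul_of_prime_of_dvd hp hpm]
    have hl := low_mul_le hx hm0.ne' hp.pos
    rw [he, ht, pow_mul]
    have hpos : (0 : ℝ) ≤ (x ^ p) ^ m.totient := by positivity
    have hc := cyclotomic_nonneg m (R := ℝ) (x := x ^ p) (by linarith)
    exact ⟨le_trans (mul_le_mul_of_nonneg_left hl hpos) a1, le_trans (mul_le_mul_of_nonneg_left hl hc) a2⟩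
  · have he : (cyclotomic (m * p) ℝ).eval x * (cyclotomic m ℝ).eval x = (cyclotomic m ℝ).eval (x ^ p) := by
      rw [← eval_mul, ← cyclotomic_expand_eq_cyclotomic_mul hp hpm ℝ, expand_eval]
    have ht : (x ^ p) ^ m.totient = x ^ (m * p).totient * x ^ m.totient := by
      rw [← pow_mul, ← pow_add, Nat.totient_mul ((hp.coprime_iff_not_dvd.2 hpm).symm), Nat.totient_prime hp,
        mul_comm p, ← Nat.mul_succ, Nat.succ_eq_add_one, Nat.sub_add_cancel hp.one_le]
    rw [low_mul_eq hm0.ne' hp hpm]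
    rw [← he, ht] at a1 a2
    set F := (cyclotomic (m * p) ℝ).eval x
    set E := (cyclotomic m ℝ).eval x
    set A := low m (x ^ p)
    set B := low m x
    set X := x ^ (m * p).totient
    set Y := x ^ m.totient
    have hA : 0 < A := low_pos hxp m
    have hB : 0 < B := low_pos hx m
    have hY : 0 < Y := pow_pos (by linarith) _
    have hX : 0 < X := pow_pos (by linarith) _
    have hE : 0 < E := cyclotomic_pos' m (by linarith)
    have hF : 0 < F := cyclotomic_pos' _ (by linarith)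
    constructor
    · refine le_of_mul_le_mul_left ?_ hY
      nlinarith [mul_le_mul_of_nonneg_left b2 hF.le, mul_le_mul_of_nonneg_right a1 hB.le]
    · refine le_of_mul_le_mul_left ?_ hY
      nlinarith [mul_le_mul_of_nonneg_left b1 (mul_nonneg hF.le hA.le)]

theorem quarter_le_low {x : ℝ} (hx : 2 ≤ x) (n : ℕ) (hn : 0 < n) : (1 : ℝ) / 4 ≤ low n x := by
  have key : ∀ N : ℕ, 1 ≤ N → 1 / 4 + (1 / 2) * ((2 : ℝ)⁻¹) ^ N ≤
      ∏ d ∈ Finset.Icc 1 N, (1 - ((2 : ℝ)⁻¹) ^ d) := by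
    intro N hN
    induction N, hN using Nat.le_induction with
    | base => norm_num
    | succ N hN ih =>
      rw [Finset.prod_Icc_succ_top (by omega)]
      set a := ((2 : ℝ)⁻¹) ^ N
      have ha0 : 0 < a := by positivity
      have ha1 : a ≤ 1 / 2 := by
        have := pow_le_pow_of_le_one (by norm_num : (0:ℝ) ≤ 2⁻¹) (by norm_num) hN
        simpa [a] using this
      rw [show ((2 : ℝ)⁻¹) ^ (N + 1) = a / 2 by rw [pow_succ]; ring]
      calc 1 / 4 + 1 / 2 * (a / 2) ≤ (1 / 4 + 1 / 2 * a) * (1 - a / 2) := by nlinarith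
        _ ≤ _ := mul_le_mul_of_nonneg_right ih (by linarith)
  calc (1 : ℝ) / 4 ≤ ∏ d ∈ Finset.Icc 1 n, (1 - ((2 : ℝ)⁻¹) ^ d) :=
        le_trans (le_add_of_nonneg_right (by positivity)) (key n hn)
    _ ≤ ∏ d ∈ n.divisors, (1 - ((2 : ℝ)⁻¹) ^ d) :=
        Finset.prod_le_prod_of_subset_of_le_one
          (fun d hd => Finset.mem_Icc.2 ⟨Nat.pos_of_mem_divisors hd, Nat.divisor_le hd⟩)
          (fun d hd => (factor_pos le_rfl (Finset.mem_Icc.1 hd).1).le) (fun d _ _ => factor_le_one le_rfl d)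
    _ ≤ low n x := by
        refine Finset.prod_le_prod (fun d hd => (factor_pos le_rfl (Nat.pos_of_mem_divisors hd)).le)
          fun d hd => ?_
        have := pow_le_pow_left₀ (by positivity : (0 : ℝ) ≤ x⁻¹)
          (inv_anti₀ (by norm_num : (0:ℝ) < 2) hx) d
        linarith

theorem pow_totient_le {q n : ℕ} (hq : 2 ≤ q) (hn : 0 < n) :
    (q : ℤ) ^ n.totient ≤ 4 * (cyclotomic n ℤ).eval (q : ℤ) := by
  have hx : (2 : ℝ) ≤ (q : ℝ) := by exact_mod_cast hq
  have h1 := (cyclotomic_bounds n hn (q : ℝ) hx).1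
  have h2 := quarter_le_low hx n hn
  have h3 : (cyclotomic n ℝ).eval (q : ℝ) = (((cyclotomic n ℤ).eval (q : ℤ) : ℤ) : ℝ) := by
    rw [← map_cyclotomic_int n ℝ, eval_natCast_map]; rfl
  rw [h3] at h1
  have h4 : ((q : ℝ)) ^ n.totient * (1 / 4) ≤ (q : ℝ) ^ n.totient * low n q :=
    mul_le_mul_of_nonneg_left h2 (by positivity)
  have h5 : (((q : ℤ) ^ n.totient : ℤ) : ℝ) ≤ ((4 * (cyclotomic n ℤ).eval (q : ℤ) : ℤ) : ℝ) := by
    push_cast; linarith
  exact_mod_cast h5

/-- The size condition. -/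
def check (q e : ℕ) : Prop :=
  ∀ r < e + 1, r ∣ e → 2 ≤ r → (∀ d < r, d ∣ r → d = 1) → 4 * r * (2 * e + 1) + 4 ≤ q ^ e.totient

instance (q e : ℕ) : Decidable (check q e) := by unfold check; infer_instance

theorem check_mono {q e : ℕ} (Q : ℕ) (hQ : Q ≤ q) (h : check Q e) : check q e :=
  fun r hr h1 h2 h3 => (h r hr h1 h2 h3).trans (Nat.pow_le_pow_left hQ _)

theorem witness {q e : ℕ} (m : ℕ) (h1 : m ∣ q ^ e - 1)
    (h2 : ∀ i < e, 1 ≤ i → Nat.gcd m (q ^ i - 1) = 1) (h3 : 3 * e + 1 ≤ m) :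
    ∃ m : ℕ, m ∣ q ^ e - 1 ∧ (∀ i : ℕ, 1 ≤ i → i < e → Nat.Coprime m (q ^ i - 1)) ∧ 3 * e + 1 ≤ m :=
  ⟨m, h1, fun i hi hie => h2 i hie hi, h3⟩

/-- Primitive divisors divide the part of `q ^ e - 1` left over by `q ^ i - 1`, `i < e`. -/
theorem bound_of_dvd {q e : ℕ} (m₀ : ℕ)
    (h : q ^ e - 1 ∣ m₀ * (∏ i ∈ Finset.range (e - 1), (q ^ (i + 1) - 1)) ^ 2)
    (h₀ : m₀ ≤ 2 * e + 1 ∧ 0 < m₀) {m : ℕ} (hm : m ∣ q ^ e - 1)
    (hcop : ∀ i : ℕ, 1 ≤ i → i < e → Nat.Coprime m (q ^ i - 1)) : m ≤ 2 * e + 1 := by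
  have h1 : Nat.Coprime m ((∏ i ∈ Finset.range (e - 1), (q ^ (i + 1) - 1)) ^ 2) := by
    refine Nat.Coprime.pow_right _ (Nat.Coprime.prod_right fun i hi => ?_)
    rw [Finset.mem_range] at hi
    exact hcop (i + 1) (by omega) (by omega)
  exact (Nat.le_of_dvd h₀.2 (h1.dvd_of_dvd_mul_right (hm.trans h))).trans h₀.1

theorem primitive_of_le {q n : ℕ} (hn : 3 ≤ n) (hq : 2 ≤ q) (hc : check q n) :
    ∃ m : ℕ, m ∣ q ^ n - 1 ∧ (∀ i : ℕ, 1 ≤ i → i < n → Nat.Coprime m (q ^ i - 1)) ∧ 3 * n + 1 ≤ m := by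
  have hn0 : 0 < n := by omega
  obtain ⟨F, hF⟩ : ∃ F : ℕ, (cyclotomic n ℤ).eval (q : ℤ) = (F : ℤ) :=
    ⟨_, (Int.natAbs_of_nonneg (cyclotomic_nonneg n (by exact_mod_cast (by omega : 1 ≤ q)))).symm⟩
  have hF4 : q ^ n.totient ≤ 4 * F := by
    have := pow_totient_le hq hn0
    rw [hF] at this
    exact_mod_cast this
  have hFdvd : F ∣ q ^ n - 1 := by
    have h1 := eval_dvd (x := (q : ℤ)) (cyclotomic.dvd_X_pow_sub_one n ℤ)
    rw [hF, eval_sub, eval_pow, eval_X, eval_one] at h1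
    rw [← Int.natCast_dvd_natCast, Nat.cast_sub (Nat.one_le_pow _ _ (by omega))]
    exact_mod_cast h1
  -- the prime divisors of the value
  have hcase : ∀ r : ℕ, r.Prime → r ∣ F → orderOf (q : ZMod r) = n ∨
      (r ∣ n ∧ ¬ r ^ 2 ∣ F ∧ ∃ k m : ℕ, n = r ^ (k + 1) * m ∧ m ∣ r - 1) := by
    intro r hr hrF
    have h : (r : ℤ) ∣ (cyclotomic n ℤ).eval (q : ℤ) := by rw [hF]; exact_mod_cast hrF
    rcases H74.prime_dvd_cyclotomic_eval hn0 hr h with h1 | ⟨k, m, hnkm, -, hm0, hm1⟩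
    · exact Or.inl h1
    refine Or.inr ⟨hnkm ▸ (dvd_pow_self r k.succ_ne_zero).mul_right m, fun h2 => ?_, k, m, hnkm, hm1⟩
    refine H74.sq_not_dvd_cyclotomic_eval hq (by omega) hr hnkm hm1 hm0 ?_ (by rw [hF]; exact_mod_cast h2)
    haveI := Fact.mk hr
    rw [← ZMod.intCast_zmod_eq_zero_iff_dvd]
    have h3 : (((q : ℤ) ^ n - 1 : ℤ) : ZMod r) = 0 := by
      rw [ZMod.intCast_zmod_eq_zero_iff_dvd]
      have := Int.natCast_dvd_natCast.2 (hrF.trans hFdvd)
      rwa [Nat.cast_sub (Nat.one_le_pow _ _ (by omega)), Nat.cast_pow, Nat.cast_one] at this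
    push_cast at h3 ⊢
    rwa [show n = r ^ k * m * r by rw [hnkm, pow_succ]; ring, pow_mul, ZMod.pow_card] at h3
  set g := Nat.gcd F n with hg
  have hg0 : 0 < g := Nat.gcd_pos_of_pos_right _ hn0
  have hgcase : ∀ r : ℕ, r.Prime → r ∣ g → ¬ r ^ 2 ∣ F ∧ ∃ k m : ℕ, n = r ^ (k + 1) * m ∧ m ∣ r - 1 := by
    intro r hr hrg
    rcases hcase r hr (hrg.trans (Nat.gcd_dvd_left _ _)) with h1 | h1
    · exfalso
      haveI := Fact.mk hr
      have hrn : r ∣ n := hrg.trans (Nat.gcd_dvd_right _ _)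
      have hq0 : (q : ZMod r) ≠ 0 := by
        intro h0
        rw [h0, orderOf_zero] at h1
        omega
      have h2 := ZMod.orderOf_dvd_card_sub_one hq0
      rw [h1] at h2
      have := Nat.le_of_dvd (by have := hr.two_le; omega) (hrn.trans h2)
      have := hr.two_le
      omega
    · exact ⟨h1.2.1, h1.2.2⟩
  have hbound : 4 * g * (2 * n + 1) < q ^ n.totient := by
    by_cases hg1 : g = 1
    · have hp := Nat.minFac_prime (by omega : n ≠ 1)
      have := hc n.minFac (Nat.lt_succ_of_le (Nat.minFac_le hn0)) (Nat.minFac_dvd n) hp.two_le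
        (fun d hd hdd => (hp.eq_one_or_self_of_dvd d hdd).resolve_right hd.ne)
      rw [hg1]
      have h2 := hp.two_le
      nlinarith
    · obtain ⟨r, hr, hrg⟩ := Nat.exists_prime_and_dvd hg1
      obtain ⟨h2, k, m, hnkm, hm⟩ := hgcase r hr hrg
      have hgr : g = r := by
        obtain ⟨c, hc'⟩ := hrg
        rcases eq_or_ne c 1 with rfl | hc1
        · rw [hc', mul_one]
        exfalso
        obtain ⟨s, hs, hsc⟩ := Nat.exists_prime_and_dvd hc1
        by_cases hsr : s = r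
        · subst hsr
          exact h2 ((by rw [hc', pow_two]; exact Nat.mul_dvd_mul_left _ hsc : s ^ 2 ∣ g).trans (Nat.gcd_dvd_left _ _))
        · obtain ⟨-, k', m', hnkm', hm'⟩ := hgcase s hs (hc' ▸ hsc.mul_left r)
          have h3 : s ∣ m := ((hs.dvd_mul).1 (hnkm ▸ hnkm' ▸ (dvd_pow_self s k'.succ_ne_zero).mul_right m')).resolve_left
            fun h => hsr ((Nat.prime_dvd_prime_iff_eq hs hr).1 (hs.dvd_of_dvd_pow h))
          have h4 : r ∣ m' := ((hr.dvd_mul).1 (hnkm' ▸ hnkm ▸ (dvd_pow_self r k.succ_ne_zero).mul_right m)).resolve_left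
            fun h => hsr ((Nat.prime_dvd_prime_iff_eq hr hs).1 (hr.dvd_of_dvd_pow h)).symm
          have := Nat.le_of_dvd (by have := hr.two_le; omega) (h3.trans hm)
          have := Nat.le_of_dvd (by have := hs.two_le; omega) (h4.trans hm')
          have := hr.two_le
          have := hs.two_le
          omega
      have hrn : r ∣ n := hnkm ▸ (dvd_pow_self r k.succ_ne_zero).mul_right m
      have := hc r (Nat.lt_succ_of_le (Nat.le_of_dvd hn0 hrn)) hrn hr.two_le
        (fun d hd hdd => (hr.eq_one_or_self_of_dvd d hdd).resolve_right hd.ne)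
      rw [hgr]
      omega
  obtain ⟨P, hP⟩ : g ∣ F := Nat.gcd_dvd_left _ _
  have hP2 : 2 * n + 1 < P := by
    have h : 4 * g * (2 * n + 1) < 4 * g * P := by
      calc 4 * g * (2 * n + 1) < q ^ n.totient := hbound
        _ ≤ 4 * F := hF4
        _ = 4 * g * P := by rw [hP]; ring
    exact Nat.lt_of_mul_lt_mul_left h
  have hprim : ∀ r : ℕ, r.Prime → r ∣ P → orderOf (q : ZMod r) = n := by
    intro r hr hrP
    refine (hcase r hr (hP ▸ hrP.mul_left g)).resolve_right fun ⟨h1, h2, _⟩ => h2 ?_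
    have hrg : r ∣ g := Nat.dvd_gcd (hP ▸ hrP.mul_left g) h1
    rw [hP, pow_two]
    exact Nat.mul_dvd_mul hrg hrP
  have hmod : ∀ a : ℕ, a ≠ 0 → a ∣ P → a ≡ 1 [MOD n] := by
    intro a
    induction a using induction_on_primes with
    | zero => intro h; exact absurd rfl h
    | one => intro _ _; rfl
    | prime_mul r a hr ih =>
      intro h hd
      have h1 : r ≡ 1 [MOD n] := by
        haveI := Fact.mk hr
        have ho := hprim r hr ((dvd_mul_right r a).trans hd)
        have hq0 : (q : ZMod r) ≠ 0 := by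
          intro h0
          rw [h0, orderOf_zero] at ho
          omega
        exact ((Nat.modEq_iff_dvd' hr.one_le).2 (ho ▸ ZMod.orderOf_dvd_card_sub_one hq0)).symm
      simpa using h1.mul (ih (right_ne_zero_of_mul h) ((dvd_mul_left a r).trans hd))
  refine ⟨P, (hP ▸ dvd_mul_left P g : P ∣ F).trans hFdvd, fun i hi hin => ?_, ?_⟩
  · refine Nat.coprime_of_dvd fun r hr hrP hri => ?_
    have ho := hprim r hr hrP
    rw [← ZMod.natCast_eq_zero_iff, Nat.cast_sub (Nat.one_le_pow _ _ (by omega)), Nat.cast_pow,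
      Nat.cast_one, sub_eq_zero, ← orderOf_dvd_iff_pow_eq_one, ho] at hri
    exact absurd (Nat.le_of_dvd hi hri) (by omega)
  · have h1 := (Nat.modEq_iff_dvd' (by omega : 1 ≤ P)).1 (hmod P (by omega) dvd_rfl).symm
    obtain ⟨c, hc'⟩ := h1
    rcases c with _ | _ | _ | c
    · omega
    · omega
    · omega
    · have h3 : 3 * n ≤ n * (c + 1 + 1 + 1) := by nlinarith
      omega

/-- Weight used for the totient bound. -/
def wt (n : ℕ) : ℕ := (if 2 ∣ n then 4 else 1) * (if 3 ∣ n then 9 else 8)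

theorem sq_le_totient_cube : ∀ n : ℕ, 8 * n ^ 2 ≤ wt n * n.totient ^ 3 := by
  intro n
  induction n using Nat.recOnPosPrimePosCoprime with
  | zero => simp
  | one => decide
  | prime_pow p k hp hk =>
    rw [Nat.totient_prime_pow hp hk]
    obtain ⟨j, rfl⟩ := Nat.exists_eq_succ_of_ne_zero hk.ne'
    simp only [Nat.succ_sub_one, pow_succ]
    rcases Nat.lt_or_ge p 5 with h5 | h5
    · have h4 : p = 2 ∨ p = 3 := by
        have h2 := hp.two_le
        rcases (by omega : p = 2 ∨ p = 3 ∨ p = 4) with h | h | h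
        · exact Or.inl h
        · exact Or.inr h
        · exact absurd (h ▸ hp) (by decide)
      rcases h4 with rfl | rfl
      · have h1 : 2 ∣ 2 ^ j * 2 := dvd_mul_left 2 _
        have h2 : ¬ 3 ∣ 2 ^ j * 2 := fun h => by
          have := (Nat.prime_dvd_prime_iff_eq Nat.prime_three Nat.prime_two).1
            (Nat.prime_three.dvd_of_dvd_pow (pow_succ 2 j ▸ h))
          omega
        rw [wt, if_pos h1, if_neg h2]
        have := Nat.one_le_two_pow (n := j)
        simp only [pow_zero, one_mul]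
        nlinarith [Nat.mul_le_mul_left (2 ^ j * 2 ^ j) this]
      · have h1 : ¬ 2 ∣ 3 ^ j * 3 := fun h => by
          have := (Nat.prime_dvd_prime_iff_eq Nat.prime_two Nat.prime_three).1
            (Nat.prime_two.dvd_of_dvd_pow (pow_succ 3 j ▸ h))
          omega
        have h2 : 3 ∣ 3 ^ j * 3 := dvd_mul_left 3 _
        rw [wt, if_neg h1, if_pos h2]
        have : 1 ≤ 3 ^ j := Nat.one_le_pow _ _ (by norm_num)
        simp only [pow_zero, one_mul]
        nlinarith [Nat.mul_le_mul_left (3 ^ j * 3 ^ j) this]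
    · have h8 : 8 ≤ wt (p ^ j * p) := by
        rw [wt]; split_ifs <;> norm_num
      refine le_trans ?_ (Nat.mul_le_mul_right _ h8)
      have h1 : 1 ≤ p ^ j := Nat.one_le_pow _ _ hp.pos
      obtain ⟨t, rfl⟩ : ∃ t, p = t + 1 := ⟨p - 1, by omega⟩
      simp only [Nat.add_sub_cancel, pow_zero, one_mul]
      have h3 : (t + 1) ^ 2 ≤ t ^ 3 := by nlinarith
      calc 8 * ((t + 1) ^ j * (t + 1) * ((t + 1) ^ j * (t + 1)))
          = 8 * ((t + 1) ^ j) ^ 2 * (t + 1) ^ 2 := by ring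
        _ ≤ 8 * ((t + 1) ^ j) ^ 3 * t ^ 3 :=
            Nat.mul_le_mul (Nat.mul_le_mul_left _ (Nat.pow_le_pow_right h1 (by norm_num))) h3
        _ = _ := by ring
  | coprime a b ha hb hab iha ihb =>
    rw [Nat.totient_mul hab]
    have hw : wt a * wt b = 8 * wt (a * b) := by
      have h2 : ¬ (2 ∣ a ∧ 2 ∣ b) := fun h => by simpa [hab.gcd_eq_one] using Nat.dvd_gcd h.1 h.2
      have h3 : ¬ (3 ∣ a ∧ 3 ∣ b) := fun h => by simpa [hab.gcd_eq_one] using Nat.dvd_gcd h.1 h.2
      simp only [wt, Nat.prime_two.dvd_mul, Nat.prime_three.dvd_mul]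
      by_cases a2 : 2 ∣ a <;> by_cases b2 : 2 ∣ b <;> by_cases a3 : 3 ∣ a <;> by_cases b3 : 3 ∣ b <;>
        simp only [a2, b2, a3, b3, and_self, not_true, not_false_eq_true, or_self, or_true, true_or,
          or_false, false_or, if_true, if_false] at h2 h3 ⊢
    have := Nat.mul_le_mul iha ihb
    have e : wt a * a.totient ^ 3 * (wt b * b.totient ^ 3) =
        (wt a * wt b) * (a.totient * b.totient) ^ 3 := by ring
    rw [e, hw] at this
    nlinarith

set_option maxRecDepth 4000 in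
theorem small_check : ∀ n < 171, 3 ≤ n → n ∈ ([3, 4, 5, 6, 7, 8, 9, 10, 12, 14, 15, 16, 18, 20, 22, 24, 30] : List ℕ) ∨ check 2 n := by decide +kernel

theorem big_check {n : ℕ} (hn : 171 ≤ n) : check 2 n := by
  intro r hr hrn _ _
  have hr' : r ≤ n := Nat.le_of_lt_succ hr
  set f := n.totient with hf
  have h5 : n ^ 2 ≤ 5 * f ^ 3 := by
    have h1 := sq_le_totient_cube n
    rw [← hf] at h1
    have h2 : wt n ≤ 36 := by rw [wt]; split_ifs <;> norm_num
    have := h1.trans (Nat.mul_le_mul_right _ h2)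
    omega
  have hf19 : 19 ≤ f := by
    by_contra h
    have : f ^ 3 ≤ 18 ^ 3 := Nat.pow_le_pow_left (by omega) 3
    have h2 : 171 ^ 2 ≤ n ^ 2 := Nat.pow_le_pow_left hn 2
    omega
  have key : ∀ f, 19 ≤ f → 60 * f ^ 3 + 4 ≤ 2 ^ f := by
    intro f hf
    induction f, hf using Nat.le_induction with
    | base => norm_num
    | succ f hf ih =>
      rw [pow_succ 2 f]
      nlinarith [Nat.mul_le_mul_left (f ^ 2) hf, Nat.mul_le_mul_left f hf]
  refine le_trans ?_ (key f hf19)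
  have : 4 * r * (2 * n + 1) ≤ 12 * n ^ 2 := by nlinarith
  omega

theorem primitive_3 (q : ℕ) (hq : 2 ≤ q) (h2 : q ≠ 2) (h4 : q ≠ 4) :
    ∃ m : ℕ, m ∣ q ^ 3 - 1 ∧ (∀ i : ℕ, 1 ≤ i → i < 3 → Nat.Coprime m (q ^ i - 1)) ∧ 3 * 3 + 1 ≤ m := by
  by_cases hQ : q ≤ 9
  · interval_cases q
    · exact absurd rfl h2
    · exact witness 13 (by decide +kernel) (by decide +kernel) (by decide +kernel)
    · exact absurd rfl h4
    · exact witness 31 (by decide +kernel) (by decide +kernel) (by decide +kernel)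
    · exact witness 43 (by decide +kernel) (by decide +kernel) (by decide +kernel)
    · exact witness 19 (by decide +kernel) (by decide +kernel) (by decide +kernel)
    · exact witness 73 (by decide +kernel) (by decide +kernel) (by decide +kernel)
    · exact witness 91 (by decide +kernel) (by decide +kernel) (by decide +kernel)
  · exact primitive_of_le (by norm_num) (by omega) (check_mono 10 (by omega) (by decide +kernel))

theorem primitive_4 (q : ℕ) (hq : 2 ≤ q) (h2 : q ≠ 2) (h3 : q ≠ 3) :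
    ∃ m : ℕ, m ∣ q ^ 4 - 1 ∧ (∀ i : ℕ, 1 ≤ i → i < 4 → Nat.Coprime m (q ^ i - 1)) ∧ 3 * 4 + 1 ≤ m := by
  by_cases hQ : q ≤ 8
  · interval_cases q
    · exact absurd rfl h2
    · exact absurd rfl h3
    · exact witness 17 (by decide +kernel) (by decide +kernel) (by decide +kernel)
    · exact witness 13 (by decide +kernel) (by decide +kernel) (by decide +kernel)
    · exact witness 37 (by decide +kernel) (by decide +kernel) (by decide +kernel)
    · exact witness 25 (by decide +kernel) (by decide +kernel) (by decide +kernel)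
    · exact witness 65 (by decide +kernel) (by decide +kernel) (by decide +kernel)
  · exact primitive_of_le (by norm_num) (by omega) (check_mono 9 (by omega) (by decide +kernel))

theorem primitive_5 (q : ℕ) (hq : 2 ≤ q) :
    ∃ m : ℕ, m ∣ q ^ 5 - 1 ∧ (∀ i : ℕ, 1 ≤ i → i < 5 → Nat.Coprime m (q ^ i - 1)) ∧ 3 * 5 + 1 ≤ m := by
  by_cases hQ : q ≤ 3
  · interval_cases q
    · exact witness 31 (by decide +kernel) (by decide +kernel) (by decide +kernel)
    · exact witness 121 (by decide +kernel) (by decide +kernel) (by decide +kernel)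
  · exact primitive_of_le (by norm_num) (by omega) (check_mono 4 (by omega) (by decide +kernel))

theorem primitive_6 (q : ℕ) (hq : 2 ≤ q) (h2 : q ≠ 2) (h3 : q ≠ 3) (h4 : q ≠ 4) (h5 : q ≠ 5) :
    ∃ m : ℕ, m ∣ q ^ 6 - 1 ∧ (∀ i : ℕ, 1 ≤ i → i < 6 → Nat.Coprime m (q ^ i - 1)) ∧ 3 * 6 + 1 ≤ m := by
  by_cases hQ : q ≤ 12
  · interval_cases q
    · exact absurd rfl h2
    · exact absurd rfl h3
    · exact absurd rfl h4
    · exact absurd rfl h5
    · exact witness 31 (by decide +kernel) (by decide +kernel) (by decide +kernel)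
    · exact witness 43 (by decide +kernel) (by decide +kernel) (by decide +kernel)
    · exact witness 19 (by decide +kernel) (by decide +kernel) (by decide +kernel)
    · exact witness 73 (by decide +kernel) (by decide +kernel) (by decide +kernel)
    · exact witness 91 (by decide +kernel) (by decide +kernel) (by decide +kernel)
    · exact witness 37 (by decide +kernel) (by decide +kernel) (by decide +kernel)
    · exact witness 133 (by decide +kernel) (by decide +kernel) (by decide +kernel)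
  · exact primitive_of_le (by norm_num) (by omega) (check_mono 13 (by omega) (by decide +kernel))

theorem primitive_7 (q : ℕ) (hq : 2 ≤ q) :
    ∃ m : ℕ, m ∣ q ^ 7 - 1 ∧ (∀ i : ℕ, 1 ≤ i → i < 7 → Nat.Coprime m (q ^ i - 1)) ∧ 3 * 7 + 1 ≤ m := by
  by_cases hQ : q ≤ 2
  · interval_cases q
    · exact witness 127 (by decide +kernel) (by decide +kernel) (by decide +kernel)
  · exact primitive_of_le (by norm_num) (by omega) (check_mono 3 (by omega) (by decide +kernel))

theorem primitive_8 (q : ℕ) (hq : 2 ≤ q) (h2 : q ≠ 2) :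
    ∃ m : ℕ, m ∣ q ^ 8 - 1 ∧ (∀ i : ℕ, 1 ≤ i → i < 8 → Nat.Coprime m (q ^ i - 1)) ∧ 3 * 8 + 1 ≤ m := by
  by_cases hQ : q ≤ 3
  · interval_cases q
    · exact absurd rfl h2
    · exact witness 41 (by decide +kernel) (by decide +kernel) (by decide +kernel)
  · exact primitive_of_le (by norm_num) (by omega) (check_mono 4 (by omega) (by decide +kernel))

theorem primitive_9 (q : ℕ) (hq : 2 ≤ q) :
    ∃ m : ℕ, m ∣ q ^ 9 - 1 ∧ (∀ i : ℕ, 1 ≤ i → i < 9 → Nat.Coprime m (q ^ i - 1)) ∧ 3 * 9 + 1 ≤ m := by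
  by_cases hQ : q ≤ 2
  · interval_cases q
    · exact witness 73 (by decide +kernel) (by decide +kernel) (by decide +kernel)
  · exact primitive_of_le (by norm_num) (by omega) (check_mono 3 (by omega) (by decide +kernel))

theorem primitive_10 (q : ℕ) (hq : 2 ≤ q) (h2 : q ≠ 2) :
    ∃ m : ℕ, m ∣ q ^ 10 - 1 ∧ (∀ i : ℕ, 1 ≤ i → i < 10 → Nat.Coprime m (q ^ i - 1)) ∧ 3 * 10 + 1 ≤ m := by
  by_cases hQ : q ≤ 4
  · interval_cases q
    · exact absurd rfl h2
    · exact witness 61 (by decide +kernel) (by decide +kernel) (by decide +kernel)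
    · exact witness 41 (by decide +kernel) (by decide +kernel) (by decide +kernel)
  · exact primitive_of_le (by norm_num) (by omega) (check_mono 5 (by omega) (by decide +kernel))

theorem primitive_12 (q : ℕ) (hq : 2 ≤ q) (h2 : q ≠ 2) :
    ∃ m : ℕ, m ∣ q ^ 12 - 1 ∧ (∀ i : ℕ, 1 ≤ i → i < 12 → Nat.Coprime m (q ^ i - 1)) ∧ 3 * 12 + 1 ≤ m := by
  by_cases hQ : q ≤ 4
  · interval_cases q
    · exact absurd rfl h2
    · exact witness 73 (by decide +kernel) (by decide +kernel) (by decide +kernel)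
    · exact witness 241 (by decide +kernel) (by decide +kernel) (by decide +kernel)
  · exact primitive_of_le (by norm_num) (by omega) (check_mono 5 (by omega) (by decide +kernel))

theorem primitive_14 (q : ℕ) (hq : 2 ≤ q) :
    ∃ m : ℕ, m ∣ q ^ 14 - 1 ∧ (∀ i : ℕ, 1 ≤ i → i < 14 → Nat.Coprime m (q ^ i - 1)) ∧ 3 * 14 + 1 ≤ m := by
  by_cases hQ : q ≤ 3
  · interval_cases q
    · exact witness 43 (by decide +kernel) (by decide +kernel) (by decide +kernel)
    · exact witness 547 (by decide +kernel) (by decide +kernel) (by decide +kernel)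
  · exact primitive_of_le (by norm_num) (by omega) (check_mono 4 (by omega) (by decide +kernel))

theorem primitive_15 (q : ℕ) (hq : 2 ≤ q) :
    ∃ m : ℕ, m ∣ q ^ 15 - 1 ∧ (∀ i : ℕ, 1 ≤ i → i < 15 → Nat.Coprime m (q ^ i - 1)) ∧ 3 * 15 + 1 ≤ m := by
  by_cases hQ : q ≤ 2
  · interval_cases q
    · exact witness 151 (by decide +kernel) (by decide +kernel) (by decide +kernel)
  · exact primitive_of_le (by norm_num) (by omega) (check_mono 3 (by omega) (by decide +kernel))

theorem primitive_16 (q : ℕ) (hq : 2 ≤ q) :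
    ∃ m : ℕ, m ∣ q ^ 16 - 1 ∧ (∀ i : ℕ, 1 ≤ i → i < 16 → Nat.Coprime m (q ^ i - 1)) ∧ 3 * 16 + 1 ≤ m := by
  by_cases hQ : q ≤ 2
  · interval_cases q
    · exact witness 257 (by decide +kernel) (by decide +kernel) (by decide +kernel)
  · exact primitive_of_le (by norm_num) (by omega) (check_mono 3 (by omega) (by decide +kernel))

theorem primitive_18 (q : ℕ) (hq : 2 ≤ q) (h2 : q ≠ 2) :
    ∃ m : ℕ, m ∣ q ^ 18 - 1 ∧ (∀ i : ℕ, 1 ≤ i → i < 18 → Nat.Coprime m (q ^ i - 1)) ∧ 3 * 18 + 1 ≤ m := by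
  by_cases hQ : q ≤ 2
  · interval_cases q
    · exact absurd rfl h2
  · exact primitive_of_le (by norm_num) (by omega) (check_mono 3 (by omega) (by decide +kernel))

theorem primitive_20 (q : ℕ) (hq : 2 ≤ q) (h2 : q ≠ 2) :
    ∃ m : ℕ, m ∣ q ^ 20 - 1 ∧ (∀ i : ℕ, 1 ≤ i → i < 20 → Nat.Coprime m (q ^ i - 1)) ∧ 3 * 20 + 1 ≤ m := by
  by_cases hQ : q ≤ 2
  · interval_cases q
    · exact absurd rfl h2
  · exact primitive_of_le (by norm_num) (by omega) (check_mono 3 (by omega) (by decide +kernel))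

theorem primitive_22 (q : ℕ) (hq : 2 ≤ q) :
    ∃ m : ℕ, m ∣ q ^ 22 - 1 ∧ (∀ i : ℕ, 1 ≤ i → i < 22 → Nat.Coprime m (q ^ i - 1)) ∧ 3 * 22 + 1 ≤ m := by
  by_cases hQ : q ≤ 2
  · interval_cases q
    · exact witness 683 (by decide +kernel) (by decide +kernel) (by decide +kernel)
  · exact primitive_of_le (by norm_num) (by omega) (check_mono 3 (by omega) (by decide +kernel))

theorem primitive_24 (q : ℕ) (hq : 2 ≤ q) :
    ∃ m : ℕ, m ∣ q ^ 24 - 1 ∧ (∀ i : ℕ, 1 ≤ i → i < 24 → Nat.Coprime m (q ^ i - 1)) ∧ 3 * 24 + 1 ≤ m := by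
  by_cases hQ : q ≤ 2
  · interval_cases q
    · exact witness 241 (by decide +kernel) (by decide +kernel) (by decide +kernel)
  · exact primitive_of_le (by norm_num) (by omega) (check_mono 3 (by omega) (by decide +kernel))

theorem primitive_30 (q : ℕ) (hq : 2 ≤ q) :
    ∃ m : ℕ, m ∣ q ^ 30 - 1 ∧ (∀ i : ℕ, 1 ≤ i → i < 30 → Nat.Coprime m (q ^ i - 1)) ∧ 3 * 30 + 1 ≤ m := by
  by_cases hQ : q ≤ 2
  · interval_cases q
    · exact witness 331 (by decide +kernel) (by decide +kernel) (by decide +kernel)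
  · exact primitive_of_le (by norm_num) (by omega) (check_mono 3 (by omega) (by decide +kernel))
end Cfsg.Agent.H91.PrimitivePart
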