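import Cfsg.Agent.H20.Generation
import Cfsg.Prelude.Def_Transfer
import Mathlib

/-!
An elementary abelian group of automorphisms of order eight of an odd `p`-group having a subgroup
of order four all of whose fixed point groups are cyclic: the group is abelian of rank three and
the automorphisms are the eight sign changes.
-/

namespace Cfsg.Agent.H91.BroadInvolutions

variable {P : Type*} [Group P] [Finite P]

/-- The fixed point subgroup of `T` is cyclic. -/
def Cyc (T : MulAut P) : Prop := ∃ g : P, ∀ x : P, (T x = x ↔ x ∈ Subgroup.zpowers g)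

omit [Finite P] in
theorem mul_self_eq_one_odd {p : ℕ} (hp : p.Prime) (hp2 : p ≠ 2) (hP : IsPGroup p P) {x : P}
    (h : x * x = 1) : x = 1 := by
  obtain ⟨k, hk⟩ := hP x
  obtain ⟨t, ht⟩ := (hp.odd_of_ne_two hp2).pow (n := k)
  rwa [ht, pow_succ, pow_mul, pow_two, h, one_pow, one_mul] at hk

theorem generation {p : ℕ} (hp : p.Prime) (hp2 : p ≠ 2) (hP : IsPGroup p P) (U : Subgroup (MulAut P))
    [IsMulCommutative U] (hU : ¬ IsCyclic U) (hU4 : Nat.card U = 4) (H : Subgroup P)
    (h : ∀ u ∈ U, u ≠ 1 → ∀ x : P, u x = x → x ∈ H) : H = ⊤ := by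
  classical
  let G := SemidirectProduct P U U.subtype
  haveI : Finite U := Nat.finite_of_card_ne_zero (by omega)
  haveI : Finite G := Finite.of_equiv (P × U) (SemidirectProduct.equivProd).symm
  let il : P →* G := SemidirectProduct.inl
  let ir : U →* G := SemidirectProduct.inr
  let K : Subgroup G := il.range
  let A : Subgroup G := ir.range
  haveI hAc : IsMulCommutative A := by
    refine ⟨⟨?_⟩⟩
    rintro ⟨_, u, rfl⟩ ⟨_, v, rfl⟩
    refine Subtype.ext ?_
    show ir u * ir v = ir v * ir u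
    rw [← map_mul, ← map_mul, (IsMulCommutative.is_comm (M := U)).comm u v]
  have hA : ¬ IsCyclic A := fun hc => hU
    ((MonoidHom.ofInjective (f := ir) SemidirectProduct.inr_injective).isCyclic.2 hc)
  have hK : K.Normal := by
    show (SemidirectProduct.inl : P →* G).range.Normal
    rw [SemidirectProduct.range_inl_eq_ker_rightHom]
    infer_instance
  have hAK : A ≤ Subgroup.normalizer (K : Set G) := by
    rw [Subgroup.normalizer_eq_top_iff.2 hK]; exact le_top
  have hcop : (Nat.card A).Coprime (Nat.card K) := by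
    haveI : Fact p.Prime := ⟨hp⟩
    obtain ⟨k, hk⟩ := IsPGroup.iff_card.1 hP
    rw [← Nat.card_congr (MonoidHom.ofInjective (f := ir) SemidirectProduct.inr_injective).toEquiv,
      ← Nat.card_congr (MonoidHom.ofInjective (f := il) SemidirectProduct.inl_injective).toEquiv, hU4, hk]
    refine Nat.Coprime.pow_right k ?_
    exact (Nat.Coprime.pow_left 2 (Nat.coprime_two_left.2 (hp.odd_of_ne_two hp2)) : Nat.Coprime (2 ^ 2) p)
  have key := H20.le_of_centralizers_le (A := A) (K := K) (H := H.map il) hA hAK hcop (by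
    rintro _ ⟨u, rfl⟩ hu _ ⟨⟨x, rfl⟩, hx⟩
    refine ⟨x, h u u.2 (fun e => hu ?_) x ?_, rfl⟩
    · rw [show u = 1 from Subtype.ext e, map_one]
    · have hc : ir u * il x = il x * ir u := (Subgroup.mem_centralizer_singleton_iff.1 hx).symm
      have he : il (u.1 x) = il x := by
        have := SemidirectProduct.inl_aut (φ := U.subtype) u x
        refine this.trans ?_
        show ir u * il x * ir u⁻¹ = il x
        rw [hc, mul_assoc, ← map_mul, mul_inv_cancel, map_one, mul_one]
      exact SemidirectProduct.inl_injective he)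
  refine eq_top_iff.2 fun x _ => ?_
  obtain ⟨y, hy, hyx⟩ := key ⟨x, rfl⟩
  exact SemidirectProduct.inl_injective hyx ▸ hy

omit [Finite P] in
/-- An involution stabilising a cyclic group of odd prime power order fixes or inverts it. -/
theorem fix_or_inv {p : ℕ} (hp : p.Prime) (hp2 : p ≠ 2) (hP : IsPGroup p P) {S : MulAut P}
    (hS : S * S = 1) {a : P} (ha : S a ∈ Subgroup.zpowers a) : S a = a ∨ S a = a⁻¹ := by
  haveI : Fact p.Prime := ⟨hp⟩
  obtain ⟨n, hn⟩ := Subgroup.mem_zpowers_iff.1 ha
  have h2 : a ^ (n * n - 1) = 1 := by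
    have : S (S a) = a := by rw [← MulAut.mul_apply, hS]; rfl
    rw [← hn, map_zpow, ← hn, ← zpow_mul] at this
    rw [zpow_sub, this, zpow_one, mul_inv_cancel]
  obtain ⟨k, hk⟩ := IsPGroup.iff_orderOf.1 hP a
  have hdvd : ((p : ℤ) ^ k) ∣ (n - 1) * (n + 1) := by
    have := orderOf_dvd_iff_zpow_eq_one.2 h2
    rw [hk] at this
    push_cast at this
    rwa [show (n - 1) * (n + 1) = n * n - 1 by ring]
  have hp' : Prime (p : ℤ) := Nat.prime_iff_prime_int.1 hp
  have hnot : ¬ ((p : ℤ) ∣ n - 1 ∧ (p : ℤ) ∣ n + 1) := by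
    rintro ⟨h1, h3⟩
    have h4 := dvd_sub h3 h1
    rw [show n + 1 - (n - 1) = ((2 : ℕ) : ℤ) by norm_num, Int.natCast_dvd_natCast] at h4
    exact hp2 ((Nat.prime_dvd_prime_iff_eq hp Nat.prime_two).1 h4)
  by_cases h1 : (p : ℤ) ∣ n - 1
  · left
    have h3 : ((p : ℤ) ^ k) ∣ n - 1 :=
      ((hp'.coprime_iff_not_dvd.2 fun h => hnot ⟨h1, h⟩).pow_left).dvd_of_dvd_mul_right hdvd
    have h5 : a ^ (n - 1) = 1 := orderOf_dvd_iff_zpow_eq_one.1 (by rw [hk]; push_cast; exact h3)
    rw [← hn, show n = n - 1 + 1 by ring, zpow_add, h5, one_mul, zpow_one]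
  · right
    have h3 : ((p : ℤ) ^ k) ∣ n + 1 :=
      ((hp'.coprime_iff_not_dvd.2 h1).pow_left).dvd_of_dvd_mul_left hdvd
    have h5 : a ^ (n + 1) = 1 := orderOf_dvd_iff_zpow_eq_one.1 (by rw [hk]; push_cast; exact h3)
    rw [← hn, show n = n + 1 + -1 by ring, zpow_add, h5, one_mul, zpow_neg, zpow_one]

omit [Finite P] in
theorem elem_facts {I : Subgroup (MulAut P)} (hI : Cfsg.IsElementaryAbelian 2 I) :
    (∀ S ∈ I, S * S = 1) ∧ ∀ S ∈ I, ∀ S' ∈ I, S * S' = S' * S := by
  haveI := hI.1
  exact ⟨fun S hS => by rw [← pow_two]; exact hI.2 S hS, fun S hS S' hS' =>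
    congrArg Subtype.val ((IsMulCommutative.is_comm (M := I)).comm ⟨S, hS⟩ ⟨S', hS'⟩)⟩

omit [Finite P] in
/-- A subgroup of order four containing `I₀` and missing `x`. -/
theorem exists_four [Finite (MulAut P)] {I I₀ : Subgroup (MulAut P)} (hI : Cfsg.IsElementaryAbelian 2 I)
    (hI8 : Nat.card I = 8) (h0 : I₀ ≤ I) {x : MulAut P} (hx : x ∈ I) (hx0 : x ∉ I₀) :
    ∃ W : Subgroup (MulAut P), W ≤ I ∧ I₀ ≤ W ∧ x ∉ W ∧ Nat.card W = 4 := by
  classical
  obtain ⟨hsq, hcm⟩ := elem_facts hI
  obtain ⟨W, -, hW⟩ := Set.Finite.exists_le_maximal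
    (s := {W : Subgroup (MulAut P) | W ≤ I ∧ I₀ ≤ W ∧ x ∉ W}) (Set.toFinite _) (a := I₀) ⟨h0, le_rfl, hx0⟩
  obtain ⟨hWI, hW0, hxW⟩ := hW.1
  refine ⟨W, hWI, hW0, hxW, ?_⟩
  have hcos : ∀ t ∈ I, t ∈ W ∨ t * x ∈ W := by
    intro t ht
    by_contra hcon
    push Not at hcon
    let W' : Subgroup (MulAut P) :=
      { carrier := {y | y ∈ I ∧ (y ∈ W ∨ t * y ∈ W)}
        one_mem' := ⟨I.one_mem, Or.inl W.one_mem⟩
        mul_mem' := by
          rintro u v ⟨hu, hu'⟩ ⟨hv, hv'⟩
          refine ⟨I.mul_mem hu hv, ?_⟩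
          rcases hu' with hu' | hu' <;> rcases hv' with hv' | hv'
          · exact Or.inl (W.mul_mem hu' hv')
          · right
            rw [← mul_assoc, hcm t ht u hu, mul_assoc]
            exact W.mul_mem hu' hv'
          · right
            rw [← mul_assoc]
            exact W.mul_mem hu' hv'
          · left
            have : u * v = (t * u) * (t * v) := by
              rw [show (t * u) * (t * v) = t * (u * t) * v by simp only [mul_assoc], ← hcm t ht u hu,
                ← mul_assoc t t u, hsq t ht, one_mul]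
            rw [this]
            exact W.mul_mem hu' hv'
        inv_mem' := by
          rintro u ⟨hu, hu'⟩
          have : u⁻¹ = u := inv_eq_of_mul_eq_one_right (hsq u hu)
          rw [this]
          exact ⟨hu, hu'⟩ }
    have hle : W ≤ W' := fun y hy => ⟨hWI hy, Or.inl hy⟩
    have hx' : x ∉ W' := by
      rintro ⟨-, h | h⟩
      · exact hxW h
      · exact hcon.2 h
    have := hW.2 (y := W') ⟨fun y hy => hy.1, hW0.trans hle, hx'⟩ hle
    exact hcon.1 (this ⟨ht, Or.inr (by rw [hsq t ht]; exact W.one_mem)⟩)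
  have hidx : (W.subgroupOf I).index = 2 := by
    rw [Subgroup.index_eq_two_iff]
    refine ⟨⟨x, hx⟩, fun b => ?_⟩
    rcases hcos b b.2 with h | h
    · exact Or.inr ⟨h, fun h' => hxW (by simpa using W.mul_mem (W.inv_mem h) (show (b : MulAut P) * x ∈ W from h'))⟩
    · exact Or.inl ⟨h, fun h' => hxW (by simpa using W.mul_mem (W.inv_mem h') h)⟩
  have hm := (W.subgroupOf I).card_mul_index
  rw [hidx, Nat.card_congr (Subgroup.subgroupOfEquivOfLe hWI).toEquiv, hI8] at hm
  omega

/-- The structure forced by a subgroup of order four with cyclic fixed point groups. -/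
theorem core {p : ℕ} (hp : p.Prime) (hp2 : p ≠ 2) (hP : IsPGroup p P) {I W : Subgroup (MulAut P)}
    (hI : Cfsg.IsElementaryAbelian 2 I) (hI8 : Nat.card I = 8) (hWI : W ≤ I) (hW4 : Nat.card W = 4)
    (hcyc : ∀ u ∈ W, u ≠ 1 → Cyc u) :
    IsMulCommutative P ∧ (∃ a b c : P, Subgroup.closure {a, b, c} = ⊤) ∧
      (¬ ∃ a b : P, Subgroup.closure {a, b} = ⊤) ∧
      ∃ r : Fin 3 → MulAut P, Function.Injective r ∧
        (∀ S, (S ∈ I ∧ S ≠ 1 ∧ ¬ Cyc S) ↔ ∃ k, r k = S) ∧
        Subgroup.closure (Set.range r) = I ∧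
        (W : Set (MulAut P)) = {S | ∃ i j, S = r i * r j} := by
  classical
  haveI : Fact p.Prime := ⟨hp⟩
  obtain ⟨hsq, hcm⟩ := elem_facts hI
  haveI := hI.1
  haveI : IsMulCommutative W := ⟨⟨fun u v => Subtype.ext (hcm u (hWI u.2) v (hWI v.2))⟩⟩
  haveI hWfin : Finite W := Nat.finite_of_card_ne_zero (by omega)
  have hWnc : ¬ IsCyclic W := by
    intro hc
    obtain ⟨g, hg⟩ := hc.exists_generator
    have h2 : orderOf g ≤ 2 := orderOf_le_of_pow_eq_one two_pos
      (Subtype.ext (by simpa [pow_two] using hsq g (hWI g.2)))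
    rw [orderOf_eq_card_of_forall_mem_zpowers hg, hW4] at h2
    omega
  -- three elements
  obtain ⟨T1, hT1, hT1n⟩ : ∃ T ∈ W, T ≠ 1 := by
    by_contra hcon
    push Not at hcon
    haveI : Subsingleton W := ⟨fun u v => Subtype.ext ((hcon u u.2).trans (hcon v v.2).symm)⟩
    have : Nat.card W ≤ 1 := Finite.card_le_one_iff_subsingleton.2 inferInstance
    omega
  obtain ⟨T2, hT2, hT2n, hT21⟩ : ∃ T ∈ W, T ≠ 1 ∧ T ≠ T1 := by
    by_contra hcon
    push Not at hcon
    have hs : (W : Set (MulAut P)) ⊆ ({1, T1} : Finset (MulAut P)) := by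
      intro u hu
      simp only [Finset.coe_insert, Finset.coe_singleton, Set.mem_insert_iff, Set.mem_singleton_iff]
      exact or_iff_not_imp_left.2 (hcon u hu)
    have := Set.ncard_le_ncard hs (Finset.finite_toSet _)
    rw [Set.ncard_coe_finset, ← Nat.card_coe_set_eq] at this
    have h2 := Finset.card_le_two (a := (1 : MulAut P)) (b := T1)
    simp only [SetLike.coe_sort_coe] at this
    omega
  let T : Fin 3 → MulAut P := ![T1, T2, T1 * T2]
  have hT3n : T1 * T2 ≠ 1 := fun h => hT21 (by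
    calc T2 = T1 * (T1 * T2) := by rw [← mul_assoc, hsq T1 (hWI hT1), one_mul]
      _ = T1 := by rw [h, mul_one])
  have hTW : ∀ i, T i ∈ W := by
    intro i; fin_cases i <;> [exact hT1; exact hT2; exact W.mul_mem hT1 hT2]
  have hTn : ∀ i, T i ≠ 1 := by
    intro i; fin_cases i <;> [exact hT1n; exact hT2n; exact hT3n]
  have hTall : ∀ u ∈ W, u = 1 ∨ ∃ i, T i = u := by
    intro u hu
    by_contra hcon
    push Not at hcon
    have hs : (({u, 1, T1, T2, T1 * T2} : Finset (MulAut P)) : Set (MulAut P)) ⊆ W := by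
      simp only [Finset.coe_insert, Finset.coe_singleton, Set.insert_subset_iff, Set.singleton_subset_iff,
        SetLike.mem_coe]
      exact ⟨hu, W.one_mem, hT1, hT2, W.mul_mem hT1 hT2⟩
    have h5 : ({u, 1, T1, T2, T1 * T2} : Finset (MulAut P)).card = 5 := by
      have e1 : T1 ≠ T1 * T2 := fun h => hT2n (by simpa using h)
      have e2 : T2 ≠ T1 * T2 := fun h => hT1n (by simpa using h)
      have e3 := hcon.2 0
      have e4 := hcon.2 1
      have e5 := hcon.2 2
      simp [T] at e3 e4 e5
      simp [Finset.card_insert_of_notMem, hcon.1, Ne.symm e3, Ne.symm e4, Ne.symm e5, hT1n.symm,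
        hT2n.symm, hT3n.symm, hT21.symm, e1, e2]
    have := Set.ncard_le_ncard hs (Set.toFinite _)
    rw [Set.ncard_coe_finset, h5, ← Nat.card_coe_set_eq] at this
    simp only [SetLike.coe_sort_coe] at this
    omega
  choose a ha using fun i => hcyc (T i) (hTW i) (hTn i)
  have hfixa : ∀ i, T i (a i) = a i := fun i => (ha i (a i)).2 (Subgroup.mem_zpowers _)
  have hgen : Subgroup.closure (Set.range a) = ⊤ := by
    refine generation hp hp2 hP W hWnc hW4 _ fun u hu hu1 x hx => ?_
    obtain ⟨i, rfl⟩ := (hTall u hu).resolve_left hu1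
    exact Subgroup.zpowers_le.2 (Subgroup.subset_closure (Set.mem_range_self i)) ((ha i x).1 hx)
  -- signs
  have hpm : ∀ S ∈ I, ∀ i, S (a i) = a i ∨ S (a i) = (a i)⁻¹ := by
    intro S hS i
    refine fix_or_inv hp hp2 hP (hsq S hS) ((ha i _).1 ?_)
    rw [← MulAut.mul_apply, hcm (T i) (hWI (hTW i)) S hS, MulAut.mul_apply, hfixa]
  let sg : I → Fin 3 → Bool := fun S i => decide (S.1 (a i) = a i)
  have hsginj : Function.Injective sg := by
    intro S S' h
    refine Subtype.ext (MulEquiv.ext fun x => ?_)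
    have hx : x ∈ Subgroup.closure (Set.range a) := hgen ▸ Subgroup.mem_top x
    induction hx using Subgroup.closure_induction with
    | mem y hy =>
      obtain ⟨i, rfl⟩ := hy
      have hi := congrFun h i
      simp only [sg, decide_eq_decide] at hi
      by_cases hS : S.1 (a i) = a i
      · rw [hS, hi.1 hS]
      · rw [(hpm S S.2 i).resolve_left hS, (hpm S' S'.2 i).resolve_left fun h' => hS (hi.2 h')]
    | one => simp
    | mul y z _ _ hy hz => rw [map_mul, map_mul, hy, hz]
    | inv y _ hy => rw [map_inv, map_inv, hy]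
  haveI : Finite I := Nat.finite_of_card_ne_zero (by omega)
  have hsgbij : Function.Bijective sg := by
    refine (Nat.bijective_iff_injective_and_card sg).2 ⟨hsginj, ?_⟩
    rw [hI8, Nat.card_fun, Nat.card_fin, Nat.card_eq_fintype_card, Fintype.card_bool]
    rfl
  choose el hel using hsgbij.2
  have helt : ∀ f i, f i = true → (el f).1 (a i) = a i := by
    intro f i hf
    have := congrFun (hel f) i
    rw [hf] at this
    simpa [sg] using this
  have helf : ∀ f i, f i = false → (el f).1 (a i) = (a i)⁻¹ ∧ (el f).1 (a i) ≠ a i := by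
    intro f i hf
    have := congrFun (hel f) i
    rw [hf] at this
    have h' : ¬ (el f).1 (a i) = a i := by simpa [sg] using this
    exact ⟨(hpm _ (el f).2 i).resolve_left h', h'⟩
  have ha1 : ∀ i, a i ≠ 1 := by
    intro i hi
    exact (helf (fun _ => false) i rfl).2 (by rw [hi, map_one])
  have hself : ∀ i, a i ≠ (a i)⁻¹ := fun i h => ha1 i
    (mul_self_eq_one_odd hp hp2 hP (by nth_rw 2 [h]; exact mul_inv_cancel _))
  have hmul : ∀ S S' : I, sg (S * S') = fun i => (sg S i == sg S' i) := by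
    intro S S'
    funext i
    simp only [sg, Subgroup.coe_mul, MulAut.mul_apply]
    rcases hpm S S.2 i with h | h <;> rcases hpm S' S'.2 i with h' | h' <;>
      simp [h, h', map_inv, inv_inv, hself i, (hself i).symm]
  have hnot : ∀ i j, i ≠ j → a j ∉ Subgroup.zpowers (a i) := by
    intro i j hij hj
    obtain ⟨n, hn⟩ := Subgroup.mem_zpowers_iff.1 hj
    refine (helf (fun k => decide (k = i)) j (by simpa using hij.symm)).2 ?_
    rw [← hn, map_zpow, helt (fun k => decide (k = i)) i (by simp)]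
  have hTel : ∀ i, (⟨T i, hWI (hTW i)⟩ : I) = el (fun k => decide (k = i)) := by
    intro i
    apply hsginj
    rw [hel]
    funext j
    by_cases hji : j = i
    · subst hji; simp [sg, hfixa]
    · simp only [sg, decide_eq_false hji, decide_eq_false_iff_not]
      exact fun h => hnot i j (Ne.symm hji) ((ha i (a j)).1 h)
  let r : Fin 3 → MulAut P := fun k => (el fun j => !decide (j = k)).1
  have hrk : ∀ k, r k (a k) = (a k)⁻¹ := fun k => (helf _ k (by simp)).1
  have hrj : ∀ k j, j ≠ k → r k (a j) = a j := fun k j h => helt _ j (by simp [h])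
  have hTj : ∀ i j, j ≠ i → T i (a j) = (a j)⁻¹ := by
    intro i j h
    rw [show T i = (el fun k => decide (k = i)).1 from congrArg Subtype.val (hTel i)]
    exact (helf _ j (by simp [h])).1
  have hbroad : ∀ k, ¬ Cyc (r k) := by
    rintro k ⟨g, hg⟩
    obtain ⟨i, j, hik, hjk, hij⟩ :=
      (show ∀ k : Fin 3, ∃ i j, i ≠ k ∧ j ≠ k ∧ j ≠ i by decide) k
    have hi := (hg (a i)).1 (hrj k i hik)
    have hj := (hg (a j)).1 (hrj k j hjk)
    obtain ⟨m, hm⟩ := Subgroup.mem_zpowers_iff.1 hi
    obtain ⟨n, hn⟩ := Subgroup.mem_zpowers_iff.1 hj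
    have hTg : T i g = g ∨ T i g = g⁻¹ := by
      refine fix_or_inv hp hp2 hP (hsq _ (hWI (hTW i))) ((hg _).1 ?_)
      rw [← MulAut.mul_apply, hcm (r k) (el _).2 (T i) (hWI (hTW i)), MulAut.mul_apply,
        (hg g).2 (Subgroup.mem_zpowers g)]
    rcases hTg with h | h
    · refine hself j ?_
      rw [← hTj i j hij, ← hn, map_zpow, h]
    · refine hself i ?_
      conv_lhs => rw [← hfixa i, ← hm, map_zpow, h, inv_zpow, hm]
  -- commutativity
  have hcomm : ∀ i j, a i * a j = a j * a i := by
    intro i j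
    by_cases hij : i = j
    · rw [hij]
    obtain ⟨k, hki, hkj⟩ := (show ∀ i j : Fin 3, ∃ k, i ≠ k ∧ j ≠ k by decide) i j
    let Q : Subgroup P := (r k).toMonoidHom.eqLocus (MonoidHom.id P)
    have hQ : ∀ x, x ∈ Q ↔ r k x = x := fun x => Iff.rfl
    let φ : Q →* Q := ((T k).toMonoidHom.comp Q.subtype).codRestrict Q fun x => by
      rw [hQ]
      show r k (T k x.1) = T k x.1
      rw [← MulAut.mul_apply, hcm (r k) (el _).2 (T k) (hWI (hTW k)), MulAut.mul_apply, (hQ x).1 x.2]
    have hφ2 : Function.Involutive φ := fun x => Subtype.ext (by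
      show T k (T k x.1) = x.1
      rw [← MulAut.mul_apply, hsq _ (hWI (hTW k))]; rfl)
    have hφf : MonoidHom.FixedPointFree φ := by
      intro x hx
      have h1 : T k x.1 = x.1 := congrArg Subtype.val hx
      obtain ⟨n, hn⟩ := Subgroup.mem_zpowers_iff.1 ((ha k _).1 h1)
      have h2 := (hQ x).1 x.2
      rw [← hn, map_zpow, hrk, inv_zpow, hn] at h2
      exact Subtype.ext (mul_self_eq_one_odd hp hp2 hP (by nth_rw 2 [← h2]; exact mul_inv_cancel _))
    exact congrArg Subtype.val (hφf.commute_all_of_involutive hφ2 ⟨a i, hrj k i hki⟩ ⟨a j, hrj k j hkj⟩).eq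
  haveI hPc : IsMulCommutative P := by
    haveI : IsMulCommutative (Subgroup.closure (Set.range a)) := Subgroup.isMulCommutative_closure (by
      rintro _ ⟨i, rfl⟩ _ ⟨j, rfl⟩; exact hcomm i j)
    refine ⟨⟨fun x y => ?_⟩⟩
    exact congrArg Subtype.val ((IsMulCommutative.is_comm (M := Subgroup.closure (Set.range a))).comm
      ⟨x, hgen ▸ Subgroup.mem_top x⟩ ⟨y, hgen ▸ Subgroup.mem_top y⟩)
  -- all elements of I
  have hcases : ∀ f : Fin 3 → Bool, f = (fun _ => true) ∨ (∃ i, f = fun k => decide (k = i)) ∨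
      (∃ k, f = fun j => !decide (j = k)) ∨ f = fun _ => false := by decide
  have hone : sg 1 = fun _ => true := funext fun i => by simp [sg]
  have hrinj : Function.Injective r := by
    intro k k' h
    have h' := congrArg sg (Subtype.ext h : el (fun j => !decide (j = k)) = el fun j => !decide (j = k'))
    rw [hel, hel] at h'
    have := congrFun h' k
    simpa using this
  have hrn : ∀ k, r k ≠ 1 := fun k h => hself k (by rw [← hrk k, h]; rfl)
  have hclass : ∀ S, (S ∈ I ∧ S ≠ 1 ∧ ¬ Cyc S) ↔ ∃ k, r k = S := by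
    intro S
    constructor
    · rintro ⟨hS, hS1, hSc⟩
      rcases hcases (sg ⟨S, hS⟩) with h | ⟨i, h⟩ | ⟨k, h⟩ | h
      · exact absurd (congrArg Subtype.val (hsginj (h.trans hone.symm))) hS1
      · refine absurd ?_ hSc
        have : (⟨S, hS⟩ : I) = ⟨T i, hWI (hTW i)⟩ := hsginj (by rw [h, hTel i, hel])
        rw [show S = T i from congrArg Subtype.val this]
        exact ⟨a i, ha i⟩
      · exact ⟨k, (congrArg Subtype.val (hsginj (a₁ := ⟨S, hS⟩) (h.trans (hel _).symm))).symm⟩
      · refine absurd ⟨1, fun x => ?_⟩ hSc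
        have hinv : ∀ x, S x = x⁻¹ := by
          intro x
          have hx : x ∈ Subgroup.closure (Set.range a) := hgen ▸ Subgroup.mem_top x
          induction hx using Subgroup.closure_induction with
          | mem y hy =>
            obtain ⟨i, rfl⟩ := hy
            have := congrFun h i
            refine (hpm S hS i).resolve_left ?_
            simpa [sg] using this
          | one => simp
          | mul y z _ _ hy hz => rw [map_mul, hy, hz, mul_inv_rev, hPc.is_comm.comm]
          | inv y _ hy => rw [map_inv, hy]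
        rw [hinv, Subgroup.zpowers_one_eq_bot, Subgroup.mem_bot]
        exact ⟨fun h => mul_self_eq_one_odd hp hp2 hP (by nth_rw 2 [← h]; exact mul_inv_cancel x),
          fun h => by rw [h, inv_one]⟩
    · rintro ⟨k, rfl⟩
      exact ⟨(el _).2, hrn k, hbroad k⟩
  have hrr : ∀ i j, i ≠ j → ∃ k, r i * r j = T k := by
    intro i j hij
    obtain ⟨k, hk⟩ := (show ∀ i j : Fin 3, i ≠ j → ∃ k, ∀ l : Fin 3,
      ((!decide (l = i)) == (!decide (l = j))) = decide (l = k) by decide) i j hij
    refine ⟨k, congrArg Subtype.val (a₁ := el (fun l => !decide (l = i)) * el (fun l => !decide (l = j)))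
      (a₂ := (⟨T k, hWI (hTW k)⟩ : I)) (hsginj ?_)⟩
    rw [hmul, hTel k, hel, hel, hel]
    exact funext hk
  have hTrr : ∀ k, ∃ i j, i ≠ j ∧ T k = r i * r j := by
    intro k
    obtain ⟨i, j, hij, hk⟩ := (show ∀ k : Fin 3, ∃ i j : Fin 3, i ≠ j ∧
        ∀ l : Fin 3, ((!decide (l = i)) == (!decide (l = j))) = decide (l = k) by decide) k
    refine ⟨i, j, hij, (congrArg Subtype.val (a₁ := el (fun l => !decide (l = i)) * el (fun l => !decide (l = j)))
      (a₂ := (⟨T k, hWI (hTW k)⟩ : I)) (hsginj ?_)).symm⟩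
    rw [hmul, hTel k, hel, hel, hel]
    exact funext hk
  refine ⟨hPc, ⟨a 0, a 1, a 2, ?_⟩, ?_, r, hrinj, hclass, le_antisymm ?_ ?_, ?_⟩
  · rw [← hgen]; congr 1; ext x; simp [Fin.exists_fin_succ, eq_comm]
  · -- not two generated
    rintro ⟨u, v, huv⟩
    open scoped IsMulCommutative in
    have : ∀ π : P →* P, (∀ x, π x = x ^ p) → False := by
      intro π hπ
      choose b hb hbo using fun i => show ∃ b ∈ Subgroup.zpowers (a i), orderOf b = p by
        obtain ⟨n, hn⟩ := IsPGroup.iff_orderOf.1 hP (a i)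
        rcases n with _ | n
        · exact absurd (orderOf_eq_one_iff.1 (by simpa using hn)) (ha1 i)
        · refine ⟨a i ^ p ^ n, Subgroup.pow_mem _ (Subgroup.mem_zpowers _) _, ?_⟩
          rw [orderOf_pow' _ (pow_ne_zero _ hp.ne_zero), hn, Nat.gcd_eq_right (pow_dvd_pow p (Nat.le_succ n)),
            pow_succ', Nat.mul_div_cancel _ (pow_pos hp.pos n)]
      let F : (Fin 3 → Fin p) → π.ker := fun e => ⟨∏ i, b i ^ (e i : ℕ), by
        rw [MonoidHom.mem_ker, hπ, ← Finset.prod_pow]
        refine Finset.prod_eq_one fun i _ => ?_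
        rw [← pow_mul, mul_comm, pow_mul, show b i ^ p = 1 from hbo i ▸ pow_orderOf_eq_one (b i), one_pow]⟩
      have hrb : ∀ k i, r k (b i) = if i = k then (b i)⁻¹ else b i := by
        intro k i
        obtain ⟨n, hn⟩ := Subgroup.mem_zpowers_iff.1 (hb i)
        split_ifs with h
        · subst h; rw [← hn, map_zpow, hrk, inv_zpow]
        · rw [← hn, map_zpow, hrj k i h]
      have hFinj : Function.Injective F := by
        intro e e' h
        funext k
        have h1 : (∏ i, b i ^ (e i : ℕ)) = ∏ i, b i ^ (e' i : ℕ) := congrArg Subtype.val h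
        have h2 := congrArg (r k) h1
        simp only [map_prod, map_pow, hrb] at h2
        have hsplit : ∀ f : Fin 3 → Fin p, (∏ i, b i ^ (f i : ℕ)) =
            (∏ i, (if i = k then (b i)⁻¹ else b i) ^ (f i : ℕ)) * (b k ^ (f k : ℕ)) ^ 2 := by
          intro f
          rw [← Finset.mul_prod_erase Finset.univ _ (Finset.mem_univ k),
            ← Finset.mul_prod_erase Finset.univ (fun i => (if i = k then (b i)⁻¹ else b i) ^ (f i : ℕ))
              (Finset.mem_univ k),
            Finset.prod_congr rfl (fun i (hi : i ∈ Finset.univ.erase k) =>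
              show (if i = k then (b i)⁻¹ else b i) ^ (f i : ℕ) = b i ^ (f i : ℕ) by
                rw [if_neg (Finset.ne_of_mem_erase hi)])]
          rw [if_pos rfl, inv_pow, pow_two]
          rw [mul_comm ((b k ^ (f k : ℕ))⁻¹ * _) (b k ^ (f k : ℕ) * b k ^ (f k : ℕ))]
          simp [mul_assoc]
        rw [hsplit e, hsplit e', h2] at h1
        have h3 : (b k ^ (e k : ℕ)) ^ 2 = (b k ^ (e' k : ℕ)) ^ 2 := mul_left_cancel h1
        rw [← pow_mul, ← pow_mul, pow_eq_pow_iff_modEq, hbo] at h3
        have h4 : (e k : ℕ) ≡ (e' k : ℕ) [MOD p] :=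
          Nat.ModEq.cancel_right_of_coprime ((Nat.coprime_primes hp Nat.prime_two).2 hp2) h3
        exact Fin.ext (Nat.ModEq.eq_of_lt_of_lt h4 (e k).2 (e' k).2)
      have hle : p ^ 3 ≤ Nat.card π.ker := by
        have := Nat.card_le_card_of_injective F hFinj
        simpa [Nat.card_fun] using this
      have hidx : π.range.index ≤ p ^ 2 := by
        let g : Fin p × Fin p → P ⧸ π.range := fun e => ((u ^ (e.1 : ℕ) * v ^ (e.2 : ℕ) : P) : P ⧸ π.range)
        have hg : Function.Surjective g := by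
          intro q
          obtain ⟨x, rfl⟩ := QuotientGroup.mk_surjective q
          obtain ⟨m, n, rfl⟩ := Subgroup.mem_closure_pair.1 (huv ▸ Subgroup.mem_top x : x ∈ Subgroup.closure {u, v})
          have hm : 0 ≤ m % p ∧ m % p < p := ⟨Int.emod_nonneg _ (by exact_mod_cast hp.ne_zero),
            Int.emod_lt_of_pos _ (by exact_mod_cast hp.pos)⟩
          have hn : 0 ≤ n % p ∧ n % p < p := ⟨Int.emod_nonneg _ (by exact_mod_cast hp.ne_zero),
            Int.emod_lt_of_pos _ (by exact_mod_cast hp.pos)⟩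
          refine ⟨(⟨(m % p).toNat, by omega⟩, ⟨(n % p).toNat, by omega⟩), ?_⟩
          refine (QuotientGroup.eq).2 ⟨u ^ (m / p) * v ^ (n / p), ?_⟩
          rw [hπ, ← zpow_natCast u, ← zpow_natCast v, Int.toNat_of_nonneg hm.1, Int.toNat_of_nonneg hn.1]
          conv_rhs =>
            arg 2
            rw [← Int.emod_add_mul_ediv m p, ← Int.emod_add_mul_ediv n p, zpow_add, zpow_add]
          rw [mul_pow, ← zpow_natCast (u ^ (m / p)), ← zpow_natCast (v ^ (n / p)), ← zpow_mul, ← zpow_mul,
            mul_comm (m / p), mul_comm (n / p)]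
          rw [mul_mul_mul_comm (u ^ (m % (p : ℤ))), inv_mul_cancel_left]
        rw [Subgroup.index_eq_card, pow_two]
        simpa [Nat.card_prod] using Nat.card_le_card_of_surjective g hg
      have e1 := π.ker.card_mul_index
      rw [Subgroup.index_ker, ← π.range.card_mul_index, mul_comm] at e1
      have := Nat.eq_of_mul_eq_mul_left Nat.card_pos e1
      have := Nat.pow_lt_pow_right hp.one_lt (show 2 < 3 by norm_num)
      omega
    open scoped IsMulCommutative in
    exact this (powMonoidHom p) fun _ => rfl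
  · rw [Subgroup.closure_le]
    rintro _ ⟨k, rfl⟩
    exact (el _).2
  · intro S hS
    have hmemr : ∀ k, r k ∈ Subgroup.closure (Set.range r) := fun k => Subgroup.subset_closure ⟨k, rfl⟩
    rcases hcases (sg ⟨S, hS⟩) with h | ⟨i, h⟩ | ⟨k, h⟩ | h
    · rw [show S = 1 from congrArg Subtype.val (hsginj (h.trans hone.symm))]
      exact Subgroup.one_mem _
    · obtain ⟨i', j', -, h'⟩ := hTrr i
      have : (⟨S, hS⟩ : I) = ⟨T i, hWI (hTW i)⟩ := hsginj (by rw [h, hTel i, hel])
      rw [show S = T i from congrArg Subtype.val this, h']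
      exact Subgroup.mul_mem _ (hmemr _) (hmemr _)
    · rw [show S = r k from congrArg Subtype.val (hsginj (a₁ := ⟨S, hS⟩) (h.trans (hel _).symm))]
      exact hmemr k
    · have : (⟨S, hS⟩ : I) = el (fun j => !decide (j = 0)) * el (fun j => !decide (j = 1)) *
          el (fun j => !decide (j = 2)) := hsginj (by
        rw [h, hmul, hmul, hel, hel, hel]; funext l; fin_cases l <;> rfl)
      rw [show S = r 0 * r 1 * r 2 from congrArg Subtype.val this]
      exact Subgroup.mul_mem _ (Subgroup.mul_mem _ (hmemr _) (hmemr _)) (hmemr _)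
  · ext S
    simp only [SetLike.mem_coe, Set.mem_setOf_eq]
    constructor
    · intro hS
      rcases hTall S hS with rfl | ⟨i, rfl⟩
      · exact ⟨0, 0, (hsq _ (el _).2).symm⟩
      · obtain ⟨i', j', -, h'⟩ := hTrr i
        exact ⟨i', j', h'⟩
    · rintro ⟨i, j, rfl⟩
      by_cases hij : i = j
      · subst hij; rw [hsq _ (el _).2]; exact W.one_mem
      · obtain ⟨k, hk⟩ := hrr i j hij
        rw [hk]; exact hTW k

end Cfsg.Agent.H91.BroadInvolutions
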