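import Cfsg.Prelude.Def_Local
import Cfsg.Agent.H22.AbelianSylow
import Cfsg.Agent.H19.Cores
import Mathlib

/-!
Cyclic Sylow subgroups: normalising elements that are congruent to one.
-/

namespace Cfsg.Agent.H91.CyclicSylow

variable {G : Type*} [Group G] [Finite G] {p : ℕ} [Fact p.Prime]

/-- An element normalising a cyclic Sylow `p`-subgroup `⟨g⟩` and mapping `g` to `g ^ r`,
`r ≡ 1 mod p`, centralises it. -/
theorem mem_centralizer_of_modEq (P : Sylow p G) {g : G}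
    (hg : Subgroup.zpowers g = (P : Subgroup G)) {m : G}
    (hm : m ∈ Subgroup.normalizer ((P : Subgroup G) : Set G)) {r : ℤ} (hr : m * g * m⁻¹ = g ^ r)
    (hr1 : (p : ℤ) ∣ r - 1) : m ∈ Subgroup.centralizer ((P : Subgroup G) : Set G) := by
  obtain ⟨k, hk⟩ := IsPGroup.iff_card.1 P.2
  rw [← hg, Nat.card_zpowers] at hk
  have hiter : ∀ j : ℕ, m ^ j * g * (m ^ j)⁻¹ = g ^ (r ^ j) := by
    intro j
    induction j with
    | zero => simp
    | succ j ih =>
      calc m ^ (j + 1) * g * (m ^ (j + 1))⁻¹ = m * (m ^ j * g * (m ^ j)⁻¹) * m⁻¹ := by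
            rw [pow_succ']; group
        _ = (m * g * m⁻¹) ^ (r ^ j) := by rw [ih, conj_zpow]
        _ = g ^ (r ^ (j + 1)) := by rw [hr, ← zpow_mul, pow_succ']
  have hd : (p : ℤ) ^ k ∣ r ^ p ^ k - 1 := by
    have h := dvd_sub_pow_of_dvd_sub hr1 k
    rw [one_pow] at h
    exact (pow_dvd_pow _ (Nat.le_succ k)).trans h
  have hc1 : Commute (m ^ p ^ k) g := by
    have h1 : g ^ (r ^ p ^ k - 1) = 1 := orderOf_dvd_iff_zpow_eq_one.1 (by rw [hk]; exact_mod_cast hd)
    have h2 := hiter (p ^ k)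
    rw [show r ^ p ^ k = (r ^ p ^ k - 1) + 1 by ring, zpow_add, h1, one_mul, zpow_one] at h2
    exact mul_inv_eq_iff_eq_mul.1 h2
  -- the `p`-part of `m` lies in `P`
  have hcP : ∀ u : G, Commute u g → ∀ j : ℤ, Commute u (g ^ j) := fun u hu j => hu.zpow_right j
  set a := (orderOf m).factorization p
  set b := orderOf m / p ^ a with hb
  have hmb : m ^ b ∈ (P : Subgroup G) := by
    have hp : IsPGroup p (Subgroup.zpowers (m ^ b)) := by
      refine IsPGroup.of_card (n := a) ?_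
      rw [Nat.card_zpowers, orderOf_pow_of_dvd
        (Nat.div_pos (Nat.le_of_dvd (orderOf_pos m) (Nat.ordProj_dvd _ _)) (pow_pos (Fact.out : p.Prime).pos _)).ne'
        (Nat.div_dvd_of_dvd (Nat.ordProj_dvd _ _)), Nat.div_div_self (Nat.ordProj_dvd _ _) (orderOf_pos m).ne']
    have h1 := hp.inf_normalizer_sylow P
    have h2 : m ^ b ∈ Subgroup.zpowers (m ^ b) ⊓ Subgroup.normalizer ((P : Subgroup G) : Set G) :=
      ⟨Subgroup.mem_zpowers _, Subgroup.pow_mem _ hm b⟩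
    exact (h1.le h2).2
  have hc2 : Commute (m ^ b) g := by
    obtain ⟨j, hj⟩ := Subgroup.mem_zpowers_iff.1 (hg.symm ▸ hmb : m ^ b ∈ Subgroup.zpowers g)
    rw [← hj]; exact (Commute.refl g).zpow_left j
  have hcop : Nat.Coprime (p ^ k) b :=
    Nat.Coprime.pow_left _ (Nat.coprime_ordCompl (Fact.out : p.Prime) (orderOf_pos m).ne')
  have hbez : (1 : ℤ) = (p ^ k : ℕ) * Nat.gcdA (p ^ k) b + b * Nat.gcdB (p ^ k) b := by
    rw [← Nat.gcd_eq_gcd_ab, hcop.gcd_eq_one]; rfl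
  have hmg : Commute m g := by
    rw [← zpow_one m, hbez, zpow_add, zpow_mul, zpow_mul, zpow_natCast, zpow_natCast]
    exact (hc1.zpow_left _).mul_left (hc2.zpow_left _)
  refine Subgroup.mem_centralizer_iff.2 fun u hu => ?_
  obtain ⟨j, rfl⟩ := Subgroup.mem_zpowers_iff.1 (hg.symm ▸ hu : u ∈ Subgroup.zpowers g)
  exact (hmg.zpow_right j).eq.symm

end Cfsg.Agent.H91.CyclicSylow
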