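import Mathlib

/-!
Derived length of `p`-groups of linear maps in coprime characteristic.
-/

namespace Cfsg.Agent.H91.DerivedLength

universe u v

variable {P : Type v} [Group P] {p : ℕ}

/-- The action of `ρ` on an invariant submodule. -/
def subRep {K V : Type*} [Field K] [AddCommGroup V] [Module K V] (ρ : P →* Module.End K V)
    (W : Submodule K V) (hW : ∀ g, ∀ v ∈ W, ρ g v ∈ W) : P →* Module.End K W where
  toFun g := (ρ g).restrict (hW g)
  map_one' := LinearMap.ext fun v => Subtype.ext (by simp)
  map_mul' g h := LinearMap.ext fun v => Subtype.ext (by simp [map_mul])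

/-- The action of `ρ` on the quotient by an invariant submodule. -/
def quotRep {K V : Type*} [Field K] [AddCommGroup V] [Module K V] (ρ : P →* Module.End K V)
    (W : Submodule K V) (hW : ∀ g, ∀ v ∈ W, ρ g v ∈ W) : P →* Module.End K (V ⧸ W) where
  toFun g := W.mapQ W (ρ g) (hW g)
  map_one' := Submodule.linearMap_qext _ (LinearMap.ext fun v => by simp)
  map_mul' g h := Submodule.linearMap_qext _ (LinearMap.ext fun v => by simp [map_mul])

/-- An element of a `p`-group acting trivially on an invariant subspace and on the quotient acts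
trivially in characteristic other than `p`. -/
theorem mem_ker_of_unipotent {K V : Type*} [Field K] [AddCommGroup V] [Module K V] (hpP : IsPGroup p P)
    (hpK : (p : K) ≠ 0) (ρ : P →* Module.End K V) (W : Submodule K V)
    (x : P) (h1 : ∀ v ∈ W, ρ x v = v) (h2 : ∀ v, ρ x v - v ∈ W) : ρ x = 1 := by
  obtain ⟨k, hk⟩ := hpP x
  refine LinearMap.ext fun v => ?_
  have hiter : ∀ m : ℕ, ρ (x ^ m) v = v + (m : K) • (ρ x v - v) := by
    intro m
    induction m with
    | zero => simp
    | succ m ih =>
      rw [pow_succ', map_mul, Module.End.mul_apply, ih, map_add, map_smul, h1 _ (h2 v), Nat.cast_succ,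
        add_smul, one_smul]
      abel
  have h3 := hiter (p ^ k)
  rw [hk, map_one, Module.End.one_apply, Nat.cast_pow] at h3
  have h4 := (smul_eq_zero.1 (left_eq_add.1 h3)).resolve_left (pow_ne_zero _ hpK)
  simpa using sub_eq_zero.1 h4

/-- A reducible representation is trivial where both constituents are. -/
theorem le_ker_of_subrep {K V : Type*} [Field K] [AddCommGroup V] [Module K V] (hpP : IsPGroup p P)
    (hpK : (p : K) ≠ 0) (ρ : P →* Module.End K V) (W : Submodule K V)
    (hW : ∀ g, ∀ v ∈ W, ρ g v ∈ W) (N : Subgroup P) (h1 : N ≤ (subRep ρ W hW).ker)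
    (h2 : N ≤ (quotRep ρ W hW).ker) : N ≤ ρ.ker := by
  intro x hx
  refine MonoidHom.mem_ker.2 (mem_ker_of_unipotent hpP hpK ρ W x (fun v hv => ?_) fun v => ?_)
  · exact congrArg Subtype.val (LinearMap.congr_fun (MonoidHom.mem_ker.1 (h1 hx)) ⟨v, hv⟩)
  · exact (Submodule.Quotient.eq W).1
      (LinearMap.congr_fun (MonoidHom.mem_ker.1 (h2 hx)) (Submodule.Quotient.mk v))

theorem derivedSeries_mono {m n : ℕ} (h : m ≤ n) : derivedSeries P n ≤ derivedSeries P m := by
  induction n, h using Nat.le_induction with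
  | base => exact le_rfl
  | succ n _ ih => exact le_trans (derivedSeries_antitone P n.le_succ) ih

theorem derivedSeries_succ_le_map (H : Subgroup P) (hH : commutator P ≤ H) :
    ∀ n, derivedSeries P (n + 1) ≤ (derivedSeries H n).map H.subtype := by
  intro n
  induction n with
  | zero =>
    rw [derivedSeries_one, derivedSeries_zero, ← MonoidHom.range_eq_map, Subgroup.range_subtype]
    exact hH
  | succ n ih =>
    rw [derivedSeries_succ, derivedSeries_succ H, Subgroup.map_commutator]
    exact Subgroup.commutator_mono ih ih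

section schur

variable {K V : Type*} [Field K] [AddCommGroup V] [Module K V]

/-- The linear maps commuting with a representation. -/
def endo (ρ : P →* Module.End K V) : Subalgebra K (Module.End K V) :=
  Subalgebra.centralizer K (Set.range ρ)

theorem endo_isDomain [Nontrivial V] [Finite V] (ρ : P →* Module.End K V)
    (hirr : ∀ W : Submodule K V, (∀ g, ∀ v ∈ W, ρ g v ∈ W) → W = ⊥ ∨ W = ⊤) : IsDomain (endo ρ) := by
  haveI : Nontrivial (endo ρ) := by
    refine ⟨0, 1, fun e => ?_⟩
    obtain ⟨v, hv⟩ := exists_ne (0 : V)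
    exact hv (LinearMap.congr_fun (congrArg Subtype.val e) v).symm
  haveI : NoZeroDivisors (endo ρ) := by
    refine ⟨fun {a b} hab => ?_⟩
    by_contra h
    push Not at h
    have hk : LinearMap.ker (a : Module.End K V) = ⊥ := by
      refine (hirr _ fun g v hv => ?_).resolve_right fun e => h.1 (Subtype.ext (LinearMap.ker_eq_top.1 e))
      rw [LinearMap.mem_ker] at hv ⊢
      have e := LinearMap.congr_fun (Subalgebra.mem_centralizer_iff K |>.1 a.2 (ρ g) ⟨g, rfl⟩) v
      simp only [Module.End.mul_apply] at e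
      rw [← e, hv, map_zero]
    apply h.2
    refine Subtype.ext (LinearMap.ext fun v => ?_)
    exact LinearMap.ker_eq_bot'.1 hk _ (LinearMap.congr_fun (congrArg Subtype.val hab) v)
  exact NoZeroDivisors.to_isDomain _

end schur

/-- In coprime characteristic a `p`-group of `d × d` matrices over a finite field has derived
length at most `log₂ d + 1`. -/
theorem derivedSeries_le_ker [Fact p.Prime] : ∀ (d : ℕ) {P : Type v} [Group P] [Finite P]
    (_ : IsPGroup p P) (K : Type u) [Field K] [Finite K] (_ : (p : K) ≠ 0) (V : Type u) [AddCommGroup V]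
    [Module K V] [Finite V] (ρ : P →* Module.End K V) (_ : Module.finrank K V ≤ d),
    derivedSeries P (Nat.log 2 d + 1) ≤ ρ.ker := by
  intro d
  induction d using Nat.strong_induction_on with
  | _ d ih =>
  intro P _ _ hpP K _ _ hpK V _ _ _ ρ hd
  haveI : Module.Finite K V := Module.Finite.of_finite
  rcases subsingleton_or_nontrivial V with hV | hV
  · intro x _
    exact MonoidHom.mem_ker.2 (LinearMap.ext fun v => Subsingleton.elim _ _)
  by_cases hred : ∃ W : Submodule K V, (∀ g, ∀ v ∈ W, ρ g v ∈ W) ∧ W ≠ ⊥ ∧ W ≠ ⊤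
  · obtain ⟨W, hW, hW0, hW1⟩ := hred
    have h1 : Module.finrank K W < Module.finrank K V := Submodule.finrank_lt hW1
    have h2 : Module.finrank K (V ⧸ W) < Module.finrank K V := by
      have := W.finrank_quotient_add_finrank
      have : 0 < Module.finrank K W := by
        rw [Nat.pos_iff_ne_zero]; exact fun e => hW0 (Submodule.finrank_eq_zero.1 e)
      omega
    haveI : Finite (V ⧸ W) := Quotient.finite _
    refine le_ker_of_subrep hpP hpK ρ W hW _ ?_ ?_
    · exact le_trans (derivedSeries_mono (Nat.succ_le_succ (Nat.log_mono_right (le_of_lt (h1.trans_le hd)))))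
        (ih _ (h1.trans_le hd) hpP K hpK W (subRep ρ W hW) le_rfl)
    · exact le_trans (derivedSeries_mono (Nat.succ_le_succ (Nat.log_mono_right (le_of_lt (h2.trans_le hd)))))
        (ih _ (h2.trans_le hd) hpP K hpK _ (quotRep ρ W hW) le_rfl)
  have hirr : ∀ W : Submodule K V, (∀ g, ∀ v ∈ W, ρ g v ∈ W) → W = ⊥ ∨ W = ⊤ := by
    intro W hW
    by_contra h
    push Not at h
    exact hred ⟨W, hW, h.1, h.2⟩
  by_cases hab : ∀ g h, ρ g * ρ h = ρ h * ρ g
  · refine le_trans (derivedSeries_mono (Nat.le_add_left 1 _)) ?_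
    rw [derivedSeries_one, commutator_def, Subgroup.commutator_le]
    intro g _ h _
    rw [MonoidHom.mem_ker, commutatorElement_def, map_mul, map_mul, map_mul, hab g h, mul_assoc (ρ h),
      ← map_mul, mul_inv_cancel, map_one, mul_one, ← map_mul, mul_inv_cancel, map_one]
  -- an element that is central modulo the centre of the image
  set φ := ρ.toHomUnits with hφ
  haveI : Finite φ.range := Finite.of_surjective φ.rangeRestrict φ.rangeRestrict_surjective
  have hφval : ∀ g, (φ g : Module.End K V) = ρ g := fun g => rfl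
  set Q := φ.range
  haveI : Group.IsNilpotent Q := (hpP.of_surjective φ.rangeRestrict φ.rangeRestrict_surjective).isNilpotent
  haveI : Nontrivial (Q ⧸ Subgroup.center Q) := by
    refine QuotientGroup.nontrivial_iff.2 fun hc => hab fun g h => ?_
    exact congrArg (fun q : Q => ((q : (Module.End K V)ˣ) : Module.End K V))
      (Subgroup.mem_center_iff.1 (hc ▸ Subgroup.mem_top (φ.rangeRestrict h)) (φ.rangeRestrict g))
  obtain ⟨q, hq, hq1⟩ := (Subgroup.nontrivial_iff_exists_ne_one _).1
    ((Subgroup.nontrivial_iff_ne_bot _).2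
      (Group.IsNilpotent.center_ne_bot (G := Q ⧸ Subgroup.center Q)))
  obtain ⟨w, rfl⟩ := QuotientGroup.mk_surjective q
  obtain ⟨a, rfl⟩ := φ.rangeRestrict_surjective w
  obtain ⟨g₀, hg₀⟩ : ∃ g, ρ g * ρ a ≠ ρ a * ρ g := by
    by_contra hall
    push Not at hall
    refine hq1 ((QuotientGroup.eq_one_iff _).2 (Subgroup.mem_center_iff.2 fun u => ?_))
    obtain ⟨g, rfl⟩ := φ.rangeRestrict_surjective u
    exact Subtype.ext (Units.ext (hall g))
  have hcen : ∀ g : P, (φ.rangeRestrict a * φ.rangeRestrict g * (φ.rangeRestrict a)⁻¹ *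
      (φ.rangeRestrict g)⁻¹) ∈ Subgroup.center Q := by
    intro g
    apply (QuotientGroup.eq_one_iff _).1
    simp only [QuotientGroup.mk_mul, QuotientGroup.mk_inv]
    rw [← Subgroup.mem_center_iff.1 hq (φ.rangeRestrict g : Q ⧸ Subgroup.center Q)]
    group
  let χ : P →* Q :=
    { toFun := fun g => φ.rangeRestrict a * φ.rangeRestrict g * (φ.rangeRestrict a)⁻¹ * (φ.rangeRestrict g)⁻¹
      map_one' := by simp
      map_mul' := fun g k => by
        rw [map_mul, mul_assoc (φ.rangeRestrict a * φ.rangeRestrict g * (φ.rangeRestrict a)⁻¹),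
          Subgroup.mem_center_iff.1 (hcen k) (φ.rangeRestrict g)⁻¹]
        group }
  set H := χ.ker with hH
  have hHP : commutator P ≤ H := by
    rw [commutator_def, Subgroup.commutator_le]
    intro g _ h _
    rw [hH, MonoidHom.mem_ker, map_commutatorElement, commutatorElement_eq_one_iff_commute]
    exact (Subgroup.mem_center_iff.1 (hcen g) (χ h)).symm
  have hHa : ∀ g ∈ H, ρ a * ρ g = ρ g * ρ a := by
    intro g hg
    have h1 := (commutatorElement_eq_one_iff_commute.1 (MonoidHom.mem_ker.1 hg)).eq
    exact congrArg (fun q : Q => ((q : (Module.End K V)ˣ) : Module.End K V)) h1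
  let ρH : H →* Module.End K V := ρ.comp H.subtype
  have hpH : IsPGroup p H := hpP.to_subgroup H
  set L := Nat.log 2 d
  suffices hkey : ∃ W : Submodule K V, W ≠ ⊥ ∧ ∀ x ∈ derivedSeries P (L + 1), ∀ v ∈ W, ρ x v = v by
    obtain ⟨W, hW0, hW⟩ := hkey
    let U : Submodule K V :=
      { carrier := {v | ∀ x ∈ derivedSeries P (L + 1), ρ x v = v}
        add_mem' := fun hu hv x hx => by rw [map_add, hu x hx, hv x hx]
        zero_mem' := fun x _ => map_zero _
        smul_mem' := fun c v hv x hx => by rw [map_smul, hv x hx] }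
    have hU : U = ⊤ := by
      refine (hirr U fun g v hv x hx => ?_).resolve_left fun e => hW0 (le_bot_iff.1 (e ▸ fun v hv x hx => hW x hx v hv))
      have h1 := hv _ ((derivedSeries_normal P (L + 1)).conj_mem x hx g⁻¹)
      rw [inv_inv] at h1
      conv_rhs => rw [← h1]
      simp only [← Module.End.mul_apply, ← map_mul, ← mul_assoc, mul_inv_cancel, one_mul]
    exact fun x hx => MonoidHom.mem_ker.2 (LinearMap.ext fun v =>
      (hU ▸ Submodule.mem_top : v ∈ U) x hx)
  have hd0 : 0 < Module.finrank K V := Module.finrank_pos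
  have hlog : ∀ m, 2 * m ≤ d → 0 < m → Nat.log 2 m + 1 ≤ L := by
    intro m hm hm0
    have h1 : Nat.log 2 m ≤ Nat.log 2 (d / 2) := Nat.log_mono_right (by omega)
    rw [Nat.log_div_base] at h1
    have : 1 ≤ L := Nat.log_pos (by norm_num) (by omega)
    omega
  by_cases hHred : ∃ W : Submodule K V, (∀ g : H, ∀ v ∈ W, ρH g v ∈ W) ∧ W ≠ ⊥ ∧ W ≠ ⊤
  · obtain ⟨W₀, hW₀⟩ := hHred
    obtain ⟨W, ⟨hW, hW0, hW1⟩, hmin⟩ := exists_minimal_of_wellFoundedLT
      (fun W : Submodule K V => (∀ g : H, ∀ v ∈ W, ρH g v ∈ W) ∧ W ≠ ⊥ ∧ W ≠ ⊤) ⟨W₀, hW₀⟩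
    obtain ⟨g, hg⟩ : ∃ g, ¬ W.map (ρ g) ≤ W := by
      by_contra h
      push Not at h
      exact hred ⟨W, fun g v hv => h g (Submodule.mem_map_of_mem hv), hW0, hW1⟩
    have hinj : Function.Injective (ρ g) := Function.LeftInverse.injective (g := ρ g⁻¹) fun v => by
      rw [← Module.End.mul_apply, ← map_mul, inv_mul_cancel, map_one, Module.End.one_apply]
    have hcardg : Module.finrank K (W.map (ρ g)) = Module.finrank K W :=
      (Submodule.equivMapOfInjective _ hinj W).finrank_eq.symm
    have hHn : H.Normal := MonoidHom.normal_ker χ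
    have hgW : ∀ h : H, ∀ v ∈ W.map (ρ g), ρH h v ∈ W.map (ρ g) := by
      rintro h _ ⟨v, hv, rfl⟩
      refine ⟨ρH ⟨g⁻¹ * h * g, by simpa using hHn.conj_mem h h.2 g⁻¹⟩ v, hW _ v hv, ?_⟩
      simp only [ρH, MonoidHom.comp_apply, Subgroup.subtype_apply, ← Module.End.mul_apply, ← map_mul]
      group
    have hint : W ⊓ W.map (ρ g) = ⊥ := by
      by_contra h0
      have h1 : W ≤ W ⊓ W.map (ρ g) := hmin ⟨fun h v hv => ⟨hW h v hv.1, hgW h v hv.2⟩, h0,
        fun e => hW1 (top_le_iff.1 (e ▸ inf_le_left))⟩ inf_le_left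
      exact hg (Submodule.eq_of_le_of_finrank_eq (h1.trans inf_le_right) hcardg.symm).ge
    have hdim : 2 * Module.finrank K W ≤ d := by
      have h1 := Submodule.finrank_sup_add_finrank_inf_eq W (W.map (ρ g))
      rw [hint, finrank_bot, hcardg] at h1
      have h2 := Submodule.finrank_le (W ⊔ W.map (ρ g))
      omega
    have hW0' : 0 < Module.finrank K W := by
      rw [Nat.pos_iff_ne_zero]; exact fun e => hW0 (Submodule.finrank_eq_zero.1 e)
    refine ⟨W, hW0, fun x hx v hv => ?_⟩
    obtain ⟨y, hy, rfl⟩ := derivedSeries_succ_le_map H hHP L hx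
    have h2 := ih _ (by omega) hpH K hpK W (subRep ρH W hW) le_rfl
      (derivedSeries_mono (hlog _ hdim hW0') hy)
    exact congrArg Subtype.val (LinearMap.congr_fun (MonoidHom.mem_ker.1 h2) ⟨v, hv⟩)
  · -- pass to a larger field
    have hirrH : ∀ W : Submodule K V, (∀ g : H, ∀ v ∈ W, ρH g v ∈ W) → W = ⊥ ∨ W = ⊤ := by
      intro W hW
      by_contra h
      push Not at h
      exact hHred ⟨W, hW, h.1, h.2⟩
    haveI := endo_isDomain ρH hirrH
    haveI : Finite (Module.End K V) := Finite.of_injective (fun f => (f : V → V)) DFunLike.coe_injective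
    letI : Field (endo ρH) := (Finite.isDomain_to_isField (endo ρH)).toField
    have haD : ρ a ∈ endo ρH := by
      rw [endo, Subalgebra.mem_centralizer_iff]
      rintro _ ⟨h, rfl⟩
      exact (hHa h h.2).symm
    haveI : Module.Finite K (endo ρH) := Module.Finite.of_finite
    have hdeg : 2 ≤ Module.finrank K (endo ρH) := by
      by_contra h
      have h1 : Module.finrank K (endo ρH) = 1 := by
        have : 0 < Module.finrank K (endo ρH) := Module.finrank_pos
        omega
      obtain ⟨c, hc⟩ := (finrank_eq_one_iff_of_nonzero' (1 : endo ρH) one_ne_zero).1 h1 ⟨ρ a, haD⟩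
      have hc' : c • (1 : Module.End K V) = ρ a := congrArg Subtype.val hc
      apply hg₀
      rw [← hc', smul_mul_assoc, one_mul, mul_smul_comm, mul_one]
    have hmul := Module.finrank_mul_finrank K (endo ρH) V
    let σ : H →* Module.End (endo ρH) V :=
      { toFun := fun h =>
          { toFun := ρH h
            map_add' := map_add _
            map_smul' := fun c v => by
              exact LinearMap.congr_fun ((Subalgebra.mem_centralizer_iff K).1 c.2 (ρH h) ⟨h, rfl⟩) v }
        map_one' := LinearMap.ext fun v => by simp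
        map_mul' := fun h k => LinearMap.ext fun v => by simp [map_mul] }
    have hpD : (p : endo ρH) ≠ 0 := by
      rw [← map_natCast (algebraMap K (endo ρH))]
      exact (map_ne_zero (algebraMap K (endo ρH))).2 hpK
    haveI : Module.Finite (endo ρH) V := Module.Finite.of_finite
    have hm0 : 0 < Module.finrank (endo ρH) V := Module.finrank_pos
    have hdim : 2 * Module.finrank (endo ρH) V ≤ d :=
      le_trans (Nat.mul_le_mul_right _ hdeg) (hmul ▸ hd)
    refine ⟨⊤, top_ne_bot, fun x hx v _ => ?_⟩
    obtain ⟨y, hy, rfl⟩ := derivedSeries_succ_le_map H hHP L hx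
    have h2 := ih _ (by omega) hpH (endo ρH) hpD V σ le_rfl (derivedSeries_mono (hlog _ hdim hm0) hy)
    exact LinearMap.congr_fun (MonoidHom.mem_ker.1 h2) v

/-- In coprime characteristic, with `e` the order of `q` modulo `p`, a `p`-group of linear maps of
an `n`-dimensional space over the field of `q` elements has derived length at most
`log₂ (n / e) + 1`, and is trivial if `n < e`. -/
theorem derivedSeries_le_ker_div [Fact p.Prime] [Finite P] (hpP : IsPGroup p P) (K : Type u) [Field K]
    [Finite K] (hpK : (p : K) ≠ 0) {e : ℕ} (he : e = orderOf ((Nat.card K : ℕ) : ZMod p)) :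
    ∀ (n : ℕ) (V : Type u) [AddCommGroup V] [Module K V] [Finite V] (ρ : P →* Module.End K V)
      (_ : Module.finrank K V ≤ n),
      derivedSeries P (Nat.log 2 (n / e) + 1) ≤ ρ.ker ∧ (n < e → ρ.ker = ⊤) := by
  intro n
  induction n using Nat.strong_induction_on with
  | _ n ih =>
  intro V _ _ _ ρ hn
  haveI : Module.Finite K V := Module.Finite.of_finite
  by_cases htriv : ρ.ker = ⊤
  · exact ⟨htriv ▸ le_top, fun _ => htriv⟩
  by_cases hred : ∃ W : Submodule K V, (∀ g, ∀ v ∈ W, ρ g v ∈ W) ∧ W ≠ ⊥ ∧ W ≠ ⊤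
  · obtain ⟨W, hW, hW0, hW1⟩ := hred
    have h1 : Module.finrank K W < Module.finrank K V := Submodule.finrank_lt hW1
    have h2 : Module.finrank K (V ⧸ W) < Module.finrank K V := by
      have := W.finrank_quotient_add_finrank
      have : 0 < Module.finrank K W := by
        rw [Nat.pos_iff_ne_zero]; exact fun e => hW0 (Submodule.finrank_eq_zero.1 e)
      omega
    haveI : Finite (V ⧸ W) := Quotient.finite _
    have a1 := ih _ (h1.trans_le hn) W (subRep ρ W hW) le_rfl
    have a2 := ih _ (h2.trans_le hn) _ (quotRep ρ W hW) le_rfl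
    have hmono : ∀ m, m ≤ n → Nat.log 2 (m / e) + 1 ≤ Nat.log 2 (n / e) + 1 := fun m hm =>
      Nat.succ_le_succ (Nat.log_mono_right (Nat.div_le_div_right hm))
    refine ⟨le_ker_of_subrep hpP hpK ρ W hW _
      ((derivedSeries_mono (hmono _ (h1.trans_le hn).le)).trans a1.1)
      ((derivedSeries_mono (hmono _ (h2.trans_le hn).le)).trans a2.1), fun hne => top_le_iff.1 ?_⟩
    exact le_ker_of_subrep hpP hpK ρ W hW _ (a1.2 (by omega)).ge (a2.2 (by omega)).ge
  have hirr : ∀ W : Submodule K V, (∀ g, ∀ v ∈ W, ρ g v ∈ W) → W = ⊥ ∨ W = ⊤ := by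
    intro W hW
    by_contra h
    push Not at h
    exact hred ⟨W, hW, h.1, h.2⟩
  haveI : Nontrivial V := by
    rcases subsingleton_or_nontrivial V with h | h
    · exact absurd (top_le_iff.1 fun x _ =>
        MonoidHom.mem_ker.2 (LinearMap.ext fun v => Subsingleton.elim _ _)) htriv
    · exact h
  haveI := endo_isDomain ρ hirr
  haveI : Finite (Module.End K V) := Finite.of_injective (fun f => (f : V → V)) DFunLike.coe_injective
  letI : Field (endo ρ) := (Finite.isDomain_to_isField (endo ρ)).toField
  set φ := ρ.toHomUnits with hφ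
  set Q := φ.range with hQdef
  haveI : Finite Q := Finite.of_surjective φ.rangeRestrict φ.rangeRestrict_surjective
  have hpQ : IsPGroup p Q := hpP.of_surjective φ.rangeRestrict φ.rangeRestrict_surjective
  haveI : Nontrivial Q := by
    refine (Subgroup.nontrivial_iff_ne_bot Q).2 fun h => htriv (top_le_iff.1 fun x _ => ?_)
    have : φ x ∈ Q := ⟨x, rfl⟩
    rw [h, Subgroup.mem_bot] at this
    exact MonoidHom.mem_ker.2 (congrArg Units.val this)
  haveI := hpQ.isNilpotent
  obtain ⟨z, hz⟩ := exists_prime_orderOf_dvd_card' (G := Subgroup.center Q) p (by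
    haveI : Nontrivial (Subgroup.center Q) := hpQ.center_nontrivial
    obtain ⟨k, hk⟩ := IsPGroup.iff_card.1 (hpQ.to_subgroup (Subgroup.center Q))
    rw [hk]
    refine dvd_pow_self p fun h => ?_
    rw [h, pow_zero] at hk
    exact (Finite.one_lt_card (α := Subgroup.center Q)).ne' hk)
  obtain ⟨b, hb⟩ := φ.rangeRestrict_surjective (z : Q)
  have hzD : ρ b ∈ endo ρ := by
    rw [endo, Subalgebra.mem_centralizer_iff]
    rintro _ ⟨g, rfl⟩
    have h1 := Subgroup.mem_center_iff.1 z.2 (φ.rangeRestrict g)
    rw [← hb] at h1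
    exact congrArg (fun q : Q => ((q : (Module.End K V)ˣ) : Module.End K V)) h1
  have hord : orderOf (⟨ρ b, hzD⟩ : endo ρ) = p := by
    rw [← hz, ← Subgroup.orderOf_coe z, ← hb, ← Subgroup.orderOf_coe (φ.rangeRestrict b),
      ← orderOf_units]
    exact (orderOf_injective (endo ρ).val.toMonoidHom Subtype.val_injective _).symm
  haveI : Module.Finite K (endo ρ) := Module.Finite.of_finite
  haveI : Module.Finite (endo ρ) V := Module.Finite.of_finite
  have hdvd : e ∣ Module.finrank K (endo ρ) := by
    rw [he]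
    apply orderOf_dvd_of_pow_eq_one
    rw [← Nat.cast_pow, ← Module.natCard_eq_pow_finrank (K := K)]
    haveI := Fintype.ofFinite (endo ρ)
    have hne : (⟨ρ b, hzD⟩ : endo ρ) ≠ 0 := fun e => by
      rw [e, orderOf_zero] at hord
      exact (Fact.out : p.Prime).ne_zero hord.symm
    have h1 : p ∣ Fintype.card (endo ρ) - 1 :=
      hord ▸ orderOf_dvd_of_pow_eq_one (FiniteField.pow_card_sub_one_eq_one _ hne)
    rw [Nat.card_eq_fintype_card, ← Nat.cast_one, ZMod.natCast_eq_natCast_iff]
    exact ((Nat.modEq_iff_dvd' Fintype.card_pos).2 h1).symm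
  have hfpos : 0 < Module.finrank K (endo ρ) := Module.finrank_pos
  have hele : e ≤ Module.finrank K (endo ρ) := Nat.le_of_dvd hfpos hdvd
  have hmul := Module.finrank_mul_finrank K (endo ρ) V
  have hm0 : 0 < Module.finrank (endo ρ) V := Module.finrank_pos
  have he0 : 0 < e := by
    rcases Nat.eq_zero_or_pos e with h | h
    · rw [h, zero_dvd_iff] at hdvd; omega
    · exact h
  refine ⟨?_, fun hne => ?_⟩
  · let σ : P →* Module.End (endo ρ) V :=
      { toFun := fun h =>
          { toFun := ρ h
            map_add' := map_add _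
            map_smul' := fun c v => by
              exact LinearMap.congr_fun ((Subalgebra.mem_centralizer_iff K).1 c.2 (ρ h) ⟨h, rfl⟩) v }
        map_one' := LinearMap.ext fun v => by simp
        map_mul' := fun h k => LinearMap.ext fun v => by simp [map_mul] }
    have hpD : (p : endo ρ) ≠ 0 := by
      rw [← map_natCast (algebraMap K (endo ρ))]
      exact (map_ne_zero (algebraMap K (endo ρ))).2 hpK
    have h2 := derivedSeries_le_ker _ hpP (endo ρ) hpD V σ le_rfl
    have hle : Module.finrank (endo ρ) V ≤ n / e := by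
      rw [Nat.le_div_iff_mul_le he0, mul_comm]
      exact le_trans (Nat.mul_le_mul_right _ hele) (hmul ▸ hn)
    intro x hx
    have h3 := h2 (derivedSeries_mono (Nat.succ_le_succ (Nat.log_mono_right hle)) hx)
    exact MonoidHom.mem_ker.2 (LinearMap.ext fun v => LinearMap.congr_fun (MonoidHom.mem_ker.1 h3) v)
  · exfalso
    have := Nat.le_mul_of_pos_right (Module.finrank K (endo ρ)) hm0
    omega

end Cfsg.Agent.H91.DerivedLength
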