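import Cfsg.Agent.H91.Small.FreeOverComplement
import Cfsg.Agent.H86.LinearDerived
import Cfsg.Agent.S0065
import Mathlib

/-!
Modules without kernel fixed points over a Frobenius group are free over the complement.
-/

set_option maxHeartbeats 800000

namespace Cfsg.Agent.H91.FreeModule

open Module

universe v

variable {k : Type*} [Field k] {A : Type*} [Group A]

/-- A fixed point free conjugation makes every element a twisted commutator. -/
theorem exists_twisted [Finite A] {Fk L : Subgroup A} [L.Normal] (hLF : L ≤ Fk) {h : A}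
    (hfpf : ∀ x ∈ Fk, h * x = x * h → x = 1) {x : A} (hx : x ∈ L) :
    ∃ c ∈ L, x = c⁻¹ * (h * c * h⁻¹) := by
  let g : L → L := fun c => ⟨c.1⁻¹ * (h * c.1 * h⁻¹), L.mul_mem (L.inv_mem c.2) (‹L.Normal›.conj_mem _ c.2 _)⟩
  have hg : Function.Injective g := by
    intro c d hcd
    have h1 : c.1⁻¹ * (h * c.1 * h⁻¹) = d.1⁻¹ * (h * d.1 * h⁻¹) := congrArg Subtype.val hcd
    have h2 : h * (d.1 * c.1⁻¹) = (d.1 * c.1⁻¹) * h := by
      calc h * (d.1 * c.1⁻¹) = d.1 * (d.1⁻¹ * (h * d.1 * h⁻¹)) * h * c.1⁻¹ := by group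
        _ = d.1 * (c.1⁻¹ * (h * c.1 * h⁻¹)) * h * c.1⁻¹ := by rw [h1]
        _ = (d.1 * c.1⁻¹) * h := by group
    exact Subtype.ext (mul_inv_eq_one.1 (hfpf _ (hLF (L.mul_mem d.2 (L.inv_mem c.2))) h2)).symm
  obtain ⟨c, hc⟩ := (Finite.injective_iff_surjective.1 hg) ⟨x, hx⟩
  exact ⟨c, c.2, (congrArg Subtype.val hc).symm⟩

variable {V : Type*} [AddCommGroup V] [Module k V] [FiniteDimensional k V]

/-- Restriction of a representation to an invariant subspace. -/
def subRep (ρ : Representation k A V) (U : Submodule k V) (hU : ∀ a, ∀ v ∈ U, ρ a v ∈ U) :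
    Representation k A U where
  toFun a := (ρ a).restrict (hU a)
  map_one' := by ext v; simp [LinearMap.restrict_apply]
  map_mul' a b := by ext v; simp [LinearMap.restrict_apply]

omit [FiniteDimensional k V] in
theorem subRep_apply (ρ : Representation k A V) (U : Submodule k V) (hU : ∀ a, ∀ v ∈ U, ρ a v ∈ U)
    (a : A) (v : U) : ((subRep ρ U hU a) v : V) = ρ a v := rfl

/-- Freeness is additive. -/
theorem isFree_of_compl {H : Type*} [Group H] (σ : Representation k H V) (U₁ U₂ : Submodule k V)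
    (h₁ : ∀ a, ∀ v ∈ U₁, σ a v ∈ U₁) (h₂ : ∀ a, ∀ v ∈ U₂, σ a v ∈ U₂) (hc : IsCompl U₁ U₂)
    (f₁ : IsFree (subRep σ U₁ h₁)) (f₂ : IsFree (subRep σ U₂ h₂)) : IsFree σ := by
  obtain ⟨W₁, s₁, d₁⟩ := f₁
  obtain ⟨W₂, s₂, d₂⟩ := f₂
  have key : ∀ (U : Submodule k V) (hU : ∀ a, ∀ v ∈ U, σ a v ∈ U) (W : Submodule k U),
      (⨆ h, W.map (subRep σ U hU h)) = ⊤ → (⨆ h, (W.map U.subtype).map (σ h)) = U := by
    intro U hU W hW
    have e : ∀ h, (W.map U.subtype).map (σ h) = (W.map (subRep σ U hU h)).map U.subtype := by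
      intro h
      rw [← Submodule.map_comp, ← Submodule.map_comp]
      rfl
    simp only [e]
    rw [← Submodule.map_iSup, hW, Submodule.map_subtype_top]
  refine ⟨W₁.map U₁.subtype ⊔ W₂.map U₂.subtype, ?_, ?_⟩
  · simp only [Submodule.map_sup]
    rw [iSup_sup_eq, key U₁ h₁ W₁ s₁, key U₂ h₂ W₂ s₂, hc.sup_eq_top]
  · have e : finrank k U₁ + finrank k U₂ = finrank k V := Submodule.finrank_add_eq_of_isCompl hc
    rw [← e]
    refine le_trans ?_ (Nat.add_le_add d₁ d₂)
    rw [← Nat.mul_add]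
    exact Nat.mul_le_mul_left _ ((Submodule.finrank_add_le_finrank_add_finrank _ _).trans
      (Nat.add_le_add (Submodule.finrank_map_le _ _) (Submodule.finrank_map_le _ _)))

omit [FiniteDimensional k V] in
/-- A finite nilpotent group of automorphisms without fixed vectors has a central element of
prime order invertible in the field. -/
theorem exists_central_element [Nontrivial V] [FiniteDimensional k V] {G : Subgroup (End k V)ˣ} [Finite G]
    [Group.IsNilpotent G] (hfix : ∀ v, (∀ g ∈ G, (g : End k V) v = v) → v = 0) :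
    ∃ (r : ℕ) (z : G), r.Prime ∧ (r : k) ≠ 0 ∧ z ≠ 1 ∧ z ^ r = 1 ∧ z ∈ Subgroup.center G := by
  classical
  obtain ⟨r, hr, hrd, hr0⟩ : ∃ r, r.Prime ∧ r ∣ Nat.card G ∧ (r : k) ≠ 0 := by
    by_contra hcon
    push Not at hcon
    obtain ⟨v, hv⟩ := exists_ne (0 : V)
    by_cases h1 : Nat.card G = 1
    · refine hv (hfix v fun g hg => ?_)
      haveI := (Nat.card_eq_one_iff_unique.1 h1).1
      rw [show g = 1 from congrArg Subtype.val (Subsingleton.elim (⟨g, hg⟩ : G) 1)]
      rfl
    obtain ⟨l, hl, hld⟩ := Nat.exists_prime_and_dvd h1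
    have hchar : ∀ r : ℕ, r.Prime → (r : k) = 0 → ringChar k = r := by
      intro r hr h0
      refine ((Nat.dvd_prime hr).1 (ringChar.dvd h0)).resolve_left ?_
      exact CharP.ringChar_ne_one
    haveI : CharP k l := ringChar.of_eq (hchar l hl (hcon l hl hld))
    haveI : Fact l.Prime := ⟨hl⟩
    have hp : IsPGroup l G := IsPGroup.of_card (n := (Nat.card G).primeFactorsList.length)
      (Nat.eq_prime_pow_of_unique_prime_dvd Nat.card_pos.ne' fun {d} hd hdd => by
        rw [← hchar d hd (hcon d hd hdd), ← hchar l hl (hcon l hl hld)])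
    obtain ⟨x, hx, hxf⟩ := H86.exists_fixed_vector (K := k) hp ((Units.coeHom (End k V)).comp G.subtype)
    exact hx (hfix x fun g hg => hxf ⟨g, hg⟩)
  haveI : Fact r.Prime := ⟨hr⟩
  obtain P : Sylow r G := default
  haveI : (P : Subgroup G).Normal :=
    ((Group.isNilpotent_of_finite_tfae (G := G)).out 0 3 rfl rfl).1 inferInstance r inferInstance P
  have hP : (P : Subgroup G) ≠ ⊥ := P.ne_bot_of_dvd_card hrd
  have hne := S0065.result (P : Subgroup G) hP
  have hp' : IsPGroup r ((P : Subgroup G) ⊓ Subgroup.center G : Subgroup G) := P.2.to_le inf_le_left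
  obtain ⟨n, hn⟩ := IsPGroup.iff_card.1 hp'
  have hdvd : r ∣ Nat.card ((P : Subgroup G) ⊓ Subgroup.center G : Subgroup G) := by
    rcases n with _ | n
    · exact absurd ((Subgroup.card_eq_one).1 (by simpa using hn)) hne
    · rw [hn]; exact dvd_pow_self r (Nat.succ_ne_zero n)
  obtain ⟨z, hz⟩ := exists_prime_orderOf_dvd_card' r hdvd
  refine ⟨r, z.1, hr, hr0, fun h => ?_, ?_, z.2.2⟩
  · rw [show z = 1 from Subtype.ext h, orderOf_one] at hz
    exact hr.one_lt.ne hz
  · have h1 : z ^ r = 1 := by conv_lhs => arg 2; rw [← hz]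
                              exact pow_orderOf_eq_one z
    exact congrArg Subtype.val h1

/-- The main induction. -/
theorem isFree_main [Finite A] (Hc Fk : Subgroup A) [Fk.Normal] (hnil : Group.IsNilpotent Fk)
    (hfpf : ∀ h ∈ Hc, h ≠ 1 → ∀ x ∈ Fk, h * x = x * h → x = 1) :
    ∀ (n : ℕ) (V : Type v) [AddCommGroup V] [Module k V] [FiniteDimensional k V] (ρ : Representation k A V),
      finrank k V = n → (∀ v, (∀ f ∈ Fk, ρ f v = v) → v = 0) → IsFree (ρ.comp Hc.subtype) := by
  intro n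
  induction n using Nat.strong_induction_on with
  | _ n ih =>
  intro V _ _ _ ρ hn hfix
  classical
  rcases subsingleton_or_nontrivial V with hV | hV
  · exact ⟨⊥, Subsingleton.elim _ _, by simp⟩
  let u : A →* (End k V)ˣ := MonoidHom.toHomUnits ρ
  have hu : ∀ a, (u a : End k V) = ρ a := fun a => rfl
  let f : Fk →* (End k V)ˣ := u.comp Fk.subtype
  haveI := hnil
  haveI : Group.IsNilpotent f.range := Group.nilpotent_of_surjective f.rangeRestrict f.rangeRestrict_surjective
  haveI : Finite f.range := Finite.of_surjective _ f.rangeRestrict_surjective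
  obtain ⟨r, z, hr, hr0, hz1, hzr, hzc⟩ := exists_central_element (G := f.range) (fun v hv =>
    hfix v fun x hx => hv _ ⟨⟨x, hx⟩, rfl⟩)
  let L : Subgroup A :=
    { carrier := {x | x ∈ Fk ∧ u x ^ r = 1 ∧ ∀ y ∈ Fk, Commute (u x) (u y)}
      one_mem' := ⟨Fk.one_mem, by rw [map_one, one_pow], fun y _ => by rw [map_one]; exact Commute.one_left _⟩
      mul_mem' := by
        rintro x y ⟨hx, hxr, hxc⟩ ⟨hy, hyr, hyc⟩
        refine ⟨Fk.mul_mem hx hy, ?_, fun w hw => ?_⟩
        · rw [map_mul, (hxc y hy).mul_pow, hxr, hyr, one_mul]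
        · rw [map_mul]; exact (hxc w hw).mul_left (hyc w hw)
      inv_mem' := by
        rintro x ⟨hx, hxr, hxc⟩
        exact ⟨Fk.inv_mem hx, by rw [map_inv, inv_pow, hxr, inv_one], fun w hw => by
          rw [map_inv]; exact (hxc w hw).inv_left⟩ }
  have hLF : L ≤ Fk := fun x hx => hx.1
  haveI hLn : L.Normal := ⟨by
    rintro x ⟨hx, hxr, hxc⟩ g
    refine ⟨‹Fk.Normal›.conj_mem x hx g, ?_, fun y hy => ?_⟩
    · rw [map_mul, map_mul, map_inv, conj_pow, hxr, mul_one, mul_inv_cancel]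
    · have h' : Commute (u x) ((u g)⁻¹ * u y * u g) := by
        simpa using hxc (g⁻¹ * y * g) (by simpa using ‹Fk.Normal›.conj_mem y hy g⁻¹)
      have := h'.map (MulAut.conj (u g))
      rw [MulAut.conj_apply, MulAut.conj_apply,
        show u g * ((u g)⁻¹ * u y * u g) * (u g)⁻¹ = u y by group] at this
      rw [map_mul, map_mul, map_inv]
      exact this⟩
  let S : Subgroup (End k V)ˣ := L.map u
  have hSc : ∀ s ∈ S, ∀ t ∈ S, s * t = t * s := by
    rintro _ ⟨x, hx, rfl⟩ _ ⟨y, hy, rfl⟩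
    exact (hx.2.2 y hy.1).eq
  letI : CommGroup S := { (inferInstance : Group S) with
    mul_comm := fun s t => Subtype.ext (hSc s s.2 t t.2) }
  haveI : Finite S := Finite.of_surjective (fun x : L => (⟨u x.1, x.1, x.2, rfl⟩ : S)) (by
    rintro ⟨_, x, hx, rfl⟩; exact ⟨⟨x, hx⟩, rfl⟩)
  haveI := Fintype.ofFinite S
  have hSr : ∀ s : S, s ^ r = 1 := by
    rintro ⟨_, x, hx, rfl⟩
    exact Subtype.ext hx.2.1
  haveI : Fact r.Prime := ⟨hr⟩
  have hScard : (Nat.card S : k) ≠ 0 := by
    obtain ⟨m, hm⟩ := IsPGroup.iff_card.1 (show IsPGroup r S from fun s => ⟨1, by rw [pow_one]; exact hSr s⟩)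
    rw [hm, Nat.cast_pow]
    exact pow_ne_zero m hr0
  -- conjugation
  have hconj : ∀ (a : A) (s : (End k V)ˣ), s ∈ S → u a * s * (u a)⁻¹ ∈ S := by
    rintro a _ ⟨x, hx, rfl⟩
    exact ⟨a * x * a⁻¹, hLn.conj_mem x hx a, by rw [map_mul, map_mul, map_inv]⟩
  let cj : A → S → S := fun a s => ⟨u a * s.1 * (u a)⁻¹, hconj a s s.2⟩
  have hcj : ∀ a (s : S) (v : V), ρ a ((s.1 : End k V) v) = ((cj a s).1 : End k V) (ρ a v) := by
    intro a s v
    have e : (u a * s.1 * (u a)⁻¹) * u a = u a * s.1 := by group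
    have := congrArg (fun w : (End k V)ˣ => (w : End k V) v) e
    simp only [Units.val_mul, End.mul_apply, hu] at this
    exact this.symm
  have hcjbij : ∀ a, Function.Bijective (cj a) := fun a =>
    Finite.injective_iff_bijective.1 fun s t hst => Subtype.ext (by simpa [cj] using congrArg Subtype.val hst)
  -- decomposition
  let V₁ : Submodule k V := ⨅ s : S, LinearMap.eqLocus (s.1 : End k V) LinearMap.id
  have hV₁ : ∀ v, v ∈ V₁ ↔ ∀ s : S, (s.1 : End k V) v = v := fun v => by simp [V₁, Submodule.mem_iInf]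
  let T : End k V := ∑ s : S, (s.1 : End k V)
  let V₂ : Submodule k V := LinearMap.ker T
  have hTρ : ∀ a v, ρ a (T v) = T (ρ a v) := by
    intro a v
    simp only [T, LinearMap.sum_apply, map_sum]
    exact Fintype.sum_bijective (cj a) (hcjbij a) _ _ fun s => hcj a s v
  have h₁inv : ∀ a, ∀ v ∈ V₁, ρ a v ∈ V₁ := by
    intro a v hv
    rw [hV₁] at hv ⊢
    intro s
    obtain ⟨t, rfl⟩ := (hcjbij a).2 s
    rw [← hcj, hv t]
  have h₂inv : ∀ a, ∀ v ∈ V₂, ρ a v ∈ V₂ := by
    intro a v hv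
    rw [LinearMap.mem_ker] at hv ⊢
    rw [← hTρ, hv, map_zero]
  have hT₁ : ∀ v ∈ V₁, T v = (Nat.card S : k) • v := by
    intro v hv
    simp only [T, LinearMap.sum_apply]
    rw [Finset.sum_congr rfl fun s _ => (hV₁ v).1 hv s, Finset.sum_const, Finset.card_univ,
      Nat.card_eq_fintype_card, Nat.cast_smul_eq_nsmul]
  have hTmem : ∀ v, T v ∈ V₁ := by
    intro v
    rw [hV₁]
    intro s
    simp only [T, LinearMap.sum_apply, map_sum]
    exact Fintype.sum_equiv (Equiv.mulLeft s) _ _ fun t => by simp [End.mul_apply]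
  have hcompl : IsCompl V₁ V₂ := by
    constructor
    · rw [Submodule.disjoint_def]
      intro v h1 h2
      have := hT₁ v h1
      rw [LinearMap.mem_ker.1 h2] at this
      exact (smul_eq_zero.1 this.symm).resolve_left hScard
    · rw [codisjoint_iff, eq_top_iff]
      intro v _
      have h1 : (Nat.card S : k)⁻¹ • T v ∈ V₁ := V₁.smul_mem _ (hTmem v)
      have h2 : v - (Nat.card S : k)⁻¹ • T v ∈ V₂ := by
        rw [LinearMap.mem_ker, map_sub, map_smul, hT₁ _ (hTmem v), inv_smul_smul₀ hScard, sub_self]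
      simpa using Submodule.add_mem_sup h1 h2
  refine isFree_of_compl (ρ.comp Hc.subtype) V₁ V₂ (fun a => h₁inv a) (fun a => h₂inv a) hcompl ?_ ?_
  · have hlt : finrank k V₁ < n := by
      rw [← hn]
      refine Submodule.finrank_lt fun htop => ?_
      obtain ⟨⟨_, hx⟩, rfl⟩ : ∃ w : f.range, w = z := ⟨z, rfl⟩
      obtain ⟨x, rfl⟩ := hx
      apply hz1
      have hxL : x.1 ∈ L := ⟨x.2, congrArg Subtype.val hzr, fun y hy =>
        (congrArg Subtype.val (Subgroup.mem_center_iff.1 hzc ⟨f ⟨y, hy⟩, _, rfl⟩)).symm⟩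
      refine Subtype.ext (Units.ext (LinearMap.ext fun v => ?_))
      exact (hV₁ v).1 (htop ▸ Submodule.mem_top) ⟨u x.1, x.1, hxL, rfl⟩
    exact ih _ hlt V₁ (subRep ρ V₁ h₁inv) rfl fun v hv =>
      Subtype.ext (hfix v fun g hg => congrArg Subtype.val (hv g hg))
  · let τ : Representation k S V₂ :=
      { toFun := fun s => (s.1 : End k V).restrict (p := V₂) (q := V₂) (by
          obtain ⟨_, x, hx, rfl⟩ := s
          exact h₂inv x)
        map_one' := by ext v; rfl
        map_mul' := fun s t => by ext v; rfl }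
    let α : Hc →* MulAut S :=
      { toFun := fun h =>
          { Equiv.ofBijective (cj (h : A)) (hcjbij _) with
            map_mul' := fun s t => Subtype.ext (by
              show u (h : A) * (s.1 * t.1) * (u (h : A))⁻¹ =
                (u (h : A) * s.1 * (u (h : A))⁻¹) * (u (h : A) * t.1 * (u (h : A))⁻¹)
              group) }
        map_one' := MulEquiv.ext fun s => Subtype.ext (by
          show u ((1 : Hc) : A) * s.1 * (u ((1 : Hc) : A))⁻¹ = s.1
          simp)
        map_mul' := fun a b => MulEquiv.ext fun s => Subtype.ext (by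
          show u ((a * b : Hc) : A) * s.1 * (u ((a * b : Hc) : A))⁻¹ =
            u (a : A) * (u (b : A) * s.1 * (u (b : A))⁻¹) * (u (a : A))⁻¹
          rw [Subgroup.coe_mul, map_mul]
          group) }
    refine isFree_of_abelian (subRep (ρ.comp Hc.subtype) V₂ fun a => h₂inv a) τ α ?_ hScard ?_ ?_
    · intro h b v
      exact Subtype.ext (hcj h b v)
    · rintro h hne ⟨_, x, hx, rfl⟩
      obtain ⟨c, hc, hxc⟩ := exists_twisted hLF (h := (h : A))
        (hfpf h h.2 fun e => hne (Subtype.ext e)) hx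
      refine ⟨⟨u c, c, hc, rfl⟩, Subtype.ext ?_⟩
      show u x = (u c)⁻¹ * (u (h : A) * u c * (u (h : A))⁻¹)
      rw [hxc, map_mul, map_mul, map_mul, map_inv, map_inv]
    · intro v hv
      have h1 : (v : V) ∈ V₁ := (hV₁ _).2 fun s => congrArg Subtype.val (hv s)
      exact Subtype.ext ((Submodule.disjoint_def.1 hcompl.disjoint) _ h1 v.2)

end Cfsg.Agent.H91.FreeModule
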