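import Cfsg.Agent.H91.Small.FreeOverComplement
import Cfsg.Agent.H86.LinearDerived
import Mathlib

/-!
Fixed points of a Sylow 2-subgroup on a module over the field with two elements which is a sum of
fixed spaces of maximal subgroups of a normal abelian subgroup of odd order.
-/

set_option maxHeartbeats 800000

namespace Cfsg.Agent.H91.LinesFixed

open Module

/-- Fixed points of a large subgroup in a free module. -/
theorem le_finrank_fixed {k U H B : Type*} [Field k] [AddCommGroup U] [Module k U]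
    [FiniteDimensional k U] [Nontrivial U] [Group H] [Finite H] [CommGroup B] [Finite B]
    (σ : Representation k H U) (τ : Representation k B U) (α : H →* MulAut B)
    (hcompat : ∀ h b v, σ h (τ b v) = τ (α h b) (σ h v)) (hB : (Nat.card B : k) ≠ 0)
    (hfpf : ∀ h : H, h ≠ 1 → ∀ b, ∃ c, b = c⁻¹ * α h c)
    (hfix : ∀ v, (∀ b, τ b v = v) → v = 0) (P : Subgroup H) :
    P.index ≤ finrank k (⨅ g : P, LinearMap.eqLocus (σ (g : H)) LinearMap.id : Submodule k U) := by
  classical
  obtain ⟨W, hsup, hdim⟩ := FreeModule.isFree_of_abelian σ τ α hcompat hB hfpf hfix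
  haveI := Fintype.ofFinite H
  haveI := Fintype.ofFinite (H ⧸ P)
  have hW : 1 ≤ finrank k W := by
    by_contra hcon
    have : W = ⊥ := Submodule.finrank_eq_zero.1 (by omega)
    rw [this] at hsup
    simp only [Submodule.map_bot, iSup_bot] at hsup
    exact bot_ne_top hsup
  let Φ : (H → W) →ₗ[k] U :=
    { toFun := fun g => ∑ h, σ h (g h : U)
      map_add' := fun f g => by simp [Finset.sum_add_distrib]
      map_smul' := fun c g => by simp [Finset.smul_sum] }
  have hsurj : Function.Surjective Φ := by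
    rw [← LinearMap.range_eq_top, eq_top_iff, ← hsup]
    refine iSup_le fun h => ?_
    rintro _ ⟨w, hw, rfl⟩
    refine ⟨Pi.single h ⟨w, hw⟩, ?_⟩
    show ∑ h', σ h' ((Pi.single h (⟨w, hw⟩ : W) : H → W) h' : U) = σ h w
    rw [Finset.sum_eq_single h (fun h' _ hne => by rw [Pi.single_eq_of_ne hne]; simp)
      (fun hh => absurd (Finset.mem_univ h) hh), Pi.single_eq_same]
  have hinj : Function.Injective Φ := by
    refine (LinearMap.injective_iff_surjective_of_finrank_eq_finrank (le_antisymm ?_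
      (LinearMap.finrank_le_finrank_of_surjective hsurj))).2 hsurj
    rw [Module.finrank_pi_fintype, Finset.sum_const, Finset.card_univ, smul_eq_mul, ← Nat.card_eq_fintype_card]
    exact hdim
  let ext : (H ⧸ P → W) →ₗ[k] (H → W) :=
    { toFun := fun f y => f ((y⁻¹ : H) : H ⧸ P)
      map_add' := fun _ _ => rfl
      map_smul' := fun _ _ => rfl }
  have hext : Function.Injective ext := fun f g hfg => funext fun c => by
    obtain ⟨y, rfl⟩ := QuotientGroup.mk_surjective c
    simpa [ext] using congrFun hfg y⁻¹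
  let Ψ := (Φ.comp ext).codRestrict (⨅ g : P, LinearMap.eqLocus (σ (g : H)) LinearMap.id) (fun f => by
    simp only [Submodule.mem_iInf, LinearMap.mem_eqLocus, LinearMap.id_coe, id_eq]
    intro g
    show σ (g : H) (∑ h, σ h (ext f h : U)) = ∑ h, σ h (ext f h : U)
    rw [map_sum]
    refine Fintype.sum_equiv (Equiv.mulLeft (g : H)) _ _ fun h => ?_
    rw [Equiv.coe_mulLeft, map_mul, End.mul_apply]
    congr 3
    show f ((h⁻¹ : H) : H ⧸ P) = f ((((g : H) * h)⁻¹ : H) : H ⧸ P)
    rw [mul_inv_rev, QuotientGroup.mk_mul_of_mem _ (P.inv_mem g.2)])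
  have := LinearMap.finrank_le_finrank_of_injective (f := Ψ) (fun f g hfg =>
    hext (hinj (congrArg Subtype.val hfg)))
  rw [Module.finrank_pi_fintype, Finset.sum_const, Finset.card_univ, smul_eq_mul, ← Nat.card_eq_fintype_card,
    ← Subgroup.index_eq_card] at this
  exact le_trans (Nat.le_mul_of_pos_right _ hW) this

variable {S : Type*} [Group S] {E : Type*} [AddCommGroup E] [Module (ZMod 2) E]
variable (ρ : Representation (ZMod 2) S E)

/-- The fixed points of a subgroup. -/
def fixedSub (L : Subgroup S) : Submodule (ZMod 2) E :=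
  ⨅ g : L, LinearMap.eqLocus (ρ (g : S)) LinearMap.id

theorem mem_fixedSub {L : Subgroup S} {v : E} : v ∈ fixedSub ρ L ↔ ∀ g ∈ L, ρ g v = v := by
  simp [fixedSub, Submodule.mem_iInf]

/-- The sum over the elements of a subgroup. -/
noncomputable def proj [Finite S] (L : Subgroup S) : End (ZMod 2) E :=
  ∑ g ∈ (L : Set S).toFinite.toFinset, ρ g

variable [Finite S]

theorem proj_mem (L : Subgroup S) (v : E) : proj ρ L v ∈ fixedSub ρ L := by
  rw [mem_fixedSub]
  intro g hg
  simp only [proj, LinearMap.sum_apply, map_sum]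
  refine Finset.sum_nbij' (fun l => g * l) (fun l => g⁻¹ * l) ?_ ?_ ?_ ?_ ?_
  · intro l hl; simp only [Set.Finite.mem_toFinset, SetLike.mem_coe] at hl ⊢; exact L.mul_mem hg hl
  · intro l hl; simp only [Set.Finite.mem_toFinset, SetLike.mem_coe] at hl ⊢; exact L.mul_mem (L.inv_mem hg) hl
  · intro l _; simp
  · intro l _; simp
  · intro l _; rw [map_mul, End.mul_apply]

theorem proj_of_fixed {L : Subgroup S} (hodd : Odd (Nat.card L)) {v : E} (hv : v ∈ fixedSub ρ L) :
    proj ρ L v = v := by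
  simp only [proj, LinearMap.sum_apply]
  rw [Finset.sum_congr rfl fun l hl => (mem_fixedSub ρ).1 hv l (by simpa using hl), Finset.sum_const,
    ← Set.ncard_eq_toFinset_card, ← Nat.card_coe_set_eq]
  simp only [SetLike.coe_sort_coe]
  rw [← Nat.cast_smul_eq_nsmul (ZMod 2), ZMod.natCast_eq_one_iff_odd.2 hodd, one_smul]

theorem mem_map_conj {L : Subgroup S} {g x : S} :
    x ∈ L.map (MulAut.conj g).toMonoidHom ↔ g⁻¹ * x * g ∈ L := by
  constructor
  · rintro ⟨l, hl, rfl⟩
    show g⁻¹ * (g * l * g⁻¹) * g ∈ L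
    simpa [mul_assoc] using hl
  · intro h
    exact ⟨_, h, by show g * (g⁻¹ * x * g) * g⁻¹ = x; group⟩

theorem proj_conj (L : Subgroup S) (g : S) (v : E) :
    ρ g (proj ρ L v) = proj ρ (L.map (MulAut.conj g).toMonoidHom) (ρ g v) := by
  simp only [proj, LinearMap.sum_apply, map_sum]
  refine Finset.sum_nbij' (fun l => g * l * g⁻¹) (fun l => g⁻¹ * l * g) ?_ ?_ ?_ ?_ ?_
  · intro l hl
    simp only [Set.Finite.mem_toFinset, SetLike.mem_coe] at hl ⊢
    rw [mem_map_conj]; simpa [mul_assoc] using hl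
  · intro l hl
    simp only [Set.Finite.mem_toFinset, SetLike.mem_coe] at hl ⊢
    exact mem_map_conj.1 hl
  · intro l _; group
  · intro l _; group
  · intro l _; rw [← End.mul_apply, ← map_mul, ← End.mul_apply, ← map_mul, inv_mul_cancel_right]

/-- A maximal subgroup of the distinguished abelian subgroup. -/
def IsLine (Sp : Subgroup S) (p : ℕ) (L : Subgroup S) : Prop :=
  L ≤ Sp ∧ Nat.card L * p = Nat.card Sp

omit [Finite S] in
theorem IsLine.conj {Sp L : Subgroup S} [Sp.Normal] {p : ℕ} (h : IsLine Sp p L) (g : S) :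
    IsLine Sp p (L.map (MulAut.conj g).toMonoidHom) := by
  refine ⟨?_, ?_⟩
  · rintro _ ⟨l, hl, rfl⟩
    exact ‹Sp.Normal›.conj_mem l (h.1 hl) g
  · rw [Subgroup.card_map_of_injective (MulAut.conj g).injective]; exact h.2

theorem proj_kill {Sp L M : Subgroup S} {p : ℕ} (hp : p.Prime) (hL : IsLine Sp p L) (hM : IsLine Sp p M)
    (hne : L ≠ M) (hcomm : ∀ a ∈ Sp, ∀ b ∈ Sp, a * b = b * a)
    (hSp0 : ∀ v, (∀ a ∈ Sp, ρ a v = v) → v = 0) {v : E} (hv : v ∈ fixedSub ρ M) : proj ρ L v = 0 := by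
  refine hSp0 _ fun a ha => ?_
  let X : Subgroup S :=
    { carrier := {a | ρ a (proj ρ L v) = proj ρ L v}
      one_mem' := by simp
      mul_mem' := fun {a b} ha hb => by
        show ρ (a * b) _ = _
        rw [map_mul, End.mul_apply, hb, ha]
      inv_mem' := fun {a} ha => by
        show ρ a⁻¹ _ = _
        conv_lhs => rw [← show ρ a (proj ρ L v) = proj ρ L v from ha]
        rw [← End.mul_apply, ← map_mul, inv_mul_cancel, map_one, End.one_apply] }
  have hLX : L ≤ X := fun a ha => (mem_fixedSub ρ).1 (proj_mem ρ L v) a ha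
  have hMX : M ≤ X := by
    intro a ha
    show ρ a (proj ρ L v) = proj ρ L v
    rw [proj_conj]
    have e : L.map (MulAut.conj a).toMonoidHom = L := by
      ext x
      rw [mem_map_conj]
      constructor <;> intro hx
      · have hxSp : x ∈ Sp := by
          have h1 := Sp.mul_mem (Sp.mul_mem (hM.1 ha) (hL.1 hx)) (Sp.inv_mem (hM.1 ha))
          simpa [mul_assoc] using h1
        rwa [mul_assoc, hcomm x hxSp a (hM.1 ha), inv_mul_cancel_left] at hx
      · rwa [mul_assoc, hcomm x (hL.1 hx) a (hM.1 ha), inv_mul_cancel_left]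
    rw [e, (mem_fixedSub ρ).1 hv a ha]
  have hle : L ⊔ M ≤ Sp := sup_le hL.1 hM.1
  have hlt : L < L ⊔ M := by
    refine lt_of_le_of_ne le_sup_left fun h => hne ?_
    have hML : M ≤ L := h ▸ le_sup_right
    refine (Subgroup.eq_of_le_of_card_ge hML (le_of_eq ?_)).symm
    exact Nat.eq_of_mul_eq_mul_right hp.pos (hL.2.trans hM.2.symm)
  obtain ⟨c, hc⟩ := Subgroup.card_dvd_of_le (le_of_lt hlt)
  obtain ⟨d, hd⟩ := Subgroup.card_dvd_of_le hle
  have hcd : c * d = p := by
    have : Nat.card L * (c * d) = Nat.card L * p := by rw [hL.2, hd, hc, mul_assoc]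
    exact Nat.eq_of_mul_eq_mul_left Nat.card_pos this
  have hc1 : c ≠ 1 := by
    intro h1
    rw [h1, mul_one] at hc
    exact hlt.ne (Subgroup.eq_of_le_of_card_ge hlt.le (le_of_eq hc))
  have hd1 : d = 1 := by
    rcases (Nat.dvd_prime hp).1 (hcd ▸ Dvd.intro_left c rfl : d ∣ p) with h | h
    · exact h
    · exfalso
      rw [h] at hcd
      exact hc1 (Nat.eq_of_mul_eq_mul_right hp.pos (by rw [hcd, one_mul]))
  rw [hd1, mul_one] at hd
  exact (sup_le hLX hMX) ((Subgroup.eq_of_le_of_card_ge hle (le_of_eq hd)) ▸ ha)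

/-- Some line has a nonzero projection. -/
theorem exists_line {Sp : Subgroup S} {p : ℕ} (hp : p.Prime) (hp2 : p ≠ 2)
    (hcomm : ∀ a ∈ Sp, ∀ b ∈ Sp, a * b = b * a) (hexp : ∀ a ∈ Sp, a ^ p = 1)
    (hcard : Nat.card Sp = p ∨ Nat.card Sp = p ^ 2)
    (hSp0 : ∀ v, (∀ a ∈ Sp, ρ a v = v) → v = 0) {v : E} (hv : v ≠ 0) :
    ∃ L, IsLine Sp p L ∧ proj ρ L v ≠ 0 := by
  classical
  haveI : Fact p.Prime := ⟨hp⟩
  by_contra hcon
  push Not at hcon
  rcases hcard with h1 | h2
  · apply hv
    rw [← proj_of_fixed ρ (L := ⊥) (v := v) (by simp) (by rw [mem_fixedSub]; intro g hg; rw [Subgroup.mem_bot.1 hg, map_one, End.one_apply])]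
    exact hcon ⊥ ⟨bot_le, by rw [Subgroup.card_bot, h1, one_mul]⟩
  · have hzl : ∀ s ∈ Sp, s ≠ 1 → ∀ w : E, proj ρ (Subgroup.zpowers s) w =
        ∑ i ∈ Finset.range p, ρ (s ^ i) w := by
      intro s hs hs1 w
      have ho : orderOf s = p := orderOf_eq_prime (hexp s hs) hs1
      simp only [proj, LinearMap.sum_apply]
      refine (Finset.sum_nbij (fun i => s ^ i) ?_ ?_ ?_ (fun i _ => rfl)).symm
      · intro i _; simp [Subgroup.npow_mem_zpowers]
      · intro i hi j hj hij
        simp only [Finset.coe_range, Set.mem_Iio] at hi hj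
        exact pow_injOn_Iio_orderOf (by rw [ho]; exact hi) (by rw [ho]; exact hj) hij
      · intro y hy
        simp only [Set.Finite.coe_toFinset, SetLike.mem_coe] at hy
        obtain ⟨i, rfl⟩ := (isOfFinOrder_of_finite s).mem_powers_iff_mem_zpowers.2 hy
        exact ⟨i % p, by simp [Nat.mod_lt _ hp.pos], by rw [← ho]; exact pow_mod_orderOf s i⟩
    have hline : ∀ s ∈ Sp, s ≠ 1 → IsLine Sp p (Subgroup.zpowers s) := by
      intro s hs hs1
      refine ⟨Subgroup.zpowers_le.2 hs, ?_⟩
      rw [Nat.card_zpowers, orderOf_eq_prime (hexp s hs) hs1, h2, pow_two]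
    obtain ⟨a, ha, ha1⟩ := Sp.ne_bot_iff_exists_ne_one.1 (fun h => by
      rw [h, Subgroup.card_bot] at h2
      exact absurd h2.symm (Nat.one_lt_pow two_ne_zero hp.one_lt).ne')  |> fun ⟨a, ha⟩ =>
        (⟨a.1, a.2, fun h => ha (Subtype.ext h)⟩ : ∃ a, a ∈ Sp ∧ a ≠ 1)
    obtain ⟨b, hb, hbn⟩ : ∃ b ∈ Sp, b ∉ Subgroup.zpowers a := by
      by_contra hc
      push Not at hc
      have := Nat.le_of_dvd Nat.card_pos (Subgroup.card_dvd_of_le (show Sp ≤ Subgroup.zpowers a from hc))
      rw [Nat.card_zpowers, orderOf_eq_prime (hexp a ha) ha1, h2] at this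
      nlinarith [hp.two_le]
    have hab : ∀ j : ℕ, a ^ j * b ∈ Sp ∧ a ^ j * b ≠ 1 := fun j => ⟨Sp.mul_mem (Sp.pow_mem ha j) hb, fun h => hbn (by
      rw [eq_inv_of_mul_eq_one_right h]; exact Subgroup.inv_mem _ (Subgroup.npow_mem_zpowers a j))⟩
    have hsum : ∑ j ∈ Finset.range p, proj ρ (Subgroup.zpowers (a ^ j * b)) v = v := by
      rw [Finset.sum_congr rfl fun j _ => hzl _ (hab j).1 (hab j).2 v, Finset.sum_comm,
        Finset.sum_eq_single 0]
      · simp only [pow_zero, map_one, End.one_apply, Finset.sum_const, Finset.card_range]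
        rw [← Nat.cast_smul_eq_nsmul (ZMod 2), ZMod.natCast_eq_one_iff_odd.2 (hp.odd_of_ne_two hp2), one_smul]
      · intro i hi hi0
        simp only [Finset.mem_range] at hi
        have hai : a ^ i ∈ Sp ∧ a ^ i ≠ 1 := ⟨Sp.pow_mem ha i, pow_ne_one_of_lt_orderOf hi0
          (by rw [orderOf_eq_prime (hexp a ha) ha1]; exact hi)⟩
        have he : (Subgroup.zpowers (a ^ i)).map (MulAut.conj (b ^ i)).toMonoidHom = Subgroup.zpowers (a ^ i) := by
          rw [MonoidHom.map_zpowers]
          congr 1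
          show b ^ i * a ^ i * (b ^ i)⁻¹ = a ^ i
          rw [hcomm _ (Sp.pow_mem hb i) _ (Sp.pow_mem ha i), mul_inv_cancel_right]
        have := proj_conj ρ (Subgroup.zpowers (a ^ i)) (b ^ i) v
        rw [he, hcon _ (hline _ hai.1 hai.2), map_zero, hzl _ hai.1 hai.2] at this
        replace this := this.symm
        refine Eq.trans (Finset.sum_congr rfl fun j _ => ?_) this
        rw [(show Commute (a ^ j) b from hcomm _ (Sp.pow_mem ha j) _ hb).mul_pow, map_mul, End.mul_apply,
          ← pow_mul, ← pow_mul, mul_comm]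
      · intro h; exact absurd (Finset.mem_range.2 hp.pos) h
    exact hv (hsum.symm.trans (Finset.sum_eq_zero fun j _ => hcon _ (hline _ (hab j).1 (hab j).2)))

end Cfsg.Agent.H91.LinesFixed
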