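import Cfsg.Agent.H91.Small.LinesFixed
import Mathlib

/-!
The number of fixed points of a 2-subgroup acting with a normal abelian subgroup of odd order on a
module over the field with two elements.
-/

set_option maxHeartbeats 800000

namespace Cfsg.Agent.H91.LinesFixed

open Module

variable {S : Type*} [Group S] [Finite S] {E : Type*} [AddCommGroup E] [Module (ZMod 2) E] [Finite E]
variable (ρ : Representation (ZMod 2) S E)

/-- The conjugate of a subgroup. -/
def act (g : S) (L : Subgroup S) : Subgroup S := L.map (MulAut.conj g).toMonoidHom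

omit [Finite S] in
theorem act_mul (g h : S) (L : Subgroup S) : act (g * h) L = act g (act h L) := by
  rw [act, act, act, Subgroup.map_map, map_mul]
  rfl

omit [Finite S] in
theorem act_one (L : Subgroup S) : act 1 L = L := by
  rw [act, map_one]
  exact Subgroup.map_id L

omit [Finite S] in
theorem act_inv_act (g : S) (L : Subgroup S) : act g⁻¹ (act g L) = L := by
  rw [← act_mul, inv_mul_cancel, act_one]

/-- The stabiliser of `L` in `T`. -/
def stabIn (T : Subgroup S) (L : Subgroup S) : Subgroup T where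
  carrier := {t | act (t : S) L = L}
  one_mem' := act_one L
  mul_mem' {a b} ha hb := by
    show act ((a * b : T) : S) L = L
    rw [Subgroup.coe_mul, act_mul, show act (b : S) L = L from hb, show act (a : S) L = L from ha]
  inv_mem' {a} ha := by
    show act ((a⁻¹ : T) : S) L = L
    conv_lhs => rw [← show act (a : S) L = L from ha]
    rw [InvMemClass.coe_inv, act_inv_act]

/-- The vector fixed by `T` with support the `T`-orbit of `L`. -/
noncomputable def orbVec (T : Subgroup S) (L : Subgroup S) : End (ZMod 2) E :=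
  letI := Fintype.ofFinite (T ⧸ stabIn T L)
  ∑ c : T ⧸ stabIn T L, ρ ((c.out : T) : S)

/-- The vectors of `fixedSub L` fixed by the stabiliser. -/
def stabFixed (T : Subgroup S) (L : Subgroup S) : Submodule (ZMod 2) E :=
  fixedSub ρ L ⊓ ⨅ t : stabIn T L, LinearMap.eqLocus (ρ ((t : T) : S)) LinearMap.id

omit [Finite S] [Finite E] in
theorem mem_stabFixed {T L : Subgroup S} {u : E} :
    u ∈ stabFixed ρ T L ↔ u ∈ fixedSub ρ L ∧ ∀ t ∈ T, act t L = L → ρ t u = u := by
  simp only [stabFixed, Submodule.mem_inf, Submodule.mem_iInf, LinearMap.mem_eqLocus, LinearMap.id_coe,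
    id_eq]
  exact and_congr_right fun _ => ⟨fun h t ht e => h ⟨⟨t, ht⟩, e⟩, fun h t => h _ t.1.2 t.2⟩

omit [Finite E] in
theorem orbVec_fixed {T L : Subgroup S} {u : E} (hu : u ∈ stabFixed ρ T L) {t : S} (ht : t ∈ T) :
    ρ t (orbVec ρ T L u) = orbVec ρ T L u := by
  letI := Fintype.ofFinite (T ⧸ stabIn T L)
  simp only [orbVec, LinearMap.sum_apply, map_sum]
  refine Fintype.sum_equiv (MulAction.toPerm (⟨t, ht⟩ : T)) _ _ fun c => ?_
  show ρ t (ρ ((c.out : T) : S) u) = ρ ((((⟨t, ht⟩ : T) • c).out : T) : S) u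
  have hc : ((⟨t, ht⟩ : T) • c) = (((⟨t, ht⟩ : T) * c.out : T) : T ⧸ stabIn T L) := by
    conv_lhs => rw [← Quotient.out_eq c]
    rfl
  obtain ⟨n, hn⟩ := QuotientGroup.mk_out_eq_mul (stabIn T L) ((⟨t, ht⟩ : T) * c.out)
  rw [hc, hn]
  simp only [Subgroup.coe_mul, map_mul, End.mul_apply]
  rw [((mem_stabFixed ρ).1 hu).2 ((n : T) : S) (n : T).2 n.2]

omit [Finite E] in
theorem proj_orbVec {Sp T L M : Subgroup S} [Sp.Normal] {p : ℕ} (hp : p.Prime) (hL : IsLine Sp p L)
    (hM : IsLine Sp p M) (hcomm : ∀ a ∈ Sp, ∀ b ∈ Sp, a * b = b * a)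
    (hSp0 : ∀ v, (∀ a ∈ Sp, ρ a v = v) → v = 0) (hodd : Odd (Nat.card Sp))
    {u : E} (hu : u ∈ stabFixed ρ T L) :
    (∀ t ∈ T, act t L = M → proj ρ M (orbVec ρ T L u) = ρ t u) ∧
      ((∀ t ∈ T, act t L ≠ M) → proj ρ M (orbVec ρ T L u) = 0) := by
  classical
  letI := Fintype.ofFinite (T ⧸ stabIn T L)
  have hterm : ∀ s : S, proj ρ M (ρ s u) = if act s L = M then ρ s u else 0 := by
    intro s
    have hfix : ρ s u ∈ fixedSub ρ (act s L) := by
      rw [mem_fixedSub]
      intro g hg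
      have h1 := (mem_fixedSub ρ).1 ((mem_stabFixed ρ).1 hu).1 _ (mem_map_conj.1 hg)
      calc ρ g (ρ s u) = ρ s (ρ (s⁻¹ * g * s) u) := by
            rw [← End.mul_apply, ← map_mul, ← End.mul_apply, ← map_mul]; congr 2; group
        _ = ρ s u := by rw [h1]
    split_ifs with h
    · rw [h] at hfix
      exact proj_of_fixed ρ (hodd.of_dvd_nat (Subgroup.card_dvd_of_le hM.1)) hfix
    · exact proj_kill ρ hp hM (hL.conj s) (Ne.symm h) hcomm hSp0 hfix
  have hexp : proj ρ M (orbVec ρ T L u) =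
      ∑ c : T ⧸ stabIn T L, if act ((c.out : T) : S) L = M then ρ ((c.out : T) : S) u else 0 := by
    simp only [orbVec, LinearMap.sum_apply, map_sum, hterm]
  constructor
  · intro t ht htM
    rw [hexp, Finset.sum_eq_single (((⟨t, ht⟩ : T)) : T ⧸ stabIn T L)]
    · obtain ⟨n, hn⟩ := QuotientGroup.mk_out_eq_mul (stabIn T L) (⟨t, ht⟩ : T)
      rw [hn, if_pos]
      · rw [Subgroup.coe_mul, map_mul, End.mul_apply, ((mem_stabFixed ρ).1 hu).2 _ (n : T).2 n.2]
      · rw [Subgroup.coe_mul, act_mul, show act ((n : T) : S) L = L from n.2]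
        exact htM
    · intro c _ hc
      rw [if_neg]
      intro h
      apply hc
      rw [← QuotientGroup.out_eq' c, QuotientGroup.eq]
      show act ((((c.out : T))⁻¹ * ⟨t, ht⟩ : T) : S) L = L
      rw [Subgroup.coe_mul, act_mul, InvMemClass.coe_inv, htM, ← h, act_inv_act]
    · intro h; exact absurd (Finset.mem_univ _) h
  · intro h
    rw [hexp]
    exact Finset.sum_eq_zero fun c _ => if_neg (h _ (c.out : T).2)

/-- Counting fixed points. -/
theorem card_fixed (p q : ℕ) [Fact p.Prime] [Fact q.Prime] (hp2 : p ≠ 2) (hq2 : q ≠ 2)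
    (Sp T : Subgroup S) [Sp.Normal] (hcomm : ∀ a ∈ Sp, ∀ b ∈ Sp, a * b = b * a)
    (hexp : ∀ a ∈ Sp, a ^ p = 1) (hcard : Nat.card Sp = p ∨ Nat.card Sp = p ^ 2)
    (hSp0 : ∀ v, (∀ a ∈ Sp, ρ a v = v) → v = 0) [Nontrivial E]
    (H Sq : Subgroup S) (hSq : Nat.card Sq = q) (hTH : T ≤ H) (hqH : Sq ≤ H)
    (hT : IsPGroup 2 T) (hH : Nat.card H = Nat.card T * q)
    (hmove : ∀ L, IsLine Sp p L → ∀ x ∈ Sq, x ≠ 1 → ∃ a ∈ Sp, x * a * x⁻¹ * a⁻¹ ∉ L) :
    8 ≤ Nat.card {v : E // ∀ s ∈ T, ρ s v = v} ∨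
      (Nat.card {v : E // ∀ s ∈ T, ρ s v = v} = 4 ∧
        ∃ x ∈ Sq, ∃ v : E, (∀ s ∈ T, ρ s v = v) ∧ ¬ ∀ s ∈ T, ρ s (ρ x v) = ρ x v) := by
  classical
  have hp := (Fact.out : p.Prime)
  have hq := (Fact.out : q.Prime)
  have hodd : Odd (Nat.card Sp) := by
    rcases hcard with h | h <;> rw [h] <;> [exact hp.odd_of_ne_two hp2; exact (hp.odd_of_ne_two hp2).pow]
  obtain ⟨a2, ha2⟩ := IsPGroup.iff_card.1 hT
  have hqT : ¬ q ∣ 2 ^ a2 := fun h => hq2 ((Nat.prime_dvd_prime_iff_eq hq Nat.prime_two).1 (hq.dvd_of_dvd_pow h))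
  let F : Submodule (ZMod 2) E := fixedSub ρ T
  have hF : Nat.card {v : E // ∀ s ∈ T, ρ s v = v} = 2 ^ finrank (ZMod 2) F := by
    rw [← Nat.card_congr (Equiv.subtypeEquivRight (fun v => mem_fixedSub ρ) : F ≃ _),
      Module.natCard_eq_pow_finrank (K := ZMod 2), Nat.card_zmod]
  obtain ⟨x, hxS, hx1⟩ := Sq.ne_bot_iff_exists_ne_one.1 (fun h => by
    rw [h, Subgroup.card_bot] at hSq
    exact hq.one_lt.ne hSq) |> fun ⟨x, hx⟩ =>
      (⟨x.1, x.2, fun h => hx (Subtype.ext h)⟩ : ∃ x, x ∈ Sq ∧ x ≠ 1)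
  have hxo : orderOf x = q := by
    have := orderOf_dvd_natCard (⟨x, hxS⟩ : Sq)
    rw [hSq, Subgroup.orderOf_mk] at this
    exact ((Nat.dvd_prime hq).1 this).resolve_left (orderOf_eq_one_iff.not.2 hx1)
  have hfixC : ∀ (X : Subgroup S) (L : Subgroup S), IsPGroup 2 X → (∀ g ∈ X, act g L = L) →
      ∀ v ∈ fixedSub ρ L, v ≠ 0 → ∃ u ∈ fixedSub ρ L, u ≠ 0 ∧ ∀ g ∈ X, ρ g u = u := by
    intro X L hX hXL v hv hv0
    haveI : Nontrivial (fixedSub ρ L) := ⟨⟨⟨v, hv⟩, 0, fun h => hv0 (congrArg Subtype.val h)⟩⟩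
    obtain ⟨⟨u, huL⟩, hu0, huX⟩ := H86.exists_fixed_vector (K := ZMod 2) hX
      (H86.restrictRep (ρ.comp X.subtype) (fixedSub ρ L) (fun g w hw => by
        rw [mem_fixedSub] at hw ⊢
        intro l hl
        rw [← hXL g g.2] at hl
        show ρ l (ρ (g : S) w) = ρ (g : S) w
        calc ρ l (ρ (g : S) w) = ρ (g : S) (ρ ((g : S)⁻¹ * l * g) w) := by
              rw [← End.mul_apply, ← map_mul, ← End.mul_apply, ← map_mul]; congr 2; group
          _ = ρ (g : S) w := by rw [hw _ (mem_map_conj.1 hl)]))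
    exact ⟨u, huL, fun h => hu0 (Subtype.ext h), fun g hg => congrArg Subtype.val (huX ⟨g, hg⟩)⟩
  have hinjorb : ∀ L, IsLine Sp p L → ∀ u ∈ stabFixed ρ T L, proj ρ L (orbVec ρ T L u) = u := by
    intro L hL u hu
    rw [(proj_orbVec ρ hp hL hL hcomm hSp0 hodd hu).1 1 T.one_mem (act_one L), map_one, End.one_apply]
  by_cases hA : ∃ L, IsLine Sp p L ∧ fixedSub ρ L ≠ ⊥ ∧ act x L = L
  · -- the element of order q fixes a line
    obtain ⟨L, hL, hL0, hxL⟩ := hA
    left
    obtain ⟨v, hv, hv0⟩ := Submodule.exists_mem_ne_zero_of_ne_bot hL0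
    let N : Subgroup S :=
      { carrier := {g | g ∈ H ∧ act g L = L}
        one_mem' := ⟨H.one_mem, act_one L⟩
        mul_mem' := fun {a b} ha hb => ⟨H.mul_mem ha.1 hb.1, by rw [act_mul, hb.2, ha.2]⟩
        inv_mem' := fun {a} ha => ⟨H.inv_mem ha.1, by
          conv_lhs => rw [← ha.2]
          rw [act_inv_act]⟩ }
    let xN : N := ⟨x, hqH hxS, hxL⟩
    let L' : Subgroup Sp := L.subgroupOf Sp
    letI : CommGroup Sp := { (inferInstance : Group Sp) with
      mul_comm := fun a b => Subtype.ext (hcomm a a.2 b b.2) }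
    let B := Sp ⧸ L'
    have hBcard : Nat.card B = p := by
      have h1 := L'.card_mul_index
      rw [Nat.card_congr (Subgroup.subgroupOfEquivOfLe hL.1).toEquiv, ← hL.2, Subgroup.index_eq_card] at h1
      exact Nat.eq_of_mul_eq_mul_left Nat.card_pos h1
    have hmapL : ∀ n : N, L'.map (MulAut.conjNormal (n : S) : MulAut Sp).toMonoidHom = L' := by
      intro n
      ext a
      simp only [Subgroup.mem_map, MulEquiv.coe_toMonoidHom, L', Subgroup.mem_subgroupOf]
      constructor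
      · rintro ⟨b, hb, rfl⟩
        rw [MulAut.conjNormal_apply]
        have h1 : (n : S) * b * (n : S)⁻¹ ∈ act (n : S) L := ⟨b, hb, rfl⟩
        rwa [n.2.2] at h1
      · intro ha
        refine ⟨(MulAut.conjNormal (n : S) : MulAut Sp).symm a, ?_, MulEquiv.apply_symm_apply _ _⟩
        rw [MulAut.conjNormal_symm_apply]
        rw [← n.2.2] at ha
        exact mem_map_conj.1 ha
    let α₀ : N →* MulAut B :=
      { toFun := fun n => QuotientGroup.congr L' L' (MulAut.conjNormal (n : S)) (hmapL n)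
        map_one' := MulEquiv.ext fun b => by
          obtain ⟨a, rfl⟩ := QuotientGroup.mk_surjective b
          simp
        map_mul' := fun m n => MulEquiv.ext fun b => by
          obtain ⟨a, rfl⟩ := QuotientGroup.mk_surjective b
          simp [MulAut.mul_apply]
          rfl }
    have hα₀ : ∀ (n : N) (a : Sp), α₀ n (a : B) = ((MulAut.conjNormal (n : S) a : Sp) : B) := fun n a => rfl
    let K := α₀.ker
    have hxK : xN ∉ K := by
      intro h
      obtain ⟨a, ha, hna⟩ := hmove L hL x hxS hx1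
      apply hna
      have h1 := congrArg (fun f : MulAut B => f ((⟨a, ha⟩ : Sp) : B)) (MonoidHom.mem_ker.1 h)
      simp only [hα₀, MulAut.one_apply] at h1
      have h2 := (QuotientGroup.eq_iff_div_mem).1 h1
      rw [Subgroup.mem_subgroupOf] at h2
      simpa [div_eq_mul_inv, MulAut.conjNormal_apply, xN] using h2
    haveI : Finite N := inferInstance
    have hqidx : q ∣ K.index := by
      have h1 : orderOf (xN : N ⧸ K) = q := by
        refine orderOf_eq_prime ?_ (fun h => hxK ((QuotientGroup.eq_one_iff xN).1 h))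
        rw [← QuotientGroup.mk_pow, QuotientGroup.eq_one_iff]
        have : xN ^ q = 1 := Subtype.ext (by rw [← hxo]; exact pow_orderOf_eq_one x)
        rw [this]; exact K.one_mem
      rw [Subgroup.index_eq_card, ← h1]
      exact orderOf_dvd_natCard _
    have hNdvd : Nat.card N ∣ 2 ^ a2 * q := by
      rw [← ha2, ← hH]
      exact Subgroup.card_dvd_of_le (fun g hg => hg.1)
    have hK2 : IsPGroup 2 (K.map N.subtype) := by
      obtain ⟨c, hc⟩ := hqidx
      have h1 : Nat.card K * c * q ∣ 2 ^ a2 * q := by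
        rw [mul_assoc, mul_comm c q, ← hc, Subgroup.card_mul_index]
        exact hNdvd
      obtain ⟨b, -, hb⟩ := (Nat.dvd_prime_pow Nat.prime_two).1
        ((Dvd.intro c rfl).trans (Nat.dvd_of_mul_dvd_mul_right hq.pos h1))
      exact (IsPGroup.of_card hb).map _
    obtain ⟨u₀, hu₀, hu₀0, hu₀K⟩ := hfixC (K.map N.subtype) L hK2
      (by rintro _ ⟨n, -, rfl⟩; exact n.2.2) v hv hv0
    let U : Submodule (ZMod 2) E := fixedSub ρ L ⊓ fixedSub ρ (K.map N.subtype)
    haveI : Nontrivial U := ⟨⟨⟨u₀, hu₀, (mem_fixedSub ρ).2 hu₀K⟩, 0, fun h => hu₀0 (congrArg Subtype.val h)⟩⟩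
    have hUmem : ∀ w, w ∈ U ↔ (∀ l ∈ L, ρ l w = w) ∧ ∀ k ∈ K, ρ ((k : N) : S) w = w := by
      intro w
      rw [Submodule.mem_inf, mem_fixedSub, mem_fixedSub]
      exact and_congr_right fun _ => ⟨fun h k hk => h _ ⟨k, hk, rfl⟩, by rintro h _ ⟨k, hk, rfl⟩; exact h k hk⟩
    have hρc : ∀ (g h : S) (w : E), ρ h (ρ g w) = ρ g (ρ (g⁻¹ * h * g) w) := fun g h w => by
      rw [← End.mul_apply, ← map_mul, ← End.mul_apply, ← map_mul]; congr 2; group
    have hUN : ∀ n : N, ∀ w ∈ U, ρ (n : S) w ∈ U := by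
      intro n w hw
      rw [hUmem] at hw ⊢
      refine ⟨fun l hl => ?_, fun k hk => ?_⟩
      · rw [← n.2.2] at hl
        rw [hρc, hw.1 _ (mem_map_conj.1 hl)]
      · rw [hρc, show (n : S)⁻¹ * (k : S) * (n : S) = ((n⁻¹ * k * n : N) : S) from rfl]
        rw [hw.2 _ (by simpa using (inferInstance : K.Normal).conj_mem k hk n⁻¹)]
    have hUSp : ∀ a : Sp, ∀ w ∈ U, ρ (a : S) w ∈ U := by
      intro a w hw
      rw [hUmem] at hw ⊢
      refine ⟨fun l hl => ?_, fun k hk => ?_⟩
      · rw [hρc, mul_assoc, hcomm l (hL.1 hl) a a.2, inv_mul_cancel_left, hw.1 l hl]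
      · have h1 := congrArg (fun f : MulAut B => f (a : B)) (MonoidHom.mem_ker.1 hk)
        simp only [hα₀, MulAut.one_apply] at h1
        have h2 : (a : S)⁻¹ * ((k : S) * a * (k : S)⁻¹) ∈ L := by
          have := (QuotientGroup.eq).1 h1.symm
          rwa [Subgroup.mem_subgroupOf] at this
        have e : (k : S) * (a : S) = (a : S) * ((a : S)⁻¹ * ((k : S) * a * (k : S)⁻¹)) * (k : S) := by group
        rw [← End.mul_apply, ← map_mul, e, map_mul, map_mul, End.mul_apply, End.mul_apply, hw.2 k hk,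
          hw.1 _ h2]
    let σ₀ : N →* End (ZMod 2) U := H86.restrictRep (ρ.comp N.subtype) U hUN
    let σ : Representation (ZMod 2) (N ⧸ K) U := QuotientGroup.lift K σ₀ (fun k hk => by
      rw [MonoidHom.mem_ker]
      exact LinearMap.ext fun w => Subtype.ext ((hUmem _).1 w.2 |>.2 k hk))
    let τ₀ : Sp →* End (ZMod 2) U := H86.restrictRep (ρ.comp Sp.subtype) U hUSp
    let τ : Representation (ZMod 2) B U := QuotientGroup.lift L' τ₀ (fun a ha => by
      rw [MonoidHom.mem_ker]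
      exact LinearMap.ext fun w => Subtype.ext ((hUmem _).1 w.2 |>.1 a ha))
    let α : N ⧸ K →* MulAut B := QuotientGroup.kerLift α₀
    let P : Subgroup (N ⧸ K) := (T.subgroupOf N).map (QuotientGroup.mk' K)
    haveI : Finite B := inferInstance
    have hcore : P.index ≤ finrank (ZMod 2) (⨅ g : P, LinearMap.eqLocus (σ (g : N ⧸ K)) LinearMap.id : Submodule (ZMod 2) U) := by
      refine le_finrank_fixed σ τ α ?_ ?_ ?_ ?_ P
      · intro h b w
        obtain ⟨n, rfl⟩ := QuotientGroup.mk_surjective h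
        obtain ⟨a, rfl⟩ := QuotientGroup.mk_surjective b
        refine Subtype.ext ?_
        show ρ (n : S) (ρ (a : S) w) = ρ ((n : S) * a * (n : S)⁻¹) (ρ (n : S) w)
        rw [← End.mul_apply, ← map_mul, ← End.mul_apply, ← map_mul, inv_mul_cancel_right]
      · rw [hBcard, ZMod.natCast_eq_one_iff_odd.2 (hp.odd_of_ne_two hp2)]
        exact one_ne_zero
      · intro h hh
        have hne : α h ≠ 1 := fun e => hh (QuotientGroup.kerLift_injective α₀ (by rw [map_one]; exact e))
        let g : B →* B :=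
          { toFun := fun c => c⁻¹ * α h c
            map_one' := by simp
            map_mul' := fun c d => by rw [map_mul, mul_inv, mul_mul_mul_comm] }
        have hker : g.ker = ⊥ := by
          haveI : Fact (Nat.card B).Prime := ⟨by rw [hBcard]; exact hp⟩
          refine ((g.ker).eq_bot_or_eq_top_of_prime_card).resolve_right fun htop => hne (MulEquiv.ext fun c => ?_)
          have : c ∈ g.ker := htop ▸ Subgroup.mem_top c
          exact (inv_mul_eq_one.1 (MonoidHom.mem_ker.1 this)).symm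
        intro b
        obtain ⟨c, hc⟩ := Finite.injective_iff_surjective.1 ((MonoidHom.ker_eq_bot_iff g).1 hker) b
        exact ⟨c, hc.symm⟩
      · intro w hw
        refine Subtype.ext (hSp0 _ fun a ha => ?_)
        exact congrArg Subtype.val (hw ((⟨a, ha⟩ : Sp) : B))
    have hPidx : q ∣ P.index := by
      have h1 : (Nat.card P).Coprime q := by
        refine Nat.Coprime.symm (hq.coprime_iff_not_dvd.2 fun h => hqT ?_)
        refine h.trans ?_
        refine (Subgroup.card_map_dvd _ _).trans ?_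
        refine Subgroup.card_dvd_of_injective ((N.subtype.comp (T.subgroupOf N).subtype).codRestrict T
          fun t => t.2) (fun s t hst => Subtype.ext (Subtype.ext (show ((s : N) : S) = (t : N) from congrArg (fun z : T => (z : S)) hst))) |>.trans ?_
        rw [ha2]
      refine h1.symm.dvd_of_dvd_mul_left ?_
      rw [Subgroup.card_mul_index, ← Subgroup.index_eq_card]
      exact hqidx
    let U' : Submodule (ZMod 2) U := ⨅ g : P, LinearMap.eqLocus (σ (g : N ⧸ K)) LinearMap.id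
    have hU' : ∀ w : U', (w : U).1 ∈ stabFixed ρ T L := by
      intro w
      refine (mem_stabFixed ρ).2 ⟨(mem_fixedSub ρ).2 ((hUmem _).1 (w : U).2).1, fun t ht htL => ?_⟩
      have h1 := Submodule.mem_iInf _ |>.1 w.2 ⟨((⟨t, hTH ht, htL⟩ : N) : N ⧸ K), ⟨t, hTH ht, htL⟩, ht, rfl⟩
      exact congrArg Subtype.val h1
    let Ψ := ((orbVec ρ T L).comp (U.subtype.comp U'.subtype)).codRestrict F
      (fun w => (mem_fixedSub ρ).2 fun t ht => orbVec_fixed ρ (hU' w) ht)
    have hΨ : Function.Injective Ψ := by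
      intro w w' h
      have h1 := congrArg (fun z : F => proj ρ L (z : E)) h
      simp only [Ψ, LinearMap.codRestrict_apply, LinearMap.comp_apply] at h1
      rw [Submodule.subtype_apply, Submodule.subtype_apply, hinjorb L hL _ (hU' w), Submodule.subtype_apply,
        Submodule.subtype_apply, hinjorb L hL _ (hU' w')] at h1
      exact Subtype.ext (Subtype.ext h1)
    have hge : 3 ≤ finrank (ZMod 2) F := by
      refine le_trans ?_ (hcore.trans (LinearMap.finrank_le_finrank_of_injective hΨ))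
      refine le_trans ?_ (Nat.le_of_dvd (Nat.pos_of_ne_zero Subgroup.index_ne_zero_of_finite) hPidx)
      have := hq.two_le
      omega
    rw [hF]
    exact le_trans (by norm_num) (Nat.pow_le_pow_right two_pos hge)
  -- every line with fixed points is moved
  push Not at hA
  obtain ⟨v, hv⟩ := exists_ne (0 : E)
  let Supp : Set (Subgroup S) := {M | IsLine Sp p M ∧ fixedSub ρ M ≠ ⊥}
  have hSuppact : ∀ g : S, ∀ M ∈ Supp, act g M ∈ Supp := by
    rintro g M ⟨hM, hM0⟩
    refine ⟨hM.conj g, fun h => hM0 (eq_bot_iff.2 fun w hw => ?_)⟩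
    have h1 : ρ g w ∈ fixedSub ρ (act g M) := by
      rw [mem_fixedSub]
      intro l hl
      calc ρ l (ρ g w) = ρ g (ρ (g⁻¹ * l * g) w) := by
            rw [← End.mul_apply, ← map_mul, ← End.mul_apply, ← map_mul]; congr 2; group
        _ = ρ g w := by rw [(mem_fixedSub ρ).1 hw _ (mem_map_conj.1 hl)]
    rw [h, Submodule.mem_bot] at h1
    have := congrArg (ρ g⁻¹) h1
    rw [← End.mul_apply, ← map_mul, inv_mul_cancel, map_one, End.one_apply, map_zero] at this
    exact (Submodule.mem_bot _).2 this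
  obtain ⟨L, hL, hL0⟩ : ∃ L, L ∈ Supp ∧ True := by
    obtain ⟨L, hL, hLv⟩ := exists_line ρ hp hp2 hcomm hexp hcard hSp0 hv
    exact ⟨L, ⟨hL, fun h => hLv (by simpa [h] using proj_mem ρ L v)⟩, trivial⟩
  -- an invariant orbit of `T` would have order divisible by `q`
  have horb : ∀ L₁ ∈ Supp, ∃ t ∈ T, ∀ t' ∈ T, act x (act t L₁) ≠ act t' L₁ := by
    intro L₁ hL₁
    by_contra hcon
    push Not at hcon
    let O := {M // ∃ t ∈ T, act t L₁ = M}
    let Z := Subgroup.zpowers x
    have hmem : ∀ (g : S), g ∈ Z → ∀ M : O, ∃ t ∈ T, act t L₁ = act g M.1 := by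
      intro g hg
      obtain ⟨i, rfl⟩ := (isOfFinOrder_of_finite x).mem_powers_iff_mem_zpowers.2 hg
      intro M
      induction i with
      | zero => simpa [act_one] using M.2
      | succ i ih =>
        obtain ⟨t, ht, hte⟩ := ih (Subgroup.npow_mem_zpowers x i)
        obtain ⟨t', ht', hte'⟩ := hcon t ht
        refine ⟨t', ht', ?_⟩
        show act t' L₁ = act (x ^ (i + 1)) M.1
        rw [← hte', hte, pow_succ', act_mul]
    letI : MulAction Z O :=
      { smul := fun g M => ⟨act (g : S) M.1, hmem g g.2 M⟩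
        one_smul := fun M => Subtype.ext (act_one M.1)
        mul_smul := fun g h M => Subtype.ext (act_mul (g : S) h M.1) }
    have hZ : IsPGroup q Z := IsPGroup.of_card (n := 1) (by rw [Nat.card_zpowers, hxo, pow_one])
    have hmod := hZ.card_modEq_card_fixedPoints O
    haveI : IsEmpty (MulAction.fixedPoints Z O) := ⟨fun ⟨⟨M, t, ht, htM⟩, hM⟩ => by
      have h1 := congrArg Subtype.val (hM ⟨x, Subgroup.mem_zpowers x⟩)
      change act x M = M at h1
      refine hA M ?_ ?_ h1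
      · rw [← htM]; exact (hSuppact t L₁ hL₁).1
      · rw [← htM]; exact (hSuppact t L₁ hL₁).2⟩
    rw [Nat.card_of_isEmpty (α := MulAction.fixedPoints Z O), Nat.modEq_zero_iff_dvd] at hmod
    apply hqT
    refine hmod.trans ?_
    let f : T ⧸ stabIn T L₁ → O := fun c => ⟨act ((c.out : T) : S) L₁, _, (c.out : T).2, rfl⟩
    have hf : Function.Bijective f := by
      constructor
      · intro c d hcd
        have h1 : act ((c.out : T) : S) L₁ = act ((d.out : T) : S) L₁ := congrArg Subtype.val hcd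
        rw [← QuotientGroup.out_eq' c, ← QuotientGroup.out_eq' d, QuotientGroup.eq]
        show act ((((c.out : T))⁻¹ * d.out : T) : S) L₁ = L₁
        rw [Subgroup.coe_mul, act_mul, InvMemClass.coe_inv, ← h1, act_inv_act]
      · rintro ⟨M, t, ht, rfl⟩
        refine ⟨((⟨t, ht⟩ : T) : T ⧸ stabIn T L₁), Subtype.ext ?_⟩
        obtain ⟨n, hn⟩ := QuotientGroup.mk_out_eq_mul (stabIn T L₁) (⟨t, ht⟩ : T)
        show act _ L₁ = _
        rw [hn, Subgroup.coe_mul, act_mul, show act ((n : T) : S) L₁ = L₁ from n.2]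
    rw [← Nat.card_eq_of_bijective f hf, ← Subgroup.index_eq_card, ← ha2]
    exact Subgroup.index_dvd_card _
  -- two orbits
  obtain ⟨t₀, ht₀, hmv⟩ := horb L hL
  set L₂ := act x (act t₀ L) with hL₂def
  have hL₂ : L₂ ∈ Supp := hSuppact _ _ (hSuppact _ _ hL)
  have hstab2 : ∀ M, IsPGroup 2 ((stabIn T M).map T.subtype) := fun M => (hT.to_subgroup _).map _
  have hvec : ∀ M ∈ Supp, ∃ u ∈ stabFixed ρ T M, u ≠ 0 := by
    rintro M ⟨hM, hM0⟩
    obtain ⟨w, hw, hw0⟩ := Submodule.exists_mem_ne_zero_of_ne_bot hM0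
    obtain ⟨u, hu, hu0, huf⟩ := hfixC _ M (hstab2 M) (by rintro _ ⟨t, ht, rfl⟩; exact ht) w hw hw0
    exact ⟨u, (mem_stabFixed ρ).2 ⟨hu, fun t ht e => huf t ⟨⟨t, ht⟩, e, rfl⟩⟩, hu0⟩
  obtain ⟨u₁, hu₁, hu₁0⟩ := hvec L hL
  obtain ⟨u₂, hu₂, hu₂0⟩ := hvec L₂ hL₂
  set e₁ := orbVec ρ T L u₁ with he₁
  set e₂ := orbVec ρ T L₂ u₂ with he₂
  have he₁F : e₁ ∈ F := (mem_fixedSub ρ).2 fun t ht => orbVec_fixed ρ hu₁ ht
  have he₂F : e₂ ∈ F := (mem_fixedSub ρ).2 fun t ht => orbVec_fixed ρ hu₂ ht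
  have p11 : proj ρ L e₁ = u₁ := hinjorb L hL.1 u₁ hu₁
  have p22 : proj ρ L₂ e₂ = u₂ := hinjorb L₂ hL₂.1 u₂ hu₂
  have p21 : proj ρ L₂ e₁ = 0 :=
    (proj_orbVec ρ hp hL.1 hL₂.1 hcomm hSp0 hodd hu₁).2 fun t ht h => hmv t ht h.symm
  have p12 : proj ρ L e₂ = 0 :=
    (proj_orbVec ρ hp hL₂.1 hL.1 hcomm hSp0 hodd hu₂).2 fun t ht h =>
      hmv t⁻¹ (T.inv_mem ht) (Eq.trans (act_inv_act t L₂).symm (congrArg (act t⁻¹) h))
  have e₁0 : e₁ ≠ 0 := fun h => hu₁0 (by rw [← p11, h, map_zero])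
  have e₂0 : e₂ ≠ 0 := fun h => hu₂0 (by rw [← p22, h, map_zero])
  have e₁₂ : e₁ ≠ e₂ := fun h => hu₁0 (by rw [← p11, h, p12])
  have e₃0 : e₁ + e₂ ≠ 0 := fun h => hu₁0 (by
    have := congrArg (proj ρ L) h
    rwa [map_add, p11, p12, add_zero, map_zero] at this)
  have hrank : 2 ≤ finrank (ZMod 2) F := by
    let f : (Fin 2 → ZMod 2) →ₗ[ZMod 2] F := Fintype.linearCombination (ZMod 2) ![(⟨e₁, he₁F⟩ : F), ⟨e₂, he₂F⟩]
    have hf : Function.Injective f := by
      rw [injective_iff_map_eq_zero]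
      intro c hc
      have h1 : c 0 • e₁ + c 1 • e₂ = 0 := by
        have := congrArg Subtype.val hc
        simpa [f, Fintype.linearCombination_apply, Fin.sum_univ_two] using this
      have h2 := congrArg (proj ρ L) h1
      rw [map_add, map_smul, map_smul, p11, p12, smul_zero, add_zero, map_zero] at h2
      have h3 := congrArg (proj ρ L₂) h1
      rw [map_add, map_smul, map_smul, p21, p22, smul_zero, zero_add, map_zero] at h3
      funext i
      fin_cases i
      · exact (smul_eq_zero.1 h2).resolve_right hu₁0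
      · exact (smul_eq_zero.1 h3).resolve_right hu₂0
    simpa using LinearMap.finrank_le_finrank_of_injective hf
  rw [hF]
  rcases Nat.lt_or_ge 2 (finrank (ZMod 2) F) with h3 | h3
  · exact Or.inl (le_trans (by norm_num) (Nat.pow_le_pow_right two_pos h3))
  have hr2 : finrank (ZMod 2) F = 2 := le_antisymm h3 hrank
  refine Or.inr ⟨by rw [hr2]; norm_num, ?_⟩
  by_contra hcon
  push Not at hcon
  have hxF : ∀ w ∈ F, ρ x w ∈ F := fun w hw =>
    (mem_fixedSub ρ).2 (hcon x hxS w ((mem_fixedSub ρ).1 hw))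
  have hFelts : ∀ w ∈ F, w = 0 ∨ w = e₁ ∨ w = e₂ ∨ w = e₁ + e₂ := by
    intro w hw
    by_contra hne
    push Not at hne
    have hsub : ((({w, 0, e₁, e₂, e₁ + e₂} : Finset E)) : Set E) ⊆ F := by
      simp only [Finset.coe_insert, Finset.coe_singleton, Set.insert_subset_iff, Set.singleton_subset_iff,
        SetLike.mem_coe]
      exact ⟨hw, F.zero_mem, he₁F, he₂F, F.add_mem he₁F he₂F⟩
    have hc5 : ({w, 0, e₁, e₂, e₁ + e₂} : Finset E).card = 5 := by
      simp [Finset.card_insert_of_notMem, hne.1, hne.2.1, hne.2.2.1, hne.2.2.2, e₁0.symm, e₂0.symm,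
        e₃0.symm, e₁₂, e₁0, e₂0]
    have h5 := Set.ncard_le_ncard hsub (Set.toFinite _)
    rw [Set.ncard_coe_finset, hc5, ← Nat.card_coe_set_eq] at h5
    simp only [SetLike.coe_sort_coe] at h5
    rw [Module.natCard_eq_pow_finrank (K := ZMod 2), Nat.card_zmod, hr2] at h5
    norm_num at h5
  -- supports
  have supp1 : ∀ M, IsLine Sp p M → (proj ρ M e₁ ≠ 0 ↔ ∃ t ∈ T, act t L = M) := by
    intro M hM
    constructor
    · intro h
      by_contra hc
      push Not at hc
      exact h ((proj_orbVec ρ hp hL.1 hM hcomm hSp0 hodd hu₁).2 hc)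
    · rintro ⟨t, ht, h⟩
      rw [he₁, (proj_orbVec ρ hp hL.1 hM hcomm hSp0 hodd hu₁).1 t ht h]
      intro h'
      have := congrArg (ρ t⁻¹) h'
      rw [← End.mul_apply, ← map_mul, inv_mul_cancel, map_one, End.one_apply, map_zero] at this
      exact hu₁0 this
  -- x moves e₁ to e₂ and back
  have hxe : ∀ w, proj ρ L₂ (ρ x w) = ρ x (proj ρ (act t₀ L) w) := fun w => (proj_conj ρ (act t₀ L) x w).symm
  have hx1' : ρ x e₁ ≠ e₁ := by
    intro h
    have h1 := hxe e₁
    rw [h, p21] at h1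
    have h2 : proj ρ (act t₀ L) e₁ = 0 := by
      have := congrArg (ρ x⁻¹) h1.symm
      rwa [← End.mul_apply, ← map_mul, inv_mul_cancel, map_one, End.one_apply, map_zero] at this
    exact ((supp1 _ (hL.1.conj t₀)).2 ⟨t₀, ht₀, rfl⟩) h2
  have hxinj : Function.Injective (ρ x) := Function.LeftInverse.injective (g := ρ x⁻¹) fun w => by
    rw [← End.mul_apply, ← map_mul, inv_mul_cancel, map_one, End.one_apply]
  have hx3 : ∀ w, (ρ x ^ q) w = w := fun w => by
    rw [← map_pow, ← hxo, pow_orderOf_eq_one, map_one, End.one_apply]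
  have hcnt : ∀ w : E, {M | IsLine Sp p M ∧ proj ρ M w ≠ 0}.ncard =
      {M | IsLine Sp p M ∧ proj ρ M (ρ x w) ≠ 0}.ncard := by
    intro w
    refine (Set.ncard_congr (fun M _ => act x M) ?_ ?_ ?_)
    · rintro M ⟨hM, hMw⟩
      refine ⟨hM.conj x, fun h => hMw ?_⟩
      rw [act, ← proj_conj] at h
      exact hxinj (h.trans (map_zero _).symm)
    · intro M M' _ _ hMM
      rw [← act_inv_act x M, hMM, act_inv_act]
    · rintro M ⟨hM, hMw⟩
      refine ⟨act x⁻¹ M, ⟨hM.conj x⁻¹, fun h => hMw ?_⟩, by rw [← act_mul, mul_inv_cancel, act_one]⟩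
      have := proj_conj ρ (act x⁻¹ M) x w
      rw [h, map_zero, show (act x⁻¹ M).map (MulAut.conj x).toMonoidHom = act x (act x⁻¹ M) from rfl,
        ← act_mul, mul_inv_cancel, act_one] at this
      exact this.symm
  have hsupp : {M | IsLine Sp p M ∧ proj ρ M e₁ ≠ 0} ⊂ {M | IsLine Sp p M ∧ proj ρ M (e₁ + e₂) ≠ 0} := by
    refine Set.ssubset_iff_of_subset ?_ |>.2 ⟨L₂, ⟨hL₂.1, by rw [map_add, p21, p22, zero_add]; exact hu₂0⟩,
      fun hmem => hmem.2 p21⟩
    rintro M ⟨hM, hM1⟩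
    refine ⟨hM, ?_⟩
    obtain ⟨t, ht, htM⟩ := (supp1 M hM).1 hM1
    have : proj ρ M e₂ = 0 := (proj_orbVec ρ hp hL₂.1 hM hcomm hSp0 hodd hu₂).2 fun t' ht' h' => by
      refine hmv (t'⁻¹ * t) (T.mul_mem (T.inv_mem ht') ht) ?_
      rw [act_mul, htM, ← h', act_inv_act]
    rw [map_add, this, add_zero]
    exact hM1
  -- the three nonzero fixed vectors are permuted
  rcases hFelts _ (hxF e₁ he₁F) with h | h | h | h
  · exact e₁0 (hxinj (h.trans (map_zero _).symm))
  · exact hx1' h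
  · rcases hFelts _ (hxF e₂ he₂F) with h' | h' | h' | h'
    · exact e₂0 (hxinj (h'.trans (map_zero _).symm))
    · -- a transposition of odd order
      have hstep : ∀ n : ℕ, Odd n → (ρ x ^ n) e₁ = e₂ := by
        rintro n ⟨m, rfl⟩
        induction m with
        | zero => simpa using h
        | succ m ih =>
          rw [show 2 * (m + 1) + 1 = 2 + (2 * m + 1) by ring, pow_add, End.mul_apply, ih, pow_two,
            End.mul_apply, h', h]
      exact e₁₂ ((hx3 e₁).symm.trans (hstep q (hq.odd_of_ne_two hq2)))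
    · exact e₁₂ (hxinj (h.trans h'.symm))
    · -- the support of `x e₂` is that of `e₁ + e₂`
      have hsum : ρ x (e₁ + e₂) = e₁ := by
        rw [map_add, h, h', add_left_comm, ← two_smul (ZMod 2) e₂, show (2 : ZMod 2) = 0 from rfl, zero_smul,
          add_zero]
      have h5 := Set.ncard_lt_ncard hsupp (Set.toFinite _)
      rw [hcnt (e₁ + e₂), hsum] at h5
      exact lt_irrefl _ h5
  · have h5 := Set.ncard_lt_ncard hsupp (Set.toFinite _)
    rw [hcnt e₁, h] at h5
    exact lt_irrefl _ h5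

end Cfsg.Agent.H91.LinesFixed
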