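import Cfsg.Agent.H24.Huppert
import Cfsg.Prelude.Def_CaseTheorems
import Mathlib

/-!
2-groups of sectional rank at most two are metacyclic.
-/

namespace Cfsg.Agent.H91.MetacyclicRank

open scoped commutatorElement

universe u

/-- The hypothesis passes to quotients. -/
theorem sectional_quotient {G : Type*} [Group G] {p k : ℕ} (h : Cfsg.SectionalPRankLE p k G)
    (Z : Subgroup G) [Z.Normal] : Cfsg.SectionalPRankLE p k (G ⧸ Z) := by
  intro H N _ A hA hAp
  let H₀ := H.comap (QuotientGroup.mk' Z)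
  let π : H₀ →* H := ((QuotientGroup.mk' Z).comp H₀.subtype).codRestrict H fun x => x.2
  have hπ : Function.Surjective π := by
    rintro ⟨y, hy⟩
    obtain ⟨x, rfl⟩ := QuotientGroup.mk'_surjective Z y
    exact ⟨⟨x, hy⟩, Subtype.ext rfl⟩
  let φ : H₀ →* H ⧸ N := (QuotientGroup.mk' N).comp π
  have hφ : Function.Surjective φ := (QuotientGroup.mk'_surjective N).comp hπ
  let e : H₀ ⧸ φ.ker ≃* H ⧸ N := QuotientGroup.quotientKerEquivOfSurjective φ hφ
  have := h H₀ φ.ker (A.map e.symm.toMonoidHom) inferInstance (by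
    rintro _ ⟨a, ha, rfl⟩
    rw [← map_pow, hAp a ha, map_one])
  rwa [Subgroup.card_map_of_injective (f := e.symm.toMonoidHom) e.symm.injective] at this

variable {G : Type*} [Group G] [Finite G]

/-- Three commuting elements are dependent modulo squares. -/
theorem exists_relation (h : Cfsg.SectionalPRankLE 2 2 G) {x y z : G} (hxy : Commute x y)
    (hxz : Commute x z) (hyz : Commute y z) :
    ∃ e₁ e₂ e₃ : Fin 2, (e₁ ≠ 0 ∨ e₂ ≠ 0 ∨ e₃ ≠ 0) ∧ ∃ i j k : ℤ,
      x ^ (e₁ : ℕ) * y ^ (e₂ : ℕ) * z ^ (e₃ : ℕ) = (x ^ i * y ^ j * z ^ k) ^ 2 := by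
  classical
  let T : Subgroup G := Subgroup.closure {x, y, z}
  haveI hTc : IsMulCommutative T := by
    refine Subgroup.isMulCommutative_closure ?_
    intro u hu v hv
    simp only [Set.mem_insert_iff, Set.mem_singleton_iff] at hu hv
    rcases hu with rfl | rfl | rfl <;> rcases hv with rfl | rfl | rfl <;>
      first | rfl | exact hxy.eq | exact hxy.eq.symm | exact hxz.eq | exact hxz.eq.symm | exact hyz.eq | exact hyz.eq.symm
  have hform : ∀ u ∈ T, ∃ i j k : ℤ, u = x ^ i * y ^ j * z ^ k := by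
    intro u hu
    induction hu using Subgroup.closure_induction with
    | mem v hv =>
      rcases hv with rfl | rfl | rfl
      · exact ⟨1, 0, 0, by simp⟩
      · exact ⟨0, 1, 0, by simp⟩
      · exact ⟨0, 0, 1, by simp⟩
    | one => exact ⟨0, 0, 0, by simp⟩
    | mul u v _ _ hu hv =>
      obtain ⟨i, j, k, rfl⟩ := hu
      obtain ⟨i', j', k', rfl⟩ := hv
      refine ⟨i + i', j + j', k + k', ?_⟩
      rw [zpow_add, zpow_add, zpow_add]
      have c1 := (hyz.zpow_zpow j' k).symm.eq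
      have c2 := (hxz.zpow_zpow i' k).symm.eq
      have c3 := (hxy.zpow_zpow i' j).symm.eq
      calc x ^ i * y ^ j * z ^ k * (x ^ i' * y ^ j' * z ^ k')
          = x ^ i * (y ^ j * ((z ^ k * x ^ i') * y ^ j')) * z ^ k' := by simp only [mul_assoc]
        _ = x ^ i * ((y ^ j * x ^ i') * (z ^ k * y ^ j')) * z ^ k' := by rw [c2]; simp only [mul_assoc]
        _ = x ^ i * x ^ i' * (y ^ j * y ^ j') * (z ^ k * z ^ k') := by rw [c3, c1]; simp only [mul_assoc]
    | inv u _ hu =>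
      obtain ⟨i, j, k, rfl⟩ := hu
      refine ⟨-i, -j, -k, ?_⟩
      simp only [zpow_neg, mul_inv_rev]
      have c1 : Commute (y ^ j)⁻¹ (z ^ k)⁻¹ := (hyz.zpow_zpow j k).inv_inv
      have c2 : Commute (x ^ i)⁻¹ (z ^ k)⁻¹ := (hxz.zpow_zpow i k).inv_inv
      have c3 : Commute (x ^ i)⁻¹ (y ^ j)⁻¹ := (hxy.zpow_zpow i j).inv_inv
      calc (z ^ k)⁻¹ * ((y ^ j)⁻¹ * (x ^ i)⁻¹) = (z ^ k)⁻¹ * ((x ^ i)⁻¹ * (y ^ j)⁻¹) := by rw [c3.eq]
        _ = _ := by rw [← mul_assoc, ← c2.eq, mul_assoc, ← c1.eq, ← mul_assoc]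
  let N : Subgroup T :=
    { carrier := {u | ∃ v : T, v ^ 2 = u}
      one_mem' := ⟨1, one_pow 2⟩
      mul_mem' := by
        rintro _ _ ⟨u, rfl⟩ ⟨v, rfl⟩
        exact ⟨u * v, (show Commute u v from hTc.1.1 u v).mul_pow 2⟩
      inv_mem' := by
        rintro _ ⟨u, rfl⟩
        exact ⟨u⁻¹, inv_pow u 2⟩ }
  haveI : N.Normal := ⟨fun n hn g => by rw [hTc.1.1 g n, mul_inv_cancel_right]; exact hn⟩
  have hQc : ∀ u v : T ⧸ N, u * v = v * u := by
    intro u v
    obtain ⟨u, rfl⟩ := QuotientGroup.mk_surjective u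
    obtain ⟨v, rfl⟩ := QuotientGroup.mk_surjective v
    rw [← QuotientGroup.mk_mul, ← QuotientGroup.mk_mul, hTc.1.1 u v]
  have hcard := h T N ⊤ ⟨⟨fun u v => Subtype.ext (hQc u v)⟩⟩ (fun u _ => by
    obtain ⟨u, rfl⟩ := QuotientGroup.mk_surjective u
    rw [← QuotientGroup.mk_pow, QuotientGroup.eq_one_iff]
    exact ⟨u, rfl⟩)
  rw [Subgroup.card_top] at hcard
  let F : Fin 2 × Fin 2 × Fin 2 → T ⧸ N := fun e =>
    ((⟨x ^ (e.1 : ℕ) * y ^ (e.2.1 : ℕ) * z ^ (e.2.2 : ℕ),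
      T.mul_mem (T.mul_mem (T.pow_mem (Subgroup.subset_closure (by simp)) _)
        (T.pow_mem (Subgroup.subset_closure (by simp)) _)) (T.pow_mem (Subgroup.subset_closure (by simp)) _)⟩ : T) : T ⧸ N)
  obtain ⟨e, e', hne, he⟩ : ∃ e e', e ≠ e' ∧ F e = F e' := by
    by_contra hcon
    push Not at hcon
    have hinj : Function.Injective F := fun a b hab => by
      by_contra hne; exact hcon a b hne hab
    have := (Nat.card_le_card_of_injective F hinj).trans hcard
    rw [Nat.card_prod, Nat.card_prod, Nat.card_fin] at this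
    omega
  obtain ⟨v, hv⟩ := (QuotientGroup.eq).1 he
  obtain ⟨i, j, k, hijk⟩ := hform v v.2
  refine ⟨e'.1 - e.1, e'.2.1 - e.2.1, e'.2.2 - e.2.2, ?_, ?_⟩
  · by_contra hcon
    push Not at hcon
    exact hne (Prod.ext (sub_eq_zero.1 hcon.1).symm (Prod.ext (sub_eq_zero.1 hcon.2.1).symm (sub_eq_zero.1 hcon.2.2).symm))
  obtain ⟨e₁, e₂, e₃⟩ := e
  obtain ⟨f₁, f₂, f₃⟩ := e'
  -- signs disappear modulo squares
  have key : ∀ (w : G) (a b : Fin 2), ∃ m : ℤ, (w ^ (a : ℕ))⁻¹ * w ^ (b : ℕ) = w ^ ((b - a : Fin 2) : ℕ) * (w ^ m) ^ 2 := by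
    intro w a b
    fin_cases a <;> fin_cases b
    · exact ⟨0, by simp⟩
    · exact ⟨0, by simp⟩
    · refine ⟨-1, ?_⟩
      show (w ^ 1)⁻¹ * w ^ 0 = w ^ 1 * (w ^ (-1 : ℤ)) ^ 2
      group
    · exact ⟨0, by simp⟩
  obtain ⟨m₁, hm₁⟩ := key x e₁ f₁
  obtain ⟨m₂, hm₂⟩ := key y e₂ f₂
  obtain ⟨m₃, hm₃⟩ := key z e₃ f₃
  refine ⟨i - m₁, j - m₂, k - m₃, ?_⟩
  have hv' : (x ^ i * y ^ j * z ^ k) ^ 2 =
      (x ^ (e₁ : ℕ) * y ^ (e₂ : ℕ) * z ^ (e₃ : ℕ))⁻¹ * (x ^ (f₁ : ℕ) * y ^ (f₂ : ℕ) * z ^ (f₃ : ℕ)) := by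
    rw [← hijk]
    exact congrArg Subtype.val hv
  open scoped IsMulCommutative in
  have inT : ∀ X Y Z : T, (X ^ i * Y ^ j * Z ^ k) ^ 2 =
      (X ^ (e₁ : ℕ) * Y ^ (e₂ : ℕ) * Z ^ (e₃ : ℕ))⁻¹ * (X ^ (f₁ : ℕ) * Y ^ (f₂ : ℕ) * Z ^ (f₃ : ℕ)) →
      (X ^ (e₁ : ℕ))⁻¹ * X ^ (f₁ : ℕ) = X ^ ((f₁ - e₁ : Fin 2) : ℕ) * (X ^ m₁) ^ 2 →
      (Y ^ (e₂ : ℕ))⁻¹ * Y ^ (f₂ : ℕ) = Y ^ ((f₂ - e₂ : Fin 2) : ℕ) * (Y ^ m₂) ^ 2 →
      (Z ^ (e₃ : ℕ))⁻¹ * Z ^ (f₃ : ℕ) = Z ^ ((f₃ - e₃ : Fin 2) : ℕ) * (Z ^ m₃) ^ 2 →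
      X ^ ((f₁ - e₁ : Fin 2) : ℕ) * Y ^ ((f₂ - e₂ : Fin 2) : ℕ) * Z ^ ((f₃ - e₃ : Fin 2) : ℕ) =
        (X ^ (i - m₁) * Y ^ (j - m₂) * Z ^ (k - m₃)) ^ 2 := by
    intro X Y Z h0 h1 h2 h3
    have hr : (X ^ (e₁ : ℕ) * Y ^ (e₂ : ℕ) * Z ^ (e₃ : ℕ))⁻¹ * (X ^ (f₁ : ℕ) * Y ^ (f₂ : ℕ) * Z ^ (f₃ : ℕ)) =
        ((X ^ (e₁ : ℕ))⁻¹ * X ^ (f₁ : ℕ)) * ((Y ^ (e₂ : ℕ))⁻¹ * Y ^ (f₂ : ℕ)) * ((Z ^ (e₃ : ℕ))⁻¹ * Z ^ (f₃ : ℕ)) := by
      simp only [mul_inv]; ac_rfl
    rw [hr, h1, h2, h3] at h0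
    simp only [zpow_sub, mul_pow, inv_pow] at h0 ⊢
    rw [show (X ^ i) ^ 2 * ((X ^ m₁) ^ 2)⁻¹ * ((Y ^ j) ^ 2 * ((Y ^ m₂) ^ 2)⁻¹) * ((Z ^ k) ^ 2 * ((Z ^ m₃) ^ 2)⁻¹) =
      (X ^ i) ^ 2 * (Y ^ j) ^ 2 * (Z ^ k) ^ 2 * (((X ^ m₁) ^ 2)⁻¹ * ((Y ^ m₂) ^ 2)⁻¹ * ((Z ^ m₃) ^ 2)⁻¹) by ac_rfl,
      h0, show X ^ ((f₁ - e₁ : Fin 2) : ℕ) * (X ^ m₁) ^ 2 * (Y ^ ((f₂ - e₂ : Fin 2) : ℕ) * (Y ^ m₂) ^ 2) *
        (Z ^ ((f₃ - e₃ : Fin 2) : ℕ) * (Z ^ m₃) ^ 2) * (((X ^ m₁) ^ 2)⁻¹ * ((Y ^ m₂) ^ 2)⁻¹ * ((Z ^ m₃) ^ 2)⁻¹) =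
        X ^ ((f₁ - e₁ : Fin 2) : ℕ) * Y ^ ((f₂ - e₂ : Fin 2) : ℕ) * Z ^ ((f₃ - e₃ : Fin 2) : ℕ) *
        ((X ^ m₁) ^ 2 * ((X ^ m₁) ^ 2)⁻¹ * ((Y ^ m₂) ^ 2 * ((Y ^ m₂) ^ 2)⁻¹) * ((Z ^ m₃) ^ 2 * ((Z ^ m₃) ^ 2)⁻¹)) by ac_rfl]
    simp
  have := inT ⟨x, Subgroup.subset_closure (by simp)⟩ ⟨y, Subgroup.subset_closure (by simp)⟩
    ⟨z, Subgroup.subset_closure (by simp)⟩ (Subtype.ext (by simpa using hv')) (Subtype.ext (by simpa using hm₁))
    (Subtype.ext (by simpa using hm₂)) (Subtype.ext (by simpa using hm₃))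
  simpa using congrArg Subtype.val this

/-- A 2-group generated by two elements whose commutator is central of order at most two. -/
theorem isMetacyclic_of_central_commutator (hG : IsPGroup 2 G) (hr : Cfsg.SectionalPRankLE 2 2 G)
    {a b : G} (hgen : Subgroup.closure ({a, b} : Set G) = ⊤) (hc : ⁅b, a⁆ ∈ Subgroup.center G)
    (hc2 : ⁅b, a⁆ ^ 2 = 1) : Cfsg.IsMetacyclic G := by
  classical
  set c := ⁅b, a⁆ with hcdef
  have hcc : ∀ x, Commute c x := fun x => (Subgroup.mem_center_iff.1 hc x).symm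
  haveI : (Subgroup.zpowers c).Normal := H24.normal_of_le_center (Subgroup.zpowers_le.2 hc)
  have hcomm : commutator G ≤ Subgroup.zpowers c := by
    rw [commutator_def, Subgroup.commutator_le]
    intro g _ h _
    set π := QuotientGroup.mk' (Subgroup.zpowers c)
    have hab : Commute (π b) (π a) := by
      rw [← commutatorElement_eq_one_iff_commute, ← map_commutatorElement, QuotientGroup.mk'_apply,
        QuotientGroup.eq_one_iff]
      exact Subgroup.mem_zpowers c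
    have hall : ∀ x : G, Commute (π x) (π a) ∧ Commute (π x) (π b) := by
      intro x
      have hx : x ∈ Subgroup.closure ({a, b} : Set G) := hgen ▸ Subgroup.mem_top x
      induction hx using Subgroup.closure_induction with
      | mem y hy => rcases hy with rfl | rfl <;> [exact ⟨Commute.refl _, hab.symm⟩; exact ⟨hab, Commute.refl _⟩]
      | one => simp
      | mul y z _ _ hy hz => rw [map_mul]; exact ⟨hy.1.mul_left hz.1, hy.2.mul_left hz.2⟩
      | inv y _ hy => rw [map_inv]; exact ⟨hy.1.inv_left, hy.2.inv_left⟩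
    have hgh : ∀ h, Commute (π g) (π h) := by
      intro h
      have hx : h ∈ Subgroup.closure ({a, b} : Set G) := hgen ▸ Subgroup.mem_top h
      induction hx using Subgroup.closure_induction with
      | mem y hy => rcases hy with rfl | rfl <;> [exact (hall g).1; exact (hall g).2]
      | one => simp
      | mul y z _ _ hy hz => rw [map_mul]; exact hy.mul_right hz
      | inv y _ hy => rw [map_inv]; exact hy.inv_right
    rw [← QuotientGroup.eq_one_iff, ← QuotientGroup.mk'_apply, map_commutatorElement,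
      commutatorElement_eq_one_iff_commute]
    exact hgh h
  -- it suffices that some generator has `c` among its powers
  have done_of : ∀ g h : G, Subgroup.closure ({g, h} : Set G) = ⊤ → c ∈ Subgroup.zpowers g →
      Cfsg.IsMetacyclic G := by
    intro g h hgh hcg
    refine H24.isMetacyclic_of_commutator_le (g := g) (b := h) (hcomm.trans (Subgroup.zpowers_le.2 hcg)) ?_
    rw [eq_top_iff, ← hgh, Subgroup.closure_le]
    rintro u (rfl | rfl)
    · exact Subgroup.mem_sup_left (Subgroup.mem_zpowers _)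
    · exact Subgroup.mem_sup_right (Subgroup.mem_zpowers _)
  by_cases hc1 : c = 1
  · exact done_of a b hgen (hc1 ▸ Subgroup.one_mem _)
  -- the collection formula
  have hba : b * a = c * (a * b) := by rw [hcdef, commutatorElement_def]; group
  have ha2 : ∀ x : G, Commute (a ^ 2) x := by
    have h1 : Commute (a ^ 2) b := by
      refine Eq.symm ?_
      calc b * a ^ 2 = c * (a * (b * a)) := by (conv_lhs => rw [pow_two, ← mul_assoc, hba]); simp only [mul_assoc]
        _ = c * ((a * c) * (a * b)) := by (conv_lhs => rw [hba]); simp only [mul_assoc]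
        _ = (c * c) * (a * a * b) := by rw [← (hcc a).eq]; simp only [mul_assoc]
        _ = a ^ 2 * b := by rw [← pow_two, hc2, one_mul, pow_two]
    intro x
    have hx : x ∈ Subgroup.closure ({a, b} : Set G) := hgen ▸ Subgroup.mem_top x
    induction hx using Subgroup.closure_induction with
    | mem y hy => rcases hy with rfl | rfl <;> [exact Commute.pow_self _ 2; exact h1]
    | one => exact Commute.one_right _
    | mul y z _ _ hy hz => exact hy.mul_right hz
    | inv y _ hy => exact hy.inv_right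
  have hb2 : ∀ x : G, Commute (b ^ 2) x := by
    have h1 : Commute (b ^ 2) a := by
      show b ^ 2 * a = a * b ^ 2
      calc b ^ 2 * a = b * (b * a) := by rw [pow_two, mul_assoc]
        _ = c * ((b * a) * b) := by (conv_lhs => rw [hba, ← mul_assoc, ← (hcc b).eq]); simp only [mul_assoc]
        _ = (c * c) * (a * (b * b)) := by (conv_lhs => rw [hba]); simp only [mul_assoc]
        _ = a * b ^ 2 := by rw [← pow_two, hc2, one_mul, pow_two]
    intro x
    have hx : x ∈ Subgroup.closure ({a, b} : Set G) := hgen ▸ Subgroup.mem_top x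
    induction hx using Subgroup.closure_induction with
    | mem y hy => rcases hy with rfl | rfl <;> [exact h1; exact Commute.pow_self _ 2]
    | one => exact Commute.one_right _
    | mul y z _ _ hy hz => exact hy.mul_right hz
    | inv y _ hy => exact hy.inv_right
  have hpar : ∀ n : ℤ, c ^ n = c ^ (n % 2) := by
    intro n
    conv_lhs => rw [show n = n % 2 + 2 * (n / 2) by omega, zpow_add, zpow_mul, zpow_two, ← pow_two, hc2,
      one_zpow, mul_one]
  have hsquare : ∀ I J : ℤ, (a ^ I * b ^ J) ^ 2 = c ^ (I * J) * (a ^ (2 * I) * b ^ (2 * J)) := by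
    intro I J
    have key : b ^ J * a ^ I = c ^ (I * J) * (a ^ I * b ^ J) := by
      obtain ⟨I', r, hr, rfl⟩ : ∃ I' r, (r = 0 ∨ r = 1) ∧ I = 2 * I' + r :=
        ⟨I / 2, I % 2, by omega, by omega⟩
      obtain ⟨J', s, hs, rfl⟩ : ∃ J' s, (s = 0 ∨ s = 1) ∧ J = 2 * J' + s :=
        ⟨J / 2, J % 2, by omega, by omega⟩
      have e1 : ∀ x, Commute (a ^ (2 * I')) x := fun x => by
        rw [zpow_mul, zpow_two, ← pow_two]; exact (ha2 x).zpow_left I'
      have e2 : ∀ x, Commute (b ^ (2 * J')) x := fun x => by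
        rw [zpow_mul, zpow_two, ← pow_two]; exact (hb2 x).zpow_left J'
      have e3 : c ^ ((2 * I' + r) * (2 * J' + s)) = c ^ (r * s) := by
        rw [hpar, hpar (r * s)]; congr 1
        rw [show (2 * I' + r) * (2 * J' + s) = r * s + 2 * (2 * I' * J' + I' * s + r * J') by ring]
        omega
      have e4 : b ^ s * a ^ r = c ^ (r * s) * (a ^ r * b ^ s) := by
        rcases hr with rfl | rfl <;> rcases hs with rfl | rfl <;> simp [hba]
      have eL : b ^ (2 * J' + s) * a ^ (2 * I' + r) = b ^ (2 * J') * a ^ (2 * I') * (b ^ s * a ^ r) := by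
        calc b ^ (2 * J' + s) * a ^ (2 * I' + r) = b ^ (2 * J') * ((b ^ s * a ^ (2 * I')) * a ^ r) := by
              rw [zpow_add, zpow_add]; simp only [mul_assoc]
          _ = _ := by rw [← (e1 (b ^ s)).eq]; simp only [mul_assoc]
      have eR : a ^ (2 * I' + r) * b ^ (2 * J' + s) = b ^ (2 * J') * a ^ (2 * I') * (a ^ r * b ^ s) := by
        calc a ^ (2 * I' + r) * b ^ (2 * J' + s) = a ^ (2 * I') * ((a ^ r * b ^ (2 * J')) * b ^ s) := by
              rw [zpow_add, zpow_add]; simp only [mul_assoc]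
          _ = (a ^ (2 * I') * b ^ (2 * J')) * (a ^ r * b ^ s) := by rw [← (e2 (a ^ r)).eq]; simp only [mul_assoc]
          _ = _ := by rw [(e1 (b ^ (2 * J'))).eq]
      rw [eL, eR, e4, e3, ← mul_assoc, ((hcc _).zpow_left _).symm.eq, mul_assoc]
    calc (a ^ I * b ^ J) ^ 2 = a ^ I * (b ^ J * a ^ I) * b ^ J := by rw [pow_two]; simp only [mul_assoc]
      _ = (a ^ I * c ^ (I * J)) * (a ^ I * (b ^ J * b ^ J)) := by rw [key]; simp only [mul_assoc]
      _ = c ^ (I * J) * (a ^ I * a ^ I * (b ^ J * b ^ J)) := by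
          rw [← ((hcc (a ^ I)).zpow_left (I * J)).eq]; simp only [mul_assoc]
      _ = _ := by rw [← zpow_add, ← zpow_add, ← two_mul, ← two_mul]
  -- odd exponents are invertible
  have hodd : ∀ (x : G) (I : ℤ), Odd I → x ∈ Subgroup.zpowers (x ^ I) := by
    intro x I hI
    obtain ⟨k, hk⟩ := hG x
    obtain ⟨u, v, huv⟩ : IsCoprime I ((2 : ℤ) ^ k) := by
      refine IsCoprime.pow_right ?_
      obtain ⟨t, rfl⟩ := hI
      exact ⟨1, -t, by ring⟩
    refine ⟨u, ?_⟩
    have h1 : x ^ ((2 : ℤ) ^ k) = 1 := by rw [← Nat.cast_ofNat, ← Nat.cast_pow, zpow_natCast, hk]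
    show (x ^ I) ^ u = x
    conv_rhs => rw [← zpow_one x, ← huv, zpow_add, zpow_mul', zpow_mul' x v, h1, one_zpow, mul_one]
  have hpartner : ∀ I J : ℤ, Odd I ∨ Odd J → ∃ h, Subgroup.closure ({a ^ I * b ^ J, h} : Set G) = ⊤ := by
    intro I J hIJ
    rcases hIJ with hI | hJ
    · refine ⟨b, ?_⟩
      rw [eq_top_iff, ← hgen, Subgroup.closure_le]
      set T := Subgroup.closure ({a ^ I * b ^ J, b} : Set G)
      have h1 : a ^ I * b ^ J ∈ T := Subgroup.subset_closure (by simp)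
      have h2 : b ∈ T := Subgroup.subset_closure (by simp)
      have h3 : a ^ I ∈ T := by
        simpa using T.mul_mem h1 (T.inv_mem (T.zpow_mem h2 J))
      rintro u (rfl | rfl)
      · exact Subgroup.zpowers_le.2 h3 (hodd _ I hI)
      · exact h2
    · refine ⟨a, ?_⟩
      rw [eq_top_iff, ← hgen, Subgroup.closure_le]
      set T := Subgroup.closure ({a ^ I * b ^ J, a} : Set G)
      have h1 : a ^ I * b ^ J ∈ T := Subgroup.subset_closure (by simp)
      have h2 : a ∈ T := Subgroup.subset_closure (by simp)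
      have h3 : b ^ J ∈ T := by
        simpa using T.mul_mem (T.inv_mem (T.zpow_mem h2 I)) h1
      rintro u (rfl | rfl)
      · exact h2
      · exact Subgroup.zpowers_le.2 h3 (hodd _ J hJ)
  -- an involution among the generators
  have invol : ∀ g h : G, Subgroup.closure ({g, h} : Set G) = ⊤ → g ^ 2 = 1 → Cfsg.IsMetacyclic G := by
    intro g h hgh hg2
    by_cases hch : c ∈ Subgroup.zpowers h
    · exact done_of h g (by rw [Set.pair_comm]; exact hgh) hch
    have hgg : g⁻¹ = g := inv_eq_of_mul_eq_one_right (by rw [← pow_two, hg2])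
    obtain ⟨n, hn⟩ := Subgroup.mem_zpowers_iff.1
      (hcomm (Subgroup.commutator_mem_commutator (Subgroup.mem_top g) (Subgroup.mem_top h)))
    have hn1 : ⁅g, h⁆ = c := by
      rw [← hn, hpar]
      rcases (by omega : n % 2 = 0 ∨ n % 2 = 1) with h0 | h0
      · exfalso
        rw [hpar, h0, zpow_zero] at hn
        have hgh' : Commute g h := commutatorElement_eq_one_iff_commute.1 hn.symm
        apply hc1
        haveI : IsMulCommutative (Subgroup.closure ({g, h} : Set G)) := Subgroup.isMulCommutative_closure (by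
          intro u hu v hv
          simp only [Set.mem_insert_iff, Set.mem_singleton_iff] at hu hv
          rcases hu with rfl | rfl <;> rcases hv with rfl | rfl <;>
            first | rfl | exact hgh'.eq | exact hgh'.eq.symm)
        have h1 := congrArg Subtype.val ((inferInstance : IsMulCommutative (Subgroup.closure ({g, h} : Set G))).1.1
          ⟨b, hgh ▸ Subgroup.mem_top b⟩ ⟨a, hgh ▸ Subgroup.mem_top a⟩)
        exact commutatorElement_eq_one_iff_mul_comm.2 h1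
      · rw [h0, zpow_one]
    have hgh2 : Commute g (h ^ 2) := by
      have e : g * h = c * (h * g) := by
        rw [← hn1, commutatorElement_def]; group
      show g * h ^ 2 = h ^ 2 * g
      calc g * h ^ 2 = (g * h) * h := by rw [pow_two, mul_assoc]
        _ = c * (h * (g * h)) := by (conv_lhs => rw [e]); simp only [mul_assoc]
        _ = c * ((h * c) * (h * g)) := by rw [e]; simp only [mul_assoc]
        _ = (c * c) * (h * h * g) := by rw [← (hcc h).eq]; simp only [mul_assoc]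
        _ = h ^ 2 * g := by rw [← pow_two, hc2, one_mul, pow_two]
    obtain ⟨e₁, e₂, e₃, hne, i, j, k, hrel⟩ :=
      exists_relation hr hgh2 (hcc g).symm (hcc (h ^ 2)).symm
    have hR : (g ^ i * (h ^ 2) ^ j * c ^ k) ^ 2 = h ^ (4 * j) := by
      rw [((hcc _).symm.zpow_right k).mul_pow, (hgh2.zpow_zpow i j).mul_pow, ← zpow_natCast (g ^ i),
        ← zpow_mul, mul_comm i, zpow_mul, zpow_natCast, hg2, one_zpow, one_mul,
        ← zpow_natCast (c ^ k), ← zpow_mul, mul_comm k, zpow_mul, zpow_natCast, hc2, one_zpow, mul_one,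
        ← zpow_natCast h 2, ← zpow_mul, ← zpow_natCast (h ^ _), ← zpow_mul]
      congr 1; push_cast; ring
    rw [hR] at hrel
    by_cases h1 : e₁ = 0
    · by_cases h3 : e₃ = 0
      · have h2 : e₂ = 1 := by
          rcases hne with h | h | h
          · exact absurd h1 h
          · exact Fin.eq_one_of_ne_zero e₂ h
          · exact absurd h3 h
        subst h1 h2 h3
        simp only [Fin.val_zero, pow_zero, one_mul, mul_one, Fin.val_one, pow_one] at hrel
        have hh : h ^ 2 = 1 := by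
          have h4 : h ^ (2 * (1 - 2 * j)) = 1 := by
            rw [show 2 * (1 - 2 * j) = (2 : ℤ) - 4 * j by ring, zpow_sub, zpow_two, ← pow_two, hrel, mul_inv_cancel]
          obtain ⟨u, hu⟩ := Subgroup.mem_zpowers_iff.1 (hodd (h ^ 2) (1 - 2 * j) ⟨-j, by ring⟩)
          rw [← hu]
          have : (h ^ 2) ^ (1 - 2 * j) = 1 := by
            rw [← zpow_natCast h 2, ← zpow_mul]; exact_mod_cast h4
          rw [this, one_zpow]
        refine done_of (g * h) h ?_ ⟨2, ?_⟩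
        · rw [eq_top_iff, ← hgh, Subgroup.closure_le]
          have h5 : g * h ∈ Subgroup.closure ({g * h, h} : Set G) := Subgroup.subset_closure (by simp)
          have h6 : h ∈ Subgroup.closure ({g * h, h} : Set G) := Subgroup.subset_closure (by simp)
          rintro u (rfl | rfl)
          · simpa using Subgroup.mul_mem _ h5 (Subgroup.inv_mem _ h6)
          · exact h6
        · have hhi : h⁻¹ = h := inv_eq_of_mul_eq_one_right (by rw [← pow_two, hh])
          show (g * h) ^ (2 : ℤ) = c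
          rw [zpow_two, ← hn1, commutatorElement_def, hgg, hhi, mul_assoc (g * h) g h]
      · have h3' : e₃ = 1 := Fin.eq_one_of_ne_zero e₃ h3
        subst h1 h3'
        simp only [Fin.val_zero, pow_zero, one_mul, Fin.val_one, pow_one] at hrel
        refine absurd ?_ hch
        have : c = ((h ^ 2) ^ (e₂ : ℕ))⁻¹ * h ^ (4 * j) := eq_inv_mul_of_mul_eq hrel
        rw [this]
        exact Subgroup.mul_mem _ (Subgroup.inv_mem _ (Subgroup.pow_mem _ (Subgroup.pow_mem _ (Subgroup.mem_zpowers h) _) _))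
          (Subgroup.zpow_mem _ (Subgroup.mem_zpowers h) _)
    · have h1' : e₁ = 1 := Fin.eq_one_of_ne_zero e₁ h1
      subst h1'
      simp only [Fin.val_one, pow_one] at hrel
      exfalso
      have hgcom : Commute g h := by
        have : g = h ^ (4 * j) * (c ^ (e₃ : ℕ))⁻¹ * ((h ^ 2) ^ (e₂ : ℕ))⁻¹ := by rw [← hrel]; group
        rw [this]
        refine ((((Commute.refl h).zpow_left _).mul_left ?_).mul_left ?_)
        · exact ((hcc h).pow_left _).inv_left
        · exact (((Commute.refl h).pow_left 2).pow_left _).inv_left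
      rw [← commutatorElement_eq_one_iff_commute, hn1] at hgcom
      exact hc1 hgcom
  -- relations of `a ^ 2`, `b ^ 2`, `c`
  obtain ⟨e₁, e₂, e₃, hne, i, j, k, hrel⟩ := exists_relation hr (ha2 (b ^ 2)) (hcc (a ^ 2)).symm (hcc (b ^ 2)).symm
  have hR : ((a ^ 2) ^ i * (b ^ 2) ^ j * c ^ k) ^ 2 = a ^ (4 * i) * b ^ (4 * j) := by
    rw [((hcc _).symm.zpow_right k).mul_pow, ((ha2 (b ^ 2)).zpow_zpow i j).mul_pow,
      ← zpow_natCast (c ^ k), ← zpow_mul, mul_comm k, zpow_mul, zpow_natCast, hc2, one_zpow, mul_one,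
      ← zpow_natCast a 2, ← zpow_mul, ← zpow_natCast (a ^ _), ← zpow_mul,
      ← zpow_natCast b 2, ← zpow_mul, ← zpow_natCast (b ^ _), ← zpow_mul]
    congr 1 <;> (congr 1; push_cast; ring)
  rw [hR] at hrel
  have hEq : a ^ (4 * i - 2 * (e₁ : ℕ) : ℤ) * b ^ (4 * j - 2 * (e₂ : ℕ) : ℤ) = c ^ (e₃ : ℕ) := by
    have hA : ∀ x, Commute (a ^ (2 * (e₁ : ℕ) : ℤ)) x := fun x => by
      rw [zpow_mul, zpow_two, ← pow_two]; exact (ha2 x).zpow_left _
    have hB : ∀ x, Commute (b ^ (2 * (e₂ : ℕ) : ℤ)) x := fun x => by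
      rw [zpow_mul, zpow_two, ← pow_two]; exact (hb2 x).zpow_left _
    have h1 : (a ^ 2) ^ (e₁ : ℕ) = a ^ (2 * (e₁ : ℕ) : ℤ) := by rw [← pow_mul, ← zpow_natCast]; norm_cast
    have h2 : (b ^ 2) ^ (e₂ : ℕ) = b ^ (2 * (e₂ : ℕ) : ℤ) := by rw [← pow_mul, ← zpow_natCast]; norm_cast
    rw [h1, h2] at hrel
    set A := a ^ (2 * (e₁ : ℕ) : ℤ)
    set B := b ^ (2 * (e₂ : ℕ) : ℤ)
    calc a ^ (4 * i - 2 * (e₁ : ℕ) : ℤ) * b ^ (4 * j - 2 * (e₂ : ℕ) : ℤ)
        = a ^ (4 * i) * (A⁻¹ * b ^ (4 * j)) * B⁻¹ := by rw [zpow_sub, zpow_sub]; simp only [A, B, mul_assoc]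
      _ = (a ^ (4 * i) * b ^ (4 * j)) * (A⁻¹ * B⁻¹) := by
          rw [((hA (b ^ (4 * j))).inv_left).eq]; simp only [mul_assoc]
      _ = (A * B * c ^ (e₃ : ℕ)) * (A⁻¹ * B⁻¹) := by rw [hrel]
      _ = c ^ (e₃ : ℕ) := by
          rw [((hcc (A * B)).pow_left _).eq.symm, (hA B⁻¹).inv_left.eq]
          group
  set I := 2 * i - (e₁ : ℕ) with hI
  set J := 2 * j - (e₂ : ℕ) with hJ
  rw [show (4 * i - 2 * (e₁ : ℕ) : ℤ) = 2 * I by rw [hI]; ring,
    show (4 * j - 2 * (e₂ : ℕ) : ℤ) = 2 * J by rw [hJ]; ring] at hEq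
  by_cases h3 : e₃ = 0
  · have hoddIJ : Odd I ∨ Odd J := by
      rcases hne with h | h | h
      · left; rw [hI, Fin.eq_one_of_ne_zero e₁ h]; exact ⟨i - 1, by simp; ring⟩
      · right; rw [hJ, Fin.eq_one_of_ne_zero e₂ h]; exact ⟨j - 1, by simp; ring⟩
      · exact absurd h3 h
    obtain ⟨h, hh⟩ := hpartner I J hoddIJ
    have hsq := hsquare I J
    rw [hEq, h3, Fin.val_zero, pow_zero, mul_one, hpar] at hsq
    rcases (by omega : (I * J) % 2 = 0 ∨ (I * J) % 2 = 1) with h0 | h0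
    · exact invol _ h hh (by rw [hsq, h0, zpow_zero])
    · exact done_of _ h hh ⟨2, by show _ ^ (2 : ℤ) = c; rw [zpow_two, ← pow_two, hsq, h0, zpow_one]⟩
  · have h3' : (e₃ : ℕ) = 1 := by rw [Fin.eq_one_of_ne_zero e₃ h3]; rfl
    rw [h3', pow_one] at hEq
    -- halve the exponents
    have desc : ∀ n : ℕ, ∀ I J : ℤ, I.natAbs + J.natAbs ≤ n → (∃ m : ℕ, (a ^ I * b ^ J) ^ (2 ^ (m + 1)) = c) →
        Cfsg.IsMetacyclic G := by
      intro n
      induction n with
      | zero =>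
        intro I J hIJ hm
        obtain ⟨m, hm⟩ := hm
        obtain rfl : I = 0 := by omega
        obtain rfl : J = 0 := by omega
        simp at hm
        exact absurd hm.symm hc1
      | succ n ih =>
        intro I J hIJ hm
        obtain ⟨m, hm⟩ := hm
        by_cases hpar' : Odd I ∨ Odd J
        · obtain ⟨h, hh⟩ := hpartner I J hpar'
          exact done_of _ h hh ⟨(2 ^ (m + 1) : ℕ), by show _ ^ (((2 ^ (m + 1) : ℕ)) : ℤ) = c; rw [zpow_natCast]; exact hm⟩
        · push Not at hpar'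
          obtain ⟨⟨I', hI'⟩, ⟨J', hJ'⟩⟩ := (⟨Int.not_odd_iff_even.1 hpar'.1, Int.not_odd_iff_even.1 hpar'.2⟩ : Even I ∧ Even J)
          by_cases h0 : I = 0 ∧ J = 0
          · rw [h0.1, h0.2] at hm
            simp at hm
            exact absurd hm.symm hc1
          refine ih I' J' (by omega) ⟨m + 1, ?_⟩
          rw [pow_succ 2 (m + 1), mul_comm, pow_mul, hsquare, show 2 * I' = I by omega, show 2 * J' = J by omega,
            ((hcc _).zpow_left _).mul_pow, hm, ← zpow_natCast, ← zpow_mul, hpar]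
          rw [show (I' * J' * ((2 ^ (m + 1) : ℕ) : ℤ)) % 2 = 0 by push_cast; rw [pow_succ, ← mul_assoc]; omega,
            zpow_zero, one_mul]
    rcases (by omega : (I * J) % 2 = 0 ∨ (I * J) % 2 = 1) with h0 | h0
    · refine desc _ I J le_rfl ⟨0, ?_⟩
      rw [pow_one, hsquare, hpar, h0, zpow_zero, one_mul, hEq]
    · have hIo : Odd I := by
        by_contra h
        obtain ⟨t, ht⟩ := Int.not_odd_iff_even.1 h
        rw [ht, show (t + t) * J = 2 * (t * J) by ring] at h0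
        omega
      obtain ⟨h, hh⟩ := hpartner I J (Or.inl hIo)
      refine invol _ h hh ?_
      rw [hsquare, hpar, h0, zpow_one, hEq, ← pow_two, hc2]

theorem isMetacyclic_of_rank_two : ∀ (n : ℕ) (G : Type u) [Group G] [Finite G], Nat.card G = n →
    IsPGroup 2 G → Cfsg.SectionalPRankLE 2 2 G → Cfsg.IsMetacyclic G := by
  intro n
  induction n using Nat.strong_induction_on with
  | _ n ih =>
  intro G _ _ hn hG hr
  classical
  haveI : Fact (Nat.Prime 2) := ⟨Nat.prime_two⟩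
  haveI hK : (H24.derivedPhi G 2).Normal := H24.derivedPhi_normal
  by_cases hbot : H24.derivedPhi G 2 = ⊥
  swap
  · obtain ⟨z, hzK, hzc, hzo⟩ := H24.exists_central_orderOf hG hbot
    have hZc : Subgroup.zpowers z ≤ Subgroup.center G := Subgroup.zpowers_le.2 hzc
    haveI : (Subgroup.zpowers z).Normal := H24.normal_of_le_center hZc
    have hcardZ : Nat.card (Subgroup.zpowers z) = 2 := by rw [Nat.card_zpowers, hzo]
    refine H24.isMetacyclic_of_quotient hG hZc hcardZ (Subgroup.zpowers_le.2 hzK) ?_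
    refine ih _ ?_ _ rfl (hG.to_quotient _) (sectional_quotient hr _)
    rw [← hn, ← (Subgroup.zpowers z).card_mul_index, hcardZ, Subgroup.index_eq_card]
    have := Nat.card_pos (α := G ⧸ Subgroup.zpowers z)
    omega
  -- two generators from the Frattini quotient
  have hcen : ∀ u ∈ commutator G, u ∈ Subgroup.center G ∧ u ^ 2 = 1 := by
    intro u hu
    constructor
    · have h1 : ⁅commutator G, (⊤ : Subgroup G)⁆ = ⊥ := le_bot_iff.1 (hbot ▸ le_sup_left)
      exact Subgroup.mem_center_iff.2 fun g =>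
        ((Subgroup.mem_centralizer_iff).1 (Subgroup.commutator_eq_bot_iff_le_centralizer.1 h1 hu) g (Subgroup.mem_top g))
    · have h1 : u ^ 2 ∈ H24.derivedPhi G 2 :=
        Subgroup.mem_sup_right (Subgroup.subset_closure ⟨u, hu, rfl⟩)
      rwa [hbot, Subgroup.mem_bot] at h1
  set Φ := frattini G
  have hq : ∀ u v : G ⧸ Φ, u * v = v * u := by
    intro u v
    obtain ⟨u, rfl⟩ := QuotientGroup.mk_surjective u
    obtain ⟨v, rfl⟩ := QuotientGroup.mk_surjective v
    refine (QuotientGroup.eq).2 (H24.commutator_le_frattini hG ?_)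
    have e : (u * v)⁻¹ * (v * u) = ⁅v⁻¹, u⁻¹⁆ := by rw [commutatorElement_def]; group
    rw [e]
    exact Subgroup.commutator_mem_commutator (Subgroup.mem_top _) (Subgroup.mem_top _)
  have hq2 : ∀ u : G ⧸ Φ, u ^ 2 = 1 := by
    intro u
    obtain ⟨u, rfl⟩ := QuotientGroup.mk_surjective u
    rw [← QuotientGroup.mk_pow, QuotientGroup.eq_one_iff]
    exact H24.pow_mem_frattini hG u
  let f : (⊤ : Subgroup G) →* G ⧸ Φ := (QuotientGroup.mk' Φ).comp (⊤ : Subgroup G).subtype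
  have hf : Function.Surjective f := fun u => by
    obtain ⟨u, rfl⟩ := QuotientGroup.mk_surjective u
    exact ⟨⟨u, Subgroup.mem_top u⟩, rfl⟩
  let e := QuotientGroup.quotientKerEquivOfSurjective f hf
  have hcard : Nat.card (G ⧸ Φ) ≤ 4 := by
    have := hr ⊤ f.ker ⊤ ⟨⟨fun u v => Subtype.ext (e.injective ((map_mul e u.1 v.1).trans ((hq _ _).trans (map_mul e v.1 u.1).symm)))⟩⟩
      (fun u _ => e.injective (by rw [map_pow, map_one]; exact hq2 _))
    rwa [Subgroup.card_top, Nat.card_congr e.toEquiv] at this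
  obtain ⟨a, b, hab⟩ : ∃ a b : G, Subgroup.closure ({a, b} : Set G) ⊔ Φ = ⊤ := by
    by_cases h1 : ∀ g : G, g ∈ Φ
    · exact ⟨1, 1, top_le_iff.1 fun g _ => Subgroup.mem_sup_right (h1 g)⟩
    push Not at h1
    obtain ⟨a, ha⟩ := h1
    by_cases h2 : ∀ g : G, g ∈ Φ ∨ a⁻¹ * g ∈ Φ
    · refine ⟨a, a, top_le_iff.1 fun g _ => ?_⟩
      rcases h2 g with h | h
      · exact Subgroup.mem_sup_right h
      · simpa using Subgroup.mul_mem _ (Subgroup.mem_sup_left (T := Φ) (Subgroup.subset_closure (Set.mem_insert a {a})))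
          (Subgroup.mem_sup_right (S := Subgroup.closure ({a, a} : Set G)) h)
    push Not at h2
    obtain ⟨b, hb, hb'⟩ := h2
    refine ⟨a, b, top_le_iff.1 fun g _ => ?_⟩
    by_contra hg
    set T := Subgroup.closure ({a, b} : Set G) ⊔ Φ
    have haT : a ∈ T := Subgroup.mem_sup_left (Subgroup.subset_closure (by simp))
    have hbT : b ∈ T := Subgroup.mem_sup_left (Subgroup.subset_closure (by simp))
    have hg0 : (g : G ⧸ Φ) ∉ ({1, (a : G ⧸ Φ), (b : G ⧸ Φ), ((a * b : G) : G ⧸ Φ)} : Finset (G ⧸ Φ)) := by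
      simp only [Finset.mem_insert, Finset.mem_singleton]
      intro h
      apply hg
      have key : ∀ w ∈ T, (g : G ⧸ Φ) = w → g ∈ T := fun w hw h => by
        have h' := (QuotientGroup.eq).1 h.symm
        simpa using T.mul_mem hw (Subgroup.mem_sup_right h')
      rcases h with h | h | h | h
      · exact key 1 T.one_mem h
      · exact key a haT h
      · exact key b hbT h
      · exact key _ (T.mul_mem haT hbT) h
    have ha1 : (a : G ⧸ Φ) ≠ 1 := fun h => ha ((QuotientGroup.eq_one_iff a).1 h)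
    have hb1 : (b : G ⧸ Φ) ≠ 1 := fun h => hb ((QuotientGroup.eq_one_iff b).1 h)
    have hab1 : (a : G ⧸ Φ) ≠ b := fun h => hb' ((QuotientGroup.eq).1 h)
    have h4 : ({1, (a : G ⧸ Φ), (b : G ⧸ Φ), ((a * b : G) : G ⧸ Φ)} : Finset (G ⧸ Φ)).card = 4 := by
      rw [QuotientGroup.mk_mul]
      have e1 : (a : G ⧸ Φ) * b ≠ 1 := fun h => hab1 (by
        rw [eq_inv_of_mul_eq_one_left h, inv_eq_of_mul_eq_one_right ((pow_two _).symm.trans (hq2 _))])
      have e2 : (a : G ⧸ Φ) * b ≠ a := fun h => hb1 (by simpa using h)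
      have e3 : (a : G ⧸ Φ) * b ≠ b := fun h => ha1 (by simpa using h)
      simp [Finset.card_insert_of_notMem, ha1.symm, hb1.symm, hab1, e1.symm, e2.symm, e3.symm]
    haveI := Fintype.ofFinite (G ⧸ Φ)
    have := Finset.card_le_univ (insert (g : G ⧸ Φ) ({1, (a : G ⧸ Φ), (b : G ⧸ Φ), ((a * b : G) : G ⧸ Φ)} : Finset (G ⧸ Φ)))
    rw [Finset.card_insert_of_notMem hg0, h4, ← Nat.card_eq_fintype_card] at this
    omega
  have hcom : ⁅b, a⁆ ∈ commutator G := Subgroup.commutator_mem_commutator (Subgroup.mem_top _) (Subgroup.mem_top _)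
  exact isMetacyclic_of_central_commutator hG hr (frattini_nongenerating hab) (hcen _ hcom).1 (hcen _ hcom).2

end Cfsg.Agent.H91.MetacyclicRank
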