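import Mathlib

/-!
Commuting involutions acting on a subgroup of odd order of a nilpotent group.
-/

namespace Cfsg.Agent.H91.OddInvolutions

variable {G : Type*} [Group G] [Finite G]

/-- An element of odd order whose square is trivial is trivial. -/
theorem eq_one_of_sq {F : Subgroup G} (hodd : Odd (Nat.card F)) {c : G} (hc : c ∈ F) (h : c * c = 1) :
    c = 1 := by
  obtain ⟨m, hm⟩ := hodd.of_dvd_nat (Subgroup.orderOf_dvd_natCard F hc)
  have h1 := pow_orderOf_eq_one c
  rw [hm, pow_add, pow_mul, pow_two, h, one_pow, one_mul, pow_one] at h1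
  exact h1

/-- An involution normalising an odd nilpotent group `F` and centralising a subgroup containing
its centraliser in `F` centralises `F`. -/
theorem fix_of_fix_selfcentralizing {F H : Subgroup G} [Group.IsNilpotent F]
    (hodd : Odd (Nat.card F)) {t : G} (ht : t * t = 1) (htF : ∀ x ∈ F, t * x * t ∈ F)
    (hHF : H ≤ F) (hH : ∀ x ∈ H, Commute t x)
    (hC : ∀ x ∈ F, (∀ h ∈ H, Commute x h) → x ∈ H) : ∀ x ∈ F, Commute t x := by
  let K : Subgroup F :=
    { carrier := {x | Commute t (x : G)}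
      one_mem' := Commute.one_right t
      mul_mem' := fun hx hy => hx.mul_right hy
      inv_mem' := fun hx => hx.inv_right }
  suffices hK : K = ⊤ from fun x hx => (hK.symm ▸ Subgroup.mem_top (⟨x, hx⟩ : F) : (⟨x, hx⟩ : F) ∈ K)
  by_contra hK
  obtain ⟨-, n, hn, hnK⟩ := SetLike.lt_iff_le_and_exists.1
    (Group.normalizerCondition_of_isNilpotent (G := F) K (lt_top_iff_ne_top.2 hK))
  apply hnK
  have htn : t * (n : G) * t ∈ F := htF n n.2
  have hconj : ∀ h ∈ H, t * ((n : G) * h * (n : G)⁻¹) = (n : G) * h * (n : G)⁻¹ * t := by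
    intro h hh
    exact (Subgroup.mem_normalizer_iff.1 hn ⟨h, hHF hh⟩).1 (hH h hh)
  set c := (n : G)⁻¹ * (t * n * t) with hc
  have hcH : c ∈ H := by
    refine hC c (F.mul_mem (F.inv_mem n.2) htn) fun h hh => ?_
    show c * h = h * c
    have e1 := hconj h hh
    have e2 : t * h = h * t := (hH h hh).eq
    calc c * h = (n : G)⁻¹ * (t * n * (t * h)) := by simp [hc, mul_assoc]
      _ = (n : G)⁻¹ * (t * ((n : G) * h * (n : G)⁻¹) * n * t) := by rw [e2]; simp [mul_assoc]
      _ = h * c := by rw [e1]; simp [hc, mul_assoc]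
  have e : t * n * t = (n : G) * c := by simp [hc]
  have hcc : c * c = 1 := by
    have h1 : (n : G) = n * c * c := by
      calc (n : G) = t * (t * n * t) * t := by
            simp only [← mul_assoc, ht, one_mul]; rw [mul_assoc, ht, mul_one]
        _ = t * (n * c) * t := by rw [e]
        _ = t * n * (c * t) := by simp [mul_assoc]
        _ = (t * n * t) * c := by rw [(hH c hcH).eq.symm]; simp [mul_assoc]
        _ = n * c * c := by rw [e]
    rw [mul_assoc] at h1
    exact (left_eq_mul.1 h1)
  have hc1 : c = 1 := eq_one_of_sq hodd (F.mul_mem (F.inv_mem n.2) htn) hcc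
  rw [hc1, mul_one] at e
  show t * (n : G) = n * t
  calc t * (n : G) = t * n * t * t := by rw [mul_assoc _ t t, ht, mul_one]
    _ = n * t := by rw [e]

/-- In a group of odd order normalised by an involution `s`, every element is a fixed element
times an inverted one. -/
theorem exists_fix_mul_inverted {H : Subgroup G} (hodd : Odd (Nat.card H)) {s : G} (hs : s * s = 1)
    (hsH : ∀ x ∈ H, s * x * s ∈ H) {h : G} (hh : h ∈ H) :
    ∃ c ∈ H, ∃ y ∈ H, Commute s c ∧ s * y * s = y⁻¹ ∧ h = c * y := by
  set z := h⁻¹ * (s * h * s) with hz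
  have hzH : z ∈ H := H.mul_mem (H.inv_mem hh) (hsH h hh)
  have hsi : s⁻¹ = s := inv_eq_of_mul_eq_one_right hs
  have hzi : s * z * s = z⁻¹ := by
    calc s * z * s = s * h⁻¹ * s * (h * (s * s)) := by simp [hz, mul_assoc]
      _ = s * h⁻¹ * s * h := by rw [hs, mul_one]
      _ = z⁻¹ := by simp [hz, mul_assoc, hsi]
  obtain ⟨m, hm⟩ := hodd.of_dvd_nat (Subgroup.orderOf_dvd_natCard H hzH)
  set y := z ^ (m + 1) with hy
  have hyy : y * y = z := by
    rw [hy, ← pow_add, show m + 1 + (m + 1) = (2 * m + 1) + 1 by omega, ← hm, pow_succ,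
      pow_orderOf_eq_one, one_mul]
  have hyi : s * y * s = y⁻¹ := by
    have h1 : s * y * s⁻¹ = y⁻¹ := by
      rw [hy, ← conj_pow, hsi, hzi, inv_pow]
    rwa [hsi] at h1
  refine ⟨h * y, H.mul_mem hh (H.pow_mem hzH _), y⁻¹, H.inv_mem (H.pow_mem hzH _), ?_, ?_, by simp⟩
  · show s * (h * y) = h * y * s
    have h1 : s * h * s = h * z := by simp [hz]
    calc s * (h * y) = (s * h * s) * (s * y * s) * s := by
          simp only [mul_assoc]; rw [hs, mul_one, ← mul_assoc s s, hs, one_mul]
      _ = h * y * s := by rw [h1, hyi, ← hyy]; simp [mul_assoc]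
  · calc s * y⁻¹ * s = (s * y * s)⁻¹ := by simp [mul_assoc, hsi]
      _ = y⁻¹⁻¹ := by rw [hyi]

/-- The four-group argument: an involution `t` centralising the derived group of `H` and the
fixed points of `s` and of `s * t` centralises `H`. -/
theorem fix_of_fix_fixedPoints {H : Subgroup G} (hodd : Odd (Nat.card H)) {s t : G}
    (hs : s * s = 1) (ht : t * t = 1) (hst : Commute s t)
    (hsH : ∀ x ∈ H, s * x * s ∈ H) (htH : ∀ x ∈ H, t * x * t ∈ H)
    (hD : ∀ d : H, d ∈ commutator H → Commute t (d : G))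
    (h1 : ∀ x ∈ H, Commute s x → Commute t x)
    (h2 : ∀ x ∈ H, Commute (s * t) x → Commute t x) : ∀ x ∈ H, Commute t x := by
  intro x hx
  obtain ⟨c, hc, y, hy, hcs, hys, rfl⟩ := exists_fix_mul_inverted hodd hs hsH hx
  refine (h1 c hc hcs).mul_right ?_
  set u := s * t with hu
  have huu : u * u = 1 := by
    calc u * u = s * (t * s) * t := by simp [hu, mul_assoc]
      _ = (s * s) * (t * t) := by rw [← hst.eq]; simp [mul_assoc]
      _ = 1 := by rw [hs, ht, mul_one]
  have huH : ∀ x ∈ H, u * x * u ∈ H := by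
    intro x hx
    have := hsH _ (htH x hx)
    rw [show u * x * u = s * t * x * (t * s) by simp [hu, ← hst.eq, mul_assoc]]
    simpa [mul_assoc] using this
  obtain ⟨c', hc', y', hy', hcu, hyu, rfl⟩ := exists_fix_mul_inverted hodd huu huH hy
  have hct : Commute t c' := h2 c' hc' hcu
  have hcs' : Commute s c' := by
    have h3 : s = u * t := by rw [hu, mul_assoc, ht, mul_one]
    rw [h3]; exact hcu.mul_left hct
  have hsi : s⁻¹ = s := inv_eq_of_mul_eq_one_right hs
  set y := c' * y' with hydef
  have hty : t * y * t = c' * y * c' := by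
    have h3 : t = s * u := by rw [hu, ← mul_assoc, hs, one_mul]
    have h4 : t = u * s := by
      rw [hu, mul_assoc, ← hst.eq, ← mul_assoc, hs, one_mul]
    have h5 : u * y * u = c' * y'⁻¹ := by
      calc u * y * u = c' * (u * y' * u) := by
            rw [hydef, ← mul_assoc u c', hcu.eq]; simp [mul_assoc]
        _ = c' * y'⁻¹ := by rw [hyu]
    calc t * y * t = s * (u * y * u) * s := by
          conv_lhs => arg 2; rw [h4]
          conv_lhs => arg 1; arg 1; rw [h3]
          simp [mul_assoc]
      _ = c' * (s * y'⁻¹ * s) := by rw [h5, ← mul_assoc s c', hcs'.eq]; simp [mul_assoc]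
      _ = c' * (s * (y⁻¹ * c') * s) := by rw [hydef]; simp
      _ = c' * ((s * y⁻¹ * s) * c') := by
          simp only [mul_assoc]; rw [hcs'.eq]
      _ = c' * y * c' := by
          rw [show s * y⁻¹ * s = (s * y * s)⁻¹ by simp [mul_assoc, hsi], hys]
          simp [mul_assoc]
  -- `c'` lies in the derived group
  let π : H →* Abelianization H := Abelianization.of
  have hrel : c' * c' * y⁻¹ * c' * c' = y⁻¹ := by
    have h3 : u * y * u = c' * y⁻¹ * c' := by
      calc u * y * u = c' * (u * y' * u) := by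
            rw [hydef, ← mul_assoc u c', hcu.eq]; simp [mul_assoc]
        _ = c' * y⁻¹ * c' := by rw [hyu, hydef]; simp [mul_assoc]
    have h4 : u * y * u = (t * y * t)⁻¹ := by
      calc u * y * u = t * (s * y * s) * t := by
            rw [show u = s * t from hu]
            conv_lhs => arg 1; arg 1; rw [hst.eq]
            simp [mul_assoc]
        _ = (t * y * t)⁻¹ := by rw [hys]; simp [mul_assoc, inv_eq_of_mul_eq_one_right ht]
    rw [h3, hty] at h4
    calc c' * c' * y⁻¹ * c' * c' = c' * (c' * y⁻¹ * c') * c' := by simp [mul_assoc]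
      _ = y⁻¹ := by rw [h4]; simp [mul_assoc]
  have hπ : π ⟨c', hc'⟩ = 1 := by
    set γ : H := ⟨c', hc'⟩
    set η : H := ⟨y, hy⟩
    have h3 : π γ * π γ * (π η)⁻¹ * π γ * π γ = (π η)⁻¹ := by
      rw [← map_inv, ← map_mul, ← map_mul, ← map_mul, ← map_mul]
      exact congrArg π (Subtype.ext hrel)
    have h5 : π γ ^ 4 = 1 := by
      apply mul_right_cancel (b := (π η)⁻¹)
      rw [one_mul]; conv_rhs => rw [← h3]
      simp only [pow_succ, pow_zero, one_mul, mul_comm, mul_left_comm, mul_assoc]
    have h6 : π γ ^ Nat.card H = 1 := by rw [← map_pow, pow_card_eq_one', map_one]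
    have hco : Nat.Coprime 4 (Nat.card H) := by
      rw [show (4 : ℕ) = 2 ^ 2 from rfl]
      exact (Nat.coprime_two_left.2 hodd).pow_left 2
    have := Nat.dvd_gcd (orderOf_dvd_of_pow_eq_one h5) (orderOf_dvd_of_pow_eq_one h6)
    rw [hco.gcd_eq_one, Nat.dvd_one, orderOf_eq_one_iff] at this
    exact this
  have hd : Commute t ((y⁻¹ * c' * y) * c') := by
    refine (hD (⟨y, hy⟩⁻¹ * ⟨c', hc'⟩ * ⟨y, hy⟩ * ⟨c', hc'⟩) ?_ : _)
    rw [← Abelianization.ker_of, MonoidHom.mem_ker]
    simp [π] at hπ
    simp [hπ]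
  set d := (y⁻¹ * c' * y) * c' with hd'
  have hyd : t * y * t = y * d := by rw [hty, hd']; simp [mul_assoc]
  have hdd : d * d = 1 := by
    have h3 : y = y * d * d := by
      calc y = t * (t * y * t) * t := by
            simp only [← mul_assoc, ht, one_mul]; rw [mul_assoc, ht, mul_one]
        _ = t * y * (d * t) := by rw [hyd]; simp [mul_assoc]
        _ = (t * y * t) * d := by rw [← hd.eq]; simp [mul_assoc]
        _ = y * d * d := by rw [hyd]
    rw [mul_assoc] at h3
    exact left_eq_mul.1 h3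
  have hd1 : d = 1 := eq_one_of_sq hodd
    (H.mul_mem (H.mul_mem (H.mul_mem (H.inv_mem hy) hc') hy) hc') hdd
  rw [hd1, mul_one] at hyd
  show t * y = y * t
  calc t * y = t * y * t * t := by rw [mul_assoc _ t t, ht, mul_one]
    _ = y * t := by rw [hyd]

end Cfsg.Agent.H91.OddInvolutions
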